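import Mathlib

/-!
# S2197: the Tits group has no faithful 2-transitive permutation representation

Specification file: exact statements (as `Prop`-valued definitions) of the abstract pieces.
Each piece `X` is proved elsewhere as a theorem `main : X.{u, v}` (or `X.{u}`, or `X`).

Notation of the sketches: `G` is a finite group of order `17971200 = 2^11 * 3^3 * 5^2 * 13`
acting faithfully and 2-transitively on `Ω`, `n = |Ω|`.  `n (n - 1)` divides `|G|`, so
`n ∈ {3,4,5,6,9,10,13,16,25,26,27,40,65}`; `n ≤ 13` is excluded by `|G| ∤ n!`; `n = 16, 25` by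
Jordan's theorem applied to an element of order 13; `n = 26, 27, 40, 65` by local arguments at the
primes 5, 13, 13, 2, using explicit elements of the Tits group (supplied by Helper61).
-/

set_option autoImplicit false

namespace Cfsg.Agent.Lib.Helper61.T2Stmt

universe u v w

/-- the setting: a group of the order of the Tits group acting faithfully and 2-transitively -/
structure Act (G : Type u) [Group G] (Ω : Type v) [Fintype Ω] [MulAction G Ω] : Prop where
  card : Nat.card G = 17971200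
  two : MulAction.IsMultiplyPretransitive G Ω 2
  faith : FaithfulSMul G Ω

/-- ARITH: the possible degrees. -/
def Arith : Prop := ∀ n : ℕ, 3 ≤ n → n * (n - 1) ∣ 17971200 →
  n = 3 ∨ n = 4 ∨ n = 5 ∨ n = 6 ∨ n = 9 ∨ n = 10 ∨ n = 13 ∨ n = 16 ∨ n = 25 ∨ n = 26 ∨ n = 27 ∨
    n = 40 ∨ n = 65

/-- TOOLS: elementary consequences of 2-transitivity (in element form) and the two
orbit-stabiliser counts. -/
def Tools : Prop := ∀ (G : Type u) [Group G] [Finite G] (Ω : Type v) [Fintype Ω] [MulAction G Ω],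
  MulAction.IsMultiplyPretransitive G Ω 2 → 2 ≤ Fintype.card Ω →
  (∀ α β γ δ : Ω, α ≠ β → γ ≠ δ → ∃ g : G, g • α = γ ∧ g • β = δ) ∧
  (∀ α γ : Ω, ∃ g : G, g • α = γ) ∧
  (∀ α : Ω, Nat.card G = Fintype.card Ω * Nat.card (MulAction.stabilizer G α)) ∧
  (∀ α β : Ω, α ≠ β → Nat.card (MulAction.stabilizer G α) =
    (Fintype.card Ω - 1) * Nat.card ↥(MulAction.stabilizer G α ⊓ MulAction.stabilizer G β))

/-- SMALL: a faithful action needs at least 14 points (`|G|` does not divide `13!`). -/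
def Small : Prop := ∀ (G : Type u) [Group G] [Finite G] (Ω : Type v) [Fintype Ω] [MulAction G Ω],
  FaithfulSMul G Ω → Nat.card G = 17971200 → 14 ≤ Fintype.card Ω

/-- CYC: the cycle structure of an element of order 13: `n = f + 13 c` with `f` the number of
fixed points, and `c ≥ 1` by faithfulness. -/
def Cyc : Prop := ∀ (G : Type u) [Group G] (Ω : Type v) [Fintype Ω] [MulAction G Ω],
  FaithfulSMul G Ω → ∀ x : G, orderOf x = 13 →
  ∃ c : ℕ, 1 ≤ c ∧ Fintype.card Ω = Nat.card {ω : Ω // x • ω = ω} + 13 * c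

/-- SYLFIX: for a transitive group whose order is not divisible by `13^2`, the normaliser of
`⟨x⟩` (`x` of order 13) is transitive on the fixed points of `x`; hence their number divides
`|G|`. -/
def SylFix : Prop := ∀ (G : Type u) [Group G] [Finite G] (Ω : Type v) [Fintype Ω] [MulAction G Ω],
  (∀ α γ : Ω, ∃ g : G, g • α = γ) → ∀ x : G, orderOf x = 13 → ¬ 13 ^ 2 ∣ Nat.card G →
  (∀ α β : Ω, x • α = α → x • β = β → ∃ g : G, g * x * g⁻¹ ∈ Subgroup.zpowers x ∧ g • α = β) ∧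
  ((∃ α : Ω, x • α = α) → Nat.card {ω : Ω // x • ω = ω} ∣ Nat.card G)

/-- JORDAN: a 2-transitive group of degree `n ≥ 16` containing an element of order 13 with
exactly `n - 13` fixed points (a 13-cycle) is 3-transitive (Jordan's theorem, Mathlib
`MulAction.IsPreprimitive.isMultiplyPreprimitive`), so `n (n-1) (n-2)` divides `|G|`. -/
def Jordan : Prop := ∀ (G : Type u) [Group G] [Finite G] (Ω : Type v) [Fintype Ω] [MulAction G Ω],
  FaithfulSMul G Ω → MulAction.IsMultiplyPretransitive G Ω 2 → ∀ x : G, orderOf x = 13 →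
  Nat.card {ω : Ω // x • ω = ω} + 13 = Fintype.card Ω → 16 ≤ Fintype.card Ω →
  Fintype.card Ω * (Fintype.card Ω - 1) * (Fintype.card Ω - 2) ∣ Nat.card G

/-- N1625: degrees 16 and 25 are impossible (`c = 1` in CYC, then JORDAN: `16*15*14` and
`25*24*23` do not divide `17971200`). -/
def N1625 : Prop := Cyc.{u, v} → Jordan.{u, v} →
  ∀ (G : Type u) [Group G] [Finite G] (Ω : Type v) [Fintype Ω] [MulAction G Ω],
  Act G Ω → ∀ x : G, orderOf x = 13 → Fintype.card Ω ≠ 16 ∧ Fintype.card Ω ≠ 25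

/-- P27: degree 27 is impossible.  `27 = f + 13 c` gives `f = 14` (excluded by SYLFIX, `14 ∤ |G|`)
or `f = 1`; then `y` fixes the unique fixed point of `x`, but a point stabiliser has order
`17971200 / 27`, prime to 3. -/
def P27 : Prop := Tools.{u, v} → Cyc.{u, v} → SylFix.{u, v} →
  ∀ (G : Type u) [Group G] [Finite G] (Ω : Type v) [Fintype Ω] [MulAction G Ω],
  Act G Ω → ∀ x y : G, orderOf x = 13 → orderOf y = 3 → y * x * y⁻¹ ∈ Subgroup.zpowers x →
  y⁻¹ * x * y ∈ Subgroup.zpowers x → Fintype.card Ω ≠ 27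

/-- P65: degree 65 is impossible.  Take a Sylow 2-subgroup `S ≤ M` containing `z` (order `2^11`);
it fixes a point `α`; a 2-point stabiliser has order `4320 = 2^5 * 135`, so the `S`-orbits off `α`
have at least `64` points: `S` is transitive on `Ω \ {α}`; `z` is central in `S`, so it has no
fixed point besides `α`; hence `M ≤ C(z) ≤ G_α ≠ ⊤`, `M = G_α`, but `|G_α| = 276480`. -/
def P65 : Prop := Tools.{u, v} →
  ∀ (G : Type u) [Group G] [Finite G] (Ω : Type v) [Fintype Ω] [MulAction G Ω],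
  Act G Ω → ∀ M : Subgroup G, IsCoatom M → Nat.card M = 10240 → ∀ z : G, z ∈ M →
  (∀ m ∈ M, m * z = z * m) → z ≠ 1 → z * z = 1 → Fintype.card Ω ≠ 65

/-- P26: degree 26 is impossible.  `Q` (order 25) fixes a point `α` and is regular on the other
25 points (a 2-point stabiliser has order `27648`, prime to 5).  `y` normalises `Q`, so fixes `α`;
two further fixed points of `y` would give `1 ≠ q ∈ Q` commuting with `y`; so `y` has at most two
fixed points, and every `c ∈ C` (odd order, commuting with `y`) fixes `α`.  So the point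
stabiliser contains generators of `G`. -/
def P26 : Prop := Tools.{u, v} →
  ∀ (G : Type u) [Group G] [Finite G] (Ω : Type v) [Fintype Ω] [MulAction G Ω],
  Act G Ω → ∀ Q : Subgroup G, Nat.card Q = 25 → ∀ y : G, (∀ q ∈ Q, y * q * y⁻¹ ∈ Q) →
  (∀ q ∈ Q, y⁻¹ * q * y ∈ Q) → (∀ q ∈ Q, q * y = y * q → q = 1) →
  ∀ C : Set G, (∀ c ∈ C, c * y = y * c ∧ Odd (orderOf c)) →
  Subgroup.closure ((Q : Set G) ∪ {y} ∪ C) = ⊤ → Fintype.card Ω ≠ 26

/-- CARD25: the subgroup generated by two commuting elements of order 5, the second not a power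
of the first, has order 25 and consists of the `a^i b^j`. -/
def Card25 : Prop := ∀ (G : Type u) [Group G] (a b : G), a ^ 5 = 1 → b ^ 5 = 1 → a * b = b * a →
  a ≠ 1 → (∀ k : ℕ, k < 5 → b ≠ a ^ k) →
  Nat.card (Subgroup.closure {a, b}) = 25 ∧
    ∀ q ∈ Subgroup.closure {a, b}, ∃ i j : ℕ, i < 5 ∧ j < 5 ∧ q = a ^ i * b ^ j

/-- CQ: if `y` commutes with none of the generators `a, b, a b^k` of the six subgroups of order 5
of `⟨a, b⟩`, it commutes with no non-identity element of `⟨a, b⟩`. -/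
def CQ : Prop := ∀ (G : Type u) [Group G] (a b y : G), a ^ 5 = 1 → b ^ 5 = 1 → a * b = b * a →
  a * y ≠ y * a → b * y ≠ y * b → (∀ k : ℕ, 1 ≤ k → k < 5 → a * b ^ k * y ≠ y * (a * b ^ k)) →
  ∀ q ∈ Subgroup.closure {a, b}, q * y = y * q → q = 1

/-- P40A: in degree 40 an element of order 13 has exactly one fixed point (`f = 27`: JORDAN,
`40*39*38 ∤ |G|`; `f = 14`: SYLFIX, `14 ∤ |G|`). -/
def P40A : Prop := Tools.{u, v} → Cyc.{u, v} → SylFix.{u, v} → Jordan.{u, v} →
  ∀ (G : Type u) [Group G] [Finite G] (Ω : Type v) [Fintype Ω] [MulAction G Ω],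
  Act G Ω → Fintype.card Ω = 40 → ∀ x : G, orderOf x = 13 →
  ∃ α : Ω, x • α = α ∧ ∀ γ : Ω, x • γ = γ → γ = α

/-- P40B: `x` of order 13 with a unique fixed point `α` on 40 points (so `⟨x⟩` has four orbits:
`{α}` and three regular ones); `u` normalises `⟨x⟩` without centralising it.  Then two fixed
points of `u` in the same `⟨x⟩`-orbit coincide; `u` has at most 4 fixed points; if it has exactly
4, every `⟨x⟩`-orbit contains one. -/
def P40B : Prop := ∀ (G : Type u) [Group G] (Ω : Type v) [Fintype Ω] [MulAction G Ω],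
  Fintype.card Ω = 40 → ∀ (x u : G) (α : Ω), orderOf x = 13 → x • α = α →
  (∀ γ : Ω, x • γ = γ → γ = α) → u * x * u⁻¹ ∈ Subgroup.zpowers x → u * x ≠ x * u →
  (∀ β γ : Ω, u • β = β → u • γ = γ → (∃ k : ℕ, γ = x ^ k • β) → β = γ) ∧
  Nat.card {γ : Ω // u • γ = γ} ≤ 4 ∧
  (Nat.card {γ : Ω // u • γ = γ} = 4 → ∀ β : Ω, ∃ k : ℕ, u • (x ^ k • β) = x ^ k • β)

/-- the normaliser data at an element `x` of order 13: `w` of order 6 acting faithfully on
`⟨x⟩` -/
structure N13 {G : Type u} [Group G] (x w : G) : Prop where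
  ox : orderOf x = 13
  nrm : ∀ k : ℕ, w ^ k * x * (w ^ k)⁻¹ ∈ Subgroup.zpowers x
  nrm' : w⁻¹ * x * w ∈ Subgroup.zpowers x
  w6 : w ^ 6 = 1
  nc2 : w ^ 2 * x ≠ x * w ^ 2
  nc3 : w ^ 3 * x ≠ x * w ^ 3

/-- the three possible configurations of the fixed points of `w^2` (order 3) and `w^3`
(order 2) -/
def Trich {G : Type u} [Group G] {Ω : Type v} [MulAction G Ω] (w : G) (α : Ω) : Prop :=
  (∀ γ : Ω, w ^ 2 • γ = γ → γ = α) ∨
  (∃ β : Ω, ∀ γ : Ω, w ^ 3 • γ = γ → γ = α ∨ γ = β) ∨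
  (∃ F : Finset Ω, F.card = 4 ∧ (∀ γ : Ω, w ^ 2 • γ = γ ↔ γ ∈ F) ∧
    (∀ γ : Ω, w ^ 3 • γ = γ ↔ γ ∈ F))

/-- P40C: the trichotomy.  `w` fixes `α`.  By P40B and the fixed point congruences (`40 ≡ 1` mod
3, `40 ≡ 0` mod 2), `w^2` has 1 or 4 fixed points and `w^3` has 2 or 4.  If both have 4: for a
fixed point `β` of `w^2`, the orbit `⟨x⟩ β` contains a fixed point of `w^3`, so `w^3 β ∈ ⟨x⟩ β` is
a fixed point of `w^2`, so `w^3 β = β`: the two fixed point sets coincide. -/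
def P40C : Prop := P40B.{u, v} →
  ∀ (G : Type u) [Group G] (Ω : Type v) [Fintype Ω] [MulAction G Ω], Fintype.card Ω = 40 →
  ∀ (x w : G) (α : Ω), N13 x w → x • α = α → (∀ γ : Ω, x • γ = γ → γ = α) →
  w • α = α ∧ Trich w α

/-- P40E: the end of degree 40.  Case 1: `A ∪ {x, w}` fixes `α`.  Case 2: `B ∪ {x, w}` fixes `α`
(an element of odd order permuting a set of at most two points fixes them).  Case 3: `A ∪ B`
preserves a set of 4 points.  Each contradicts transitivity. -/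
def P40E : Prop := Tools.{u, v} →
  ∀ (G : Type u) [Group G] [Finite G] (Ω : Type v) [Fintype Ω] [MulAction G Ω],
  Act G Ω → Fintype.card Ω = 40 → ∀ (x w : G) (α : Ω), x • α = α → w • α = α → Trich w α →
  ∀ A B : Set G, (∀ a ∈ A, a * w ^ 2 = w ^ 2 * a) →
  (∀ b ∈ B, b * w ^ 3 = w ^ 3 * b ∧ Odd (orderOf b)) →
  Subgroup.closure ({x, w} ∪ A) = ⊤ → Subgroup.closure ({x, w} ∪ B) = ⊤ →
  Subgroup.closure (A ∪ B) = ⊤ → False

/-- TRANSPORT: a faithful 2-transitive action transports along an isomorphism of groups. -/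
def Transport : Prop := ∀ (G : Type u) (G' : Type w) [Group G] [Group G'] (_ : G' ≃* G)
  (Ω : Type v) [Fintype Ω] [MulAction G Ω],
  FaithfulSMul G Ω → MulAction.IsMultiplyPretransitive G Ω 2 →
  ∃ inst : MulAction G' Ω, @FaithfulSMul G' Ω inst.toSMul ∧
    @MulAction.IsMultiplyPretransitive G' Ω _ inst 2

/-- the element data of the Tits group -/
structure Dat (G : Type u) [Group G] : Prop where
  card : Nat.card G = 17971200
  n13 : ∃ x w : G, N13 x w ∧ ∃ A B : Set G, (∀ a ∈ A, a * w ^ 2 = w ^ 2 * a) ∧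
    (∀ b ∈ B, b * w ^ 3 = w ^ 3 * b ∧ Odd (orderOf b)) ∧
    Subgroup.closure ({x, w} ∪ A) = ⊤ ∧ Subgroup.closure ({x, w} ∪ B) = ⊤ ∧
    Subgroup.closure (A ∪ B) = ⊤
  m2 : ∃ M : Subgroup G, IsCoatom M ∧ Nat.card M = 10240 ∧ ∃ z : G, z ∈ M ∧
    (∀ m ∈ M, m * z = z * m) ∧ z ≠ 1 ∧ z * z = 1
  q5 : ∃ Q : Subgroup G, Nat.card Q = 25 ∧ ∃ y : G, (∀ q ∈ Q, y * q * y⁻¹ ∈ Q) ∧
    (∀ q ∈ Q, y⁻¹ * q * y ∈ Q) ∧ (∀ q ∈ Q, q * y = y * q → q = 1) ∧
    ∃ C : Set G, (∀ c ∈ C, c * y = y * c ∧ Odd (orderOf c)) ∧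
      Subgroup.closure ((Q : Set G) ∪ {y} ∪ C) = ⊤

/-- Assembly of the pieces. -/
theorem assembly (arith : Arith) (tools : Tools.{u, v}) (small : Small.{u, v}) (cyc : Cyc.{u, v})
    (sylfix : SylFix.{u, v}) (jordan : Jordan.{u, v}) (n1625 : N1625.{u, v}) (p27 : P27.{u, v})
    (p65 : P65.{u, v}) (p26 : P26.{u, v}) (p40a : P40A.{u, v}) (p40b : P40B.{u, v})
    (p40c : P40C.{u, v}) (p40e : P40E.{u, v})
    (G : Type u) [Group G] [Finite G] (dat : Dat G)
    (Ω : Type v) [Fintype Ω] [MulAction G Ω] [FaithfulSMul G Ω] (hΩ : 3 ≤ Fintype.card Ω) :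
    ¬ MulAction.IsMultiplyPretransitive G Ω 2 := by
  intro h2
  have act : Act G Ω := ⟨dat.card, h2, inferInstance⟩
  obtain ⟨-, -, t3, t4⟩ := tools G Ω h2 (by omega)
  obtain ⟨α, β, hαβ⟩ := Fintype.one_lt_card_iff.mp (show 1 < Fintype.card Ω by omega)
  have hdiv : Fintype.card Ω * (Fintype.card Ω - 1) ∣ 17971200 := by
    have h1 := t3 α
    rw [t4 α β hαβ, dat.card] at h1
    exact ⟨_, by rw [h1, mul_assoc]⟩
  have h14 := small G Ω inferInstance dat.card
  obtain ⟨x, w, hxw, A, B, hA, hB, g1, g2, g3⟩ := dat.n13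
  have h16 := n1625 cyc jordan G Ω act x hxw.ox
  -- the element of order 3
  have hw4 : w ^ 4 * w ^ 2 = 1 := by rw [← pow_add]; exact hxw.w6
  have hinv : (w ^ 2)⁻¹ = w ^ 4 := inv_eq_of_mul_eq_one_left hw4
  have hinv' : (w ^ 4)⁻¹ = w ^ 2 := inv_eq_of_mul_eq_one_right hw4
  have hy3 : orderOf (w ^ 2) = 3 := by
    haveI : Fact (Nat.Prime 3) := ⟨by norm_num⟩
    apply orderOf_eq_prime
    · rw [← pow_mul]; exact hxw.w6
    · intro h
      apply hxw.nc2
      rw [h, one_mul, mul_one]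
  have h27 : Fintype.card Ω ≠ 27 := by
    refine p27 tools cyc sylfix G Ω act x (w ^ 2) hxw.ox hy3 (hxw.nrm 2) ?_
    have := hxw.nrm 4
    rwa [hinv', ← hinv] at this
  obtain ⟨M, hM, hMc, z, hzM, hzc, hz1, hz2⟩ := dat.m2
  have h65 : Fintype.card Ω ≠ 65 := p65 tools G Ω act M hM hMc z hzM hzc hz1 hz2
  obtain ⟨Q, hQ, y, hy1, hy2, hy3', C, hC, hgen⟩ := dat.q5
  have h26 : Fintype.card Ω ≠ 26 := p26 tools G Ω act Q hQ y hy1 hy2 hy3' C hC hgen
  have h40 : Fintype.card Ω ≠ 40 := by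
    intro h40
    obtain ⟨α, hα, hα'⟩ := p40a tools cyc sylfix jordan G Ω act h40 x hxw.ox
    obtain ⟨hwα, tr⟩ := p40c p40b G Ω h40 x w α hxw hα hα'
    exact p40e tools G Ω act h40 x w α hα hwα tr A B hA hB g1 g2 g3
  rcases arith _ hΩ hdiv with h | h | h | h | h | h | h | h | h | h | h | h | h
  all_goals omega

end Cfsg.Agent.Lib.Helper61.T2Stmt
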