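import Mathlib
import Cfsg.Agent.Lib.Helper32.D8Stmt
import Cfsg.Agent.Lib.Helper26.GenChar

/-!
# S3716 piece C2A: the main case of the fusion `a ~ a*b` (six uses of PAIR, then ALG2).
-/

set_option autoImplicit false

namespace Cfsg.Agent.Lib.Helper61.D8C2A

open Cfsg Cfsg.Agent.Lib.Helper32.D8Stmt
open scoped ComplexConjugate

universe u

variable {G : Type u} [Group G] [Fintype G]

theorem ci_sub_left (f₁ f₂ ψ : G → ℂ) :
    classInner (f₁ - f₂) ψ = classInner f₁ ψ - classInner f₂ ψ := by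
  simp only [classInner, Pi.sub_apply, sub_mul, Finset.sum_sub_distrib, mul_sub]

theorem ci_sub_right (φ ψ₁ ψ₂ : G → ℂ) :
    classInner φ (ψ₁ - ψ₂) = classInner φ ψ₁ - classInner φ ψ₂ := by
  simp only [classInner, Pi.sub_apply, map_sub, mul_sub, Finset.sum_sub_distrib]

theorem bb_sub (Θ Θ' : G → ℂ) (u v : G) : bb (Θ - Θ') u v = bb Θ u v - bb Θ' u v := by
  simp only [bb, Pi.sub_apply, Finset.sum_sub_distrib, mul_sub]

theorem norm_sub (Θ Θ' : G → ℂ) (p q r s : ℂ) (h1 : classInner Θ Θ = p)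
    (h2 : classInner Θ Θ' = q) (h3 : classInner Θ' Θ = r) (h4 : classInner Θ' Θ' = s) :
    classInner (Θ - Θ') (Θ - Θ') = p - q - r + s := by
  rw [ci_sub_left, ci_sub_right, ci_sub_right, h1, h2, h3, h4]; ring

theorem ex_p (c A : ℂ) (hc : c ≠ 0) : ∃ p : ℂ, A = 1 - c * p := by
  refine ⟨(1 - A) / c, ?_⟩
  have h : c * ((1 - A) / c) = 1 - A := by field_simp
  rw [h]; ring

theorem main (hPAIR : PAIR.{u}) (hALG2 : ALG2) : C2A.{u} := by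
  intro G _ _ Θ1 Θ2 Θ3 Θ4 a w ca cw hB hca hcw hmod hTab X U e s hX hU hXt hUt he hs
    h1X h2X h3X h4X h1U h2U h3U h4U
  obtain ⟨⟨hα1, hβ1, hγ1⟩, ⟨hα2, hβ2, hγ2⟩, ⟨hα3, hβ3, hγ3⟩, ⟨hα4, hβ4, hγ4⟩⟩ := hTab
  have htriv : IsIrrCharacter G (triv G) := Cfsg.Agent.Lib.CT.Ops.isIrrCharacter_one
  have ht : ∀ g : G, triv G g = 1 := fun _ => rfl
  have hn : (Nat.card G : ℂ) ≠ 0 := by
    exact_mod_cast Nat.card_pos.ne'
  -- degrees
  obtain ⟨dX, hdX⟩ := Cfsg.Agent.Lib.CT.Wedderburn.char_exists_apply_one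
    (Cfsg.Agent.Lib.CT.Wedderburn.isCharacter_of_irr hX)
  obtain ⟨dU, hdU⟩ := Cfsg.Agent.Lib.CT.Wedderburn.char_exists_apply_one
    (Cfsg.Agent.Lib.CT.Wedderburn.isCharacter_of_irr hU)
  -- the integers `mX`, `mU`
  obtain ⟨mX, hmX, hmX9⟩ : ∃ mX : ℤ, (mX : ℂ) = e * X 1 ∧ mX % 9 = 2 := by
    obtain ⟨k, hk⟩ := hmod X hX
    rw [h1X, h2X, h3X, h4X, hdX] at hk
    rcases he with he | he
    · refine ⟨(dX : ℤ), by rw [he, hdX]; push_cast; ring, ?_⟩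
      rw [he] at hk
      have hk' : (dX : ℤ) + 16 = 9 * k := by
        have h : ((dX : ℤ) : ℂ) + 16 = ((9 * k : ℤ) : ℂ) := by
          push_cast; linear_combination hk
        exact_mod_cast h
      omega
    · refine ⟨-(dX : ℤ), by rw [he, hdX]; push_cast; ring, ?_⟩
      rw [he] at hk
      have hk' : (dX : ℤ) - 16 = 9 * k := by
        have h : ((dX : ℤ) : ℂ) - 16 = ((9 * k : ℤ) : ℂ) := by
          push_cast; linear_combination hk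
        exact_mod_cast h
      omega
  obtain ⟨mU, hmU, hmU9⟩ : ∃ mU : ℤ, (mU : ℂ) = s * U 1 ∧ mU % 9 = 1 := by
    obtain ⟨k, hk⟩ := hmod U hU
    rw [h1U, h2U, h3U, h4U, hdU] at hk
    rcases hs with hs | hs
    · refine ⟨(dU : ℤ), by rw [hs, hdU]; push_cast; ring, ?_⟩
      rw [hs] at hk
      have hk' : (dU : ℤ) + 8 = 9 * k := by
        have h : ((dU : ℤ) : ℂ) + 8 = ((9 * k : ℤ) : ℂ) := by
          push_cast; linear_combination hk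
        exact_mod_cast h
      omega
    · refine ⟨-(dU : ℤ), by rw [hs, hdU]; push_cast; ring, ?_⟩
      rw [hs] at hk
      have hk' : (dU : ℤ) - 8 = 9 * k := by
        have h : ((dU : ℤ) : ℂ) - 8 = ((9 * k : ℤ) : ℂ) := by
          push_cast; linear_combination hk
        exact_mod_cast h
      omega
  -- the coordinates
  obtain ⟨px, hXa⟩ := ex_p ca (X a / X 1) hca
  obtain ⟨py, hXw⟩ := ex_p cw (X w / X 1) hcw
  obtain ⟨ux, hUa⟩ := ex_p ca (U a / U 1) hca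
  obtain ⟨uy, hUw⟩ := ex_p cw (U w / U 1) hcw
  -- the six PAIR relations
  have P1 := hPAIR Θ1 (triv G) X 1 e a w hB.g1 hB.o1 hB.n11 hB.a1 hB.w1 htriv hX (Ne.symm hXt)
    (Or.inl rfl) he hB.t1 h1X
  have P2 := hPAIR Θ3 (triv G) X 1 e a w hB.g3 hB.o3 hB.n33 hB.a3 hB.w3 htriv hX (Ne.symm hXt)
    (Or.inl rfl) he hB.t3 h3X
  have hXU : X ≠ U := by
    intro h
    rw [h, h1U] at h1X
    rcases he with he | he <;> rw [he] at h1X <;> norm_num at h1X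
  have P3 := hPAIR Θ2 X U e s a w hB.g2 hB.o2 hB.n22 hB.a2 hB.w2 hX hU hXU he hs h2X h2U
  have P4 := hPAIR Θ4 X U e s a w hB.g4 hB.o4 hB.n44 hB.a4 hB.w4 hX hU hXU he hs h4X h4U
  -- `Θ1 - Θ4`
  have g14 : IsGeneralizedCharacter G (Θ1 - Θ4) :=
    Cfsg.Agent.Lib.Helper26.GenChar.isGeneralizedCharacter_sub hB.g1 hB.g4
  have o14 : (Θ1 - Θ4) 1 = 0 := by rw [Pi.sub_apply, hB.o1, hB.o4, sub_zero]
  have n14 : classInner (Θ1 - Θ4) (Θ1 - Θ4) = 4 := by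
    rw [norm_sub Θ1 Θ4 4 2 2 4 hB.n11 hB.n14 hB.n41 hB.n44]; norm_num
  have a14 : (Θ1 - Θ4) a = 0 := by rw [Pi.sub_apply, hB.a1, hB.a4, sub_zero]
  have w14 : (Θ1 - Θ4) w = 0 := by rw [Pi.sub_apply, hB.w1, hB.w4, sub_zero]
  have t14 : classInner (Θ1 - Θ4) (triv G) = 1 := by rw [ci_sub_left, hB.t1, hB.t4, sub_zero]
  have u14 : classInner (Θ1 - Θ4) U = -s := by rw [ci_sub_left, h1U, h4U, zero_sub]
  have hs' : (-s = 1 ∨ -s = -1) := by rcases hs with h | h <;> rw [h] <;> norm_num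
  have P5 := hPAIR (Θ1 - Θ4) (triv G) U 1 (-s) a w g14 o14 n14 a14 w14 htriv hU (Ne.symm hUt)
    (Or.inl rfl) hs' t14 u14
  -- `Θ2 - Θ3`
  have g23 : IsGeneralizedCharacter G (Θ2 - Θ3) :=
    Cfsg.Agent.Lib.Helper26.GenChar.isGeneralizedCharacter_sub hB.g2 hB.g3
  have o23 : (Θ2 - Θ3) 1 = 0 := by rw [Pi.sub_apply, hB.o2, hB.o3, sub_zero]
  have n23 : classInner (Θ2 - Θ3) (Θ2 - Θ3) = 4 := by
    rw [norm_sub Θ2 Θ3 4 2 2 4 hB.n22 hB.n23 hB.n32 hB.n33]; norm_num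
  have a23 : (Θ2 - Θ3) a = 0 := by rw [Pi.sub_apply, hB.a2, hB.a3, sub_zero]
  have w23 : (Θ2 - Θ3) w = 0 := by rw [Pi.sub_apply, hB.w2, hB.w3, sub_zero]
  have t23 : classInner (Θ2 - Θ3) (triv G) = -1 := by rw [ci_sub_left, hB.t2, hB.t3, zero_sub]
  have u23 : classInner (Θ2 - Θ3) U = s := by rw [ci_sub_left, h2U, h3U, sub_zero]
  have P6 := hPAIR (Θ2 - Θ3) (triv G) U (-1) s a w g23 o23 n23 a23 w23 htriv hU (Ne.symm hUt)
    (Or.inr rfl) hs t23 u23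
  -- substitute
  have hmU' : -s * U 1 = -(mU : ℂ) := by rw [hmU]; ring
  simp only [ht, hXa, hXw, ← hmX, hα1, hβ1, hγ1] at P1
  simp only [ht, hXa, hXw, ← hmX, hα3, hβ3, hγ3] at P2
  simp only [hXa, hXw, hUa, hUw, ← hmX, ← hmU, hα2, hβ2, hγ2] at P3
  simp only [hXa, hXw, hUa, hUw, ← hmX, ← hmU, hα4, hβ4, hγ4] at P4
  simp only [ht, bb_sub, hUa, hUw, hmU', hα1, hβ1, hγ1, hα4, hβ4, hγ4] at P5
  simp only [ht, bb_sub, hUa, hUw, ← hmU, hα2, hβ2, hγ2, hα3, hβ3, hγ3] at P6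
  generalize (Nat.card G : ℂ) = n at *
  have k : ca ^ 2 * cw ^ 2 * n⁻¹ ≠ 0 :=
    mul_ne_zero (mul_ne_zero (pow_ne_zero 2 hca) (pow_ne_zero 2 hcw)) (inv_ne_zero hn)
  have E1' : (mX : ℂ) * (px ^ 2 + 8 * py ^ 2) = 8 * (1 + mX) * n⁻¹ := by
    apply mul_left_cancel₀ k
    linear_combination P1
  have E2' : (mX : ℂ) * (px ^ 2 - 6 * px * py + 11 * py ^ 2) = (1 + mX) * n⁻¹ := by
    apply mul_left_cancel₀ k
    linear_combination 2 * P2
  have E3' : (mX : ℂ) * mU * ((ux - px) ^ 2 + 2 * (uy - py) ^ 2) = 2 * (mX + mU) * n⁻¹ := by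
    apply mul_left_cancel₀ k
    linear_combination P3
  have E4' : (mX : ℂ) * mU * ((ux - px) ^ 2 + 6 * (ux - px) * (uy - py) + 11 * (uy - py) ^ 2)
      = (mX + mU) * n⁻¹ := by
    apply mul_left_cancel₀ k
    linear_combination 2 * P4
  have E5' : (mU : ℂ) * (ux ^ 2 - 6 * ux * uy + 5 * uy ^ 2) = 2 * (1 - mU) * n⁻¹ := by
    apply mul_left_cancel₀ k
    linear_combination (-2) * P5
  have E6' : (mU : ℂ) * (ux ^ 2 + 6 * ux * uy - 7 * uy ^ 2) = -8 * (1 - mU) * n⁻¹ := by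
    apply mul_left_cancel₀ k
    linear_combination (-2) * P6
  have E1 : (mX : ℂ) * (px ^ 2 + 8 * py ^ 2) * n = 8 * (1 + mX) := by
    rw [E1', inv_mul_cancel_right₀ hn]
  have E2 : (mX : ℂ) * (px ^ 2 - 6 * px * py + 11 * py ^ 2) * n = 1 + mX := by
    rw [E2', inv_mul_cancel_right₀ hn]
  have E3 : (mX : ℂ) * mU * ((ux - px) ^ 2 + 2 * (uy - py) ^ 2) * n = 2 * (mX + mU) := by
    rw [E3', inv_mul_cancel_right₀ hn]
  have E4 : (mX : ℂ) * mU * ((ux - px) ^ 2 + 6 * (ux - px) * (uy - py) + 11 * (uy - py) ^ 2) * n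
      = mX + mU := by
    rw [E4', inv_mul_cancel_right₀ hn]
  have E5 : (mU : ℂ) * (ux ^ 2 - 6 * ux * uy + 5 * uy ^ 2) * n = 2 * (1 - mU) := by
    rw [E5', inv_mul_cancel_right₀ hn]
  have E6 : (mU : ℂ) * (ux ^ 2 + 6 * ux * uy - 7 * uy ^ 2) * n = -8 * (1 - mU) := by
    rw [E6', inv_mul_cancel_right₀ hn]
  have hmU1 := hALG2 px py ux uy n mX mU hn hmX9 hmU9 E1 E2 E3 E4 E5 E6
  rw [hmU1] at hmU
  rcases hs with hs | hs
  · rw [hs, one_mul] at hmU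
    rw [← hmU]; norm_num
  · exfalso
    rw [hs, hdU] at hmU
    have h : ((1 : ℤ) : ℂ) = ((-(dU : ℤ) : ℤ) : ℂ) := by push_cast; linear_combination hmU
    have h2 : (1 : ℤ) = -(dU : ℤ) := by exact_mod_cast h
    omega

end Cfsg.Agent.Lib.Helper61.D8C2A
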