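import Mathlib
import Cfsg.Agent.Lib.Helper25.ACStmt

/-!
# S3912 / SYLUNIQ (second seat, helper61)

A Sylow `r`-subgroup with an element of order `r²` in a group with (B) has a unique subgroup of
order `r`.
-/

set_option autoImplicit false

universe u

namespace Cfsg.Agent.Lib.Helper61.ACSYLUNIQ

open Cfsg.Agent.Lib.Helper25.ACStmt

/-- two commuting elements `z`, `x` of prime order `r` with `x ∉ ⟨z⟩` span an abelian subgroup of
order `r * r` all of whose elements have `y ^ r = 1` -/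
theorem exists_rank_two {G : Type u} [Group G] [Finite G] (r : ℕ) (hr : r.Prime) (z x : G)
    (hz : orderOf z = r) (hx : orderOf x = r) (hzx : Commute z x)
    (hnot : x ∉ Subgroup.zpowers z) :
    ∃ E : Subgroup G, IsMulCommutative ↥E ∧ Nat.card ↥E = r * r ∧ ∀ y ∈ E, y ^ r = 1 := by
  have hcomm : ∀ (m : ↥(Subgroup.zpowers z)) (n : ↥(Subgroup.zpowers x)),
      Commute ((Subgroup.zpowers z).subtype m) ((Subgroup.zpowers x).subtype n) := by
    rintro ⟨m, hm⟩ ⟨n, hn⟩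
    obtain ⟨i, rfl⟩ := Subgroup.mem_zpowers_iff.mp hm
    obtain ⟨j, rfl⟩ := Subgroup.mem_zpowers_iff.mp hn
    exact hzx.zpow_zpow i j
  -- the intersection is trivial
  have hinf : Subgroup.zpowers z ⊓ Subgroup.zpowers x = ⊥ := by
    have hcx : Nat.card ↥(Subgroup.zpowers x) = r := by rw [Nat.card_zpowers, hx]
    have hdvd : Nat.card ↥(Subgroup.zpowers z ⊓ Subgroup.zpowers x) ∣ r := by
      rw [← hcx]
      exact Subgroup.card_dvd_of_le inf_le_right
    rcases (Nat.dvd_prime hr).mp hdvd with h1 | h1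
    · exact Subgroup.card_eq_one.mp h1
    · exfalso
      apply hnot
      have heq : Subgroup.zpowers z ⊓ Subgroup.zpowers x = Subgroup.zpowers x :=
        Subgroup.eq_of_le_of_card_ge inf_le_right (by rw [h1, hcx])
      have hle : Subgroup.zpowers x ≤ Subgroup.zpowers z := by
        rw [← heq]
        exact inf_le_left
      exact hle (Subgroup.mem_zpowers x)
  let φ : ↥(Subgroup.zpowers z) × ↥(Subgroup.zpowers x) →* G :=
    MonoidHom.noncommCoprod (Subgroup.zpowers z).subtype (Subgroup.zpowers x).subtype hcomm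
  have hφ : ∀ p : ↥(Subgroup.zpowers z) × ↥(Subgroup.zpowers x),
      φ p = (p.1 : G) * (p.2 : G) := fun p => rfl
  have hinj : Function.Injective φ := by
    rw [MonoidHom.noncommCoprod_injective]
    refine ⟨Subtype.coe_injective, Subtype.coe_injective, ?_⟩
    rw [Subgroup.range_subtype, Subgroup.range_subtype, disjoint_iff, hinf]
  have hpow : ∀ (a : G), a ∈ Subgroup.zpowers z → a ^ r = 1 := by
    intro a ha
    obtain ⟨i, rfl⟩ := Subgroup.mem_zpowers_iff.mp ha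
    rw [← zpow_natCast, ← zpow_mul, mul_comm, zpow_mul, zpow_natCast, ← hz, pow_orderOf_eq_one,
      one_zpow]
  have hpow' : ∀ (a : G), a ∈ Subgroup.zpowers x → a ^ r = 1 := by
    intro a ha
    obtain ⟨i, rfl⟩ := Subgroup.mem_zpowers_iff.mp ha
    rw [← zpow_natCast, ← zpow_mul, mul_comm, zpow_mul, zpow_natCast, ← hx, pow_orderOf_eq_one,
      one_zpow]
  refine ⟨φ.range, ⟨⟨?_⟩⟩, ?_, ?_⟩
  · rintro ⟨_, ⟨⟨a, b⟩, rfl⟩⟩ ⟨_, ⟨⟨a', b'⟩, rfl⟩⟩
    apply Subtype.ext
    show φ (a, b) * φ (a', b') = φ (a', b') * φ (a, b)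
    rw [hφ, hφ]
    obtain ⟨i, hi⟩ := Subgroup.mem_zpowers_iff.mp a.2
    obtain ⟨i', hi'⟩ := Subgroup.mem_zpowers_iff.mp a'.2
    obtain ⟨j, hj⟩ := Subgroup.mem_zpowers_iff.mp b.2
    obtain ⟨j', hj'⟩ := Subgroup.mem_zpowers_iff.mp b'.2
    show (a : G) * (b : G) * ((a' : G) * (b' : G)) = (a' : G) * (b' : G) * ((a : G) * (b : G))
    rw [← hi, ← hi', ← hj, ← hj']
    have h1 : Commute (z ^ i) (z ^ i') := (Commute.refl z).zpow_zpow i i'
    have h2 : Commute (z ^ i) (x ^ j') := hzx.zpow_zpow i j'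
    have h3 : Commute (x ^ j) (z ^ i') := (hzx.zpow_zpow i' j).symm
    have h4 : Commute (x ^ j) (x ^ j') := (Commute.refl x).zpow_zpow j j'
    exact (h1.mul_right h2).mul_left (h3.mul_right h4)
  · have h1 : Nat.card ↥φ.range = Nat.card (↥(Subgroup.zpowers z) × ↥(Subgroup.zpowers x)) :=
      (Nat.card_congr (MonoidHom.ofInjective hinj).toEquiv).symm
    rw [h1, Nat.card_prod, Nat.card_zpowers, Nat.card_zpowers, hz, hx]
  · rintro _ ⟨⟨a, b⟩, rfl⟩
    rw [hφ]
    have hc : Commute (a : G) (b : G) := hcomm a b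
    rw [hc.mul_pow, hpow _ a.2, hpow' _ b.2, one_mul]

theorem main : SylUniq.{u} := by
  intro G _ _ hB r _ R ⟨x₀, hx₀R, hx₀⟩
  have hr : r.Prime := Fact.out
  have hRp : IsPGroup r ↥(R : Subgroup G) := R.isPGroup'
  -- an element `c` of order `r ^ 2`
  obtain ⟨k, hk⟩ : ∃ k, orderOf x₀ = r ^ k := by
    obtain ⟨k, hk⟩ := (IsPGroup.iff_orderOf.mp hRp) ⟨x₀, hx₀R⟩
    exact ⟨k, by rw [← hk, Subgroup.orderOf_mk]⟩
  have hk2 : 2 ≤ k := by
    by_contra h
    apply hx₀
    have hd : orderOf x₀ ∣ r := by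
      rw [hk]
      have hk1 : k ≤ 1 := by omega
      calc r ^ k ∣ r ^ 1 := pow_dvd_pow r hk1
        _ = r := pow_one r
    exact orderOf_dvd_iff_pow_eq_one.mp hd
  have hdvd2 : r ^ 2 ∣ orderOf x₀ := by
    rw [hk]
    exact pow_dvd_pow r hk2
  have hcord : orderOf (x₀ ^ (orderOf x₀ / r ^ 2)) = r ^ 2 :=
    orderOf_pow_orderOf_div (orderOf_pos x₀).ne' hdvd2
  -- a central element of order `r`
  have hx₀1 : x₀ ≠ 1 := by
    intro h
    apply hx₀
    rw [h, one_pow]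
  have hnt : Nontrivial ↥(R : Subgroup G) := by
    refine ⟨⟨⟨x₀, hx₀R⟩, 1, ?_⟩⟩
    intro h
    exact hx₀1 (congrArg Subtype.val h)
  have hnt2 : Nontrivial ↥(Subgroup.center ↥(R : Subgroup G)) := hRp.center_nontrivial
  have hZp : IsPGroup r ↥(Subgroup.center ↥(R : Subgroup G)) := hRp.to_subgroup _
  have hdvd : r ∣ Nat.card ↥(Subgroup.center ↥(R : Subgroup G)) := by
    rcases hZp.card_eq_or_dvd with h | h
    · exact absurd h (Finite.one_lt_card).ne'
    · exact h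
  obtain ⟨z0, hz0⟩ := exists_prime_orderOf_dvd_card' r hdvd
  have hzR : (((z0 : ↥(R : Subgroup G)) : G)) ∈ (R : Subgroup G) := (z0 : ↥(R : Subgroup G)).2
  have hzord : orderOf (((z0 : ↥(R : Subgroup G)) : G)) = r := by
    rw [Subgroup.orderOf_coe, Subgroup.orderOf_coe]
    exact hz0
  have hzc : ∀ y ∈ (R : Subgroup G), Commute (((z0 : ↥(R : Subgroup G)) : G)) y := by
    intro y hy
    have hc := Subgroup.mem_center_iff.mp z0.2 ⟨y, hy⟩
    exact (congrArg Subtype.val hc).symm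
  refine ⟨Subgroup.zpowers (((z0 : ↥(R : Subgroup G)) : G)), ?_, ?_, ?_⟩
  · rw [Subgroup.zpowers_le]
    exact hzR
  · rw [Nat.card_zpowers, hzord]
  · intro x hxR hxord
    by_contra hnot
    obtain ⟨E, hEc, hEcard, hEpow⟩ :=
      exists_rank_two r hr _ x hzord hxord (hzc x hxR) hnot
    have hCcard : Nat.card ↥E = Nat.card ↥(Subgroup.zpowers (x₀ ^ (orderOf x₀ / r ^ 2))) := by
      rw [hEcard, Nat.card_zpowers, hcord, pow_two]
    obtain ⟨g, hg⟩ := hB E (Subgroup.zpowers (x₀ ^ (orderOf x₀ / r ^ 2))) hEc inferInstance hCcard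
    have hcmem : x₀ ^ (orderOf x₀ / r ^ 2) ∈ E.map (MulAut.conj g).toMonoidHom := by
      rw [← hg]
      exact Subgroup.mem_zpowers _
    obtain ⟨y, hyE, hy⟩ := hcmem
    have h1 : (x₀ ^ (orderOf x₀ / r ^ 2)) ^ r = 1 := by
      rw [← hy, ← map_pow, hEpow y hyE, map_one]
    have h2 : r ^ 2 ∣ r := by
      rw [← hcord]
      exact orderOf_dvd_of_pow_eq_one h1
    have h3 : r ^ 2 ≤ r := Nat.le_of_dvd hr.pos h2
    have h4 : 2 ≤ r := hr.two_le
    nlinarith

end Cfsg.Agent.Lib.Helper61.ACSYLUNIQ
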