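import Mathlib

set_option autoImplicit false

/-!
# A computable model of the field with sixteen elements

Elements are the numbers `0, …, 15`, read as polynomials over `𝔽₂` modulo `t⁴ + t + 1`; addition is
bitwise exclusive or and multiplication is a table lookup.
-/

namespace Cfsg.Agent.Lib.Helper61.F16

/-- The field with sixteen elements, as codes below sixteen. -/
structure GF16 where
  /-- the code -/
  v : ℕ
  /-- the bound -/
  h : v < 16
  deriving DecidableEq

namespace GF16

/-- The multiplication table, four bits per entry. -/
def mulTab : ℕ := 116196760129267793630862849262464326346044543732748708940920453221664288556434379745879494961270582141731748813355742142288220638766218855867759359510984593843506004200114943278699875244065120512813025380665946106619127097398772031257643617143689515450995722003729973585221105779229319991106539050771048038400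

/-- The table of inverses, four bits per entry. -/
def invTab : ℕ := 9460475325918865680

/-- The table of fourth powers, four bits per entry. -/
def frobTab : ℕ := 9924487649903846160

/-- The element with a given code. -/
def ofNat (n : ℕ) : GF16 := ⟨n &&& 15, Nat.and_lt_two_pow n (by norm_num : 15 < 2 ^ 4)⟩

/-- Addition: exclusive or. -/
def add (a b : GF16) : GF16 := ⟨a.v ^^^ b.v, Nat.xor_lt_two_pow (n := 4) a.h b.h⟩

/-- Multiplication: table lookup. -/
def mul (a b : GF16) : GF16 := ofNat (mulTab >>> (4 * (16 * a.v + b.v)))

/-- Inversion: table lookup. -/
def inv (a : GF16) : GF16 := ofNat (invTab >>> (4 * a.v))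

/-- Fourth power: table lookup. -/
def frob (a : GF16) : GF16 := ofNat (frobTab >>> (4 * a.v))

instance : Fintype GF16 :=
  Fintype.ofEquiv (Fin 16) ⟨fun i => ⟨i.1, i.2⟩, fun a => ⟨a.v, a.h⟩, fun _ => rfl, fun _ => rfl⟩

instance : Zero GF16 := ⟨⟨0, by norm_num⟩⟩
instance : One GF16 := ⟨⟨1, by norm_num⟩⟩
instance : Add GF16 := ⟨add⟩
instance : Mul GF16 := ⟨mul⟩
instance : Neg GF16 := ⟨id⟩
instance : Sub GF16 := ⟨add⟩
instance : Inv GF16 := ⟨inv⟩

instance : CommRing GF16 where
  add_assoc := by decide
  zero_add := by decide
  add_zero := by decide
  nsmul := nsmulRec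
  sub_eq_add_neg := by decide
  zsmul := zsmulRec
  neg_add_cancel := by decide
  add_comm := by decide
  left_distrib := by decide
  right_distrib := by decide
  zero_mul := by decide
  mul_zero := by decide
  mul_assoc := by decide
  one_mul := by decide
  mul_one := by decide
  mul_comm := by decide

instance : Field GF16 where
  exists_pair_ne := ⟨0, 1, by decide⟩
  mul_inv_cancel := by decide
  inv_zero := by decide
  nnqsmul := _
  nnqsmul_def := fun _ _ => rfl
  qsmul := _
  qsmul_def := fun _ _ => rfl

theorem card : Fintype.card GF16 = 16 := by decide

theorem frob_eq (a : GF16) : frob a = a ^ 4 := by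
  revert a
  decide

theorem two_eq_zero : (2 : GF16) = 0 := by decide

end GF16

/-- Short name for the element with a given code. -/
abbrev e (n : ℕ) : GF16 := GF16.ofNat n

end Cfsg.Agent.Lib.Helper61.F16
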