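import Mathlib
import Cfsg.Prelude.Def_ChevG2

set_option autoImplicit false

/-! Fast kernel arithmetic for vectors of `F_3^14` (coordinates indexed by `chevG2.Idx`), packed in
base 3 into one natural number, and sparse matrices acting on them; with soundness. -/

namespace Cfsg.Agent.Lib.Helper61.G23Fast

open Cfsg.Lie

abbrev Idx : Type := Cfsg.Lie.chevG2.Idx

/-- numbering of the coordinates: `h_1, h_2` are 0, 1 and root `s` is `2 + s`. -/
def idxNum : Idx → ℕ := Sum.elim (fun i => i.val) (fun s => 2 + s.val)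

def numIdx (b : ℕ) : Idx :=
  if h : b < 2 then Sum.inl ⟨b, h⟩ else Sum.inr ⟨(b - 2) % 12, Nat.mod_lt _ (by decide)⟩

theorem idxNum_lt (k : Idx) : idxNum k < 14 := by
  rcases k with i | s
  · have : i.val < 2 := i.isLt
    simp only [idxNum, Sum.elim_inl]; omega
  · have : s.val < 12 := s.isLt
    simp only [idxNum, Sum.elim_inr]; omega

theorem numIdx_idxNum (k : Idx) : numIdx (idxNum k) = k := by
  rcases k with i | s
  · have hi : i.val < 2 := i.isLt
    show numIdx i.val = Sum.inl i
    unfold numIdx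
    rw [dif_pos hi]
  · have h12 : s.val < 12 := s.isLt
    have h : ¬ (2 + s.val < 2) := by omega
    show numIdx (2 + s.val) = Sum.inr s
    unfold numIdx
    rw [dif_neg h]
    congr 1
    apply Fin.ext
    show (2 + s.val - 2) % 12 = s.val
    rw [Nat.add_sub_cancel_left]
    exact Nat.mod_eq_of_lt h12

theorem idxNum_numIdx {b : ℕ} (hb : b < 14) : idxNum (numIdx b) = b := by
  unfold numIdx
  split_ifs with h
  · simp [idxNum]
  · simp only [idxNum, Sum.elim_inr]
    have : (b - 2) % 12 = b - 2 := Nat.mod_eq_of_lt (by omega)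
    omega

theorem idxNum_injective : Function.Injective idxNum := by
  intro a b h
  rw [← numIdx_idxNum a, ← numIdx_idxNum b, h]

/-- the vector coded by `c`: coordinate `k` is the base-3 digit of `c` at place `idxNum k`. -/
def vecOf (c : ℕ) : Idx → ZMod 3 := fun k => ((c / 3 ^ idxNum k : ℕ) : ZMod 3)

theorem vecOf_apply (c : ℕ) (k : Idx) : vecOf c k = ((c / 3 ^ idxNum k : ℕ) : ZMod 3) := rfl

/-- entry `(a, b)` of the sparse matrix `rows`. -/
def ent (rows : List (List (ℕ × ℕ))) (a b : ℕ) : ℕ :=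
  ((rows.getD a []).map (fun p => if p.1 = b then p.2 else 0)).sum

/-- the matrix with sparse rows `rows`. -/
def Mat (rows : List (List (ℕ × ℕ))) : Matrix Idx Idx (ZMod 3) :=
  Matrix.of fun i j => ((ent rows (idxNum i) (idxNum j) : ℕ) : ZMod 3)

/-- value of a sparse row on the vector coded by `c`, reduced mod 3. -/
noncomputable def rowv (c : ℕ) (row : List (ℕ × ℕ)) : ℕ :=
  Nat.mod (@List.rec (ℕ × ℕ) (fun _ => ℕ) 0
    (fun p _ acc => Nat.add (Nat.mul p.2 (Nat.mod (Nat.div c (Nat.pow 3 p.1)) 3)) acc) row) 3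

/-- pack a list of digits. -/
def packL : List ℕ → ℕ
  | [] => 0
  | a :: L => a + 3 * packL L

/-- sparse matrix times coded vector. -/
noncomputable def fmv (rows : List (List (ℕ × ℕ))) (c : ℕ) : ℕ :=
  @List.rec (List (ℕ × ℕ)) (fun _ => ℕ) 0 (fun row _ acc => Nat.add (rowv c row) (Nat.mul 3 acc)) rows

theorem fmv_eq (rows : List (List (ℕ × ℕ))) (c : ℕ) : fmv rows c = packL (rows.map (rowv c)) := by
  induction rows with
  | nil => rfl
  | cons row L ih =>
    show Nat.add (rowv c row) (Nat.mul 3 (fmv L c)) = _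
    rw [ih]; rfl

theorem rowv_lt (c : ℕ) (row : List (ℕ × ℕ)) : rowv c row < 3 := Nat.mod_lt _ (by decide)

theorem rowv_cast (c : ℕ) (row : List (ℕ × ℕ)) :
    ((rowv c row : ℕ) : ZMod 3) =
      (row.map (fun p => ((p.2 : ℕ) : ZMod 3) * ((c / 3 ^ p.1 : ℕ) : ZMod 3))).sum := by
  have h : ∀ row : List (ℕ × ℕ),
      (((@List.rec (ℕ × ℕ) (fun _ => ℕ) 0
        (fun p _ acc => Nat.add (Nat.mul p.2 (Nat.mod (Nat.div c (Nat.pow 3 p.1)) 3)) acc) row : ℕ)) : ZMod 3) =
      (row.map (fun p => ((p.2 : ℕ) : ZMod 3) * ((c / 3 ^ p.1 : ℕ) : ZMod 3))).sum := by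
    intro row
    induction row with
    | nil => simp
    | cons p L ih =>
      show (((Nat.add (Nat.mul p.2 (Nat.mod (Nat.div c (Nat.pow 3 p.1)) 3)) _ : ℕ)) : ZMod 3) = _
      rw [List.map_cons, List.sum_cons, ← ih]
      show (((p.2 * (c / 3 ^ p.1 % 3) + _ : ℕ)) : ZMod 3) = _
      rw [Nat.cast_add, Nat.cast_mul, ZMod.natCast_mod]
  show (((Nat.mod _ 3 : ℕ)) : ZMod 3) = _
  rw [← h row]
  exact ZMod.natCast_mod _ 3

theorem dig_pack (L : List ℕ) (hL : ∀ x ∈ L, x < 3) (a : ℕ) (ha : a < L.length) :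
    (packL L / 3 ^ a) % 3 = L.getD a 0 := by
  induction L generalizing a with
  | nil => simp at ha
  | cons x L ih =>
    have hx : x < 3 := hL x (by simp)
    cases a with
    | zero =>
      simp only [packL, pow_zero, Nat.div_one, List.getD_cons_zero]
      rw [Nat.add_mul_mod_self_left]
      exact Nat.mod_eq_of_lt hx
    | succ a =>
      simp only [packL, List.getD_cons_succ]
      rw [pow_succ', ← Nat.div_div_eq_div_mul]
      have : (x + 3 * packL L) / 3 = packL L := by omega
      rw [this]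
      exact ih (fun y hy => hL y (by simp [hy])) a (by simpa using ha)

theorem getD_map_rowv (c : ℕ) (rows : List (List (ℕ × ℕ))) (a : ℕ) (ha : a < rows.length) :
    (rows.map (rowv c)).getD a 0 = rowv c (rows.getD a []) := by
  rw [List.getD_eq_getElem _ _ (by simpa using ha), List.getD_eq_getElem _ _ ha, List.getElem_map]

theorem sum_ite_idx (b : ℕ) (hb : b < 14) (z : ZMod 3) (u : Idx → ZMod 3) :
    ∑ k : Idx, (if b = idxNum k then z else 0) * u k = z * u (numIdx b) := by
  rw [Finset.sum_eq_single (numIdx b)]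
  · rw [idxNum_numIdx hb]; simp
  · intro k _ hk
    have : b ≠ idxNum k := by
      intro h
      apply hk
      rw [h, numIdx_idxNum]
    simp [this]
  · intro h; exact absurd (Finset.mem_univ _) h

theorem row_sum (row : List (ℕ × ℕ)) (hrow : ∀ p ∈ row, p.1 < 14) (u : Idx → ZMod 3) :
    ∑ k : Idx, (((row.map (fun p => if p.1 = idxNum k then p.2 else 0)).sum : ℕ) : ZMod 3) * u k =
      (row.map (fun p => ((p.2 : ℕ) : ZMod 3) * u (numIdx p.1))).sum := by
  induction row with
  | nil => simp
  | cons p L ih =>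
    have hp : p.1 < 14 := hrow p (by simp)
    have ih' := ih (fun q hq => hrow q (by simp [hq]))
    simp only [List.map_cons, List.sum_cons, Nat.cast_add, add_mul, Finset.sum_add_distrib]
    rw [ih']
    congr 1
    have : ∀ k : Idx, (((if p.1 = idxNum k then p.2 else 0 : ℕ)) : ZMod 3) * u k =
        (if p.1 = idxNum k then ((p.2 : ℕ) : ZMod 3) else 0) * u k := by
      intro k; split_ifs <;> simp
    rw [Finset.sum_congr rfl (fun k _ => this k)]
    exact sum_ite_idx p.1 hp _ u

/-- soundness of the fast product. -/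
theorem fmv_sound (rows : List (List (ℕ × ℕ))) (hlen : rows.length = 14)
    (hcols : ∀ row ∈ rows, ∀ p ∈ row, p.1 < 14) (c : ℕ) :
    vecOf (fmv rows c) = (Mat rows).mulVec (vecOf c) := by
  funext i
  have ha : idxNum i < rows.length := hlen ▸ idxNum_lt i
  have hrowmem : rows.getD (idxNum i) [] ∈ rows := by
    rw [List.getD_eq_getElem _ _ ha]; exact List.getElem_mem ha
  rw [vecOf_apply, fmv_eq, ← ZMod.natCast_mod, dig_pack _ (by
    intro x hx
    rw [List.mem_map] at hx
    obtain ⟨row, _, rfl⟩ := hx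
    exact rowv_lt c row) _ (by simpa using ha), getD_map_rowv c rows _ ha, rowv_cast]
  simp only [Matrix.mulVec, dotProduct, Mat, Matrix.of_apply, ent]
  rw [row_sum _ (hcols _ hrowmem) (vecOf c)]
  congr 1
  apply List.map_congr_left
  intro p hp
  rw [vecOf_apply, idxNum_numIdx (hcols _ hrowmem p hp)]

/-- injectivity of the coding below `3^14`. -/
theorem vecOf_inj {c c' : ℕ} (h : vecOf c = vecOf c') : c % 3 ^ 14 = c' % 3 ^ 14 := by
  have hd : ∀ a, a < 14 → (c / 3 ^ a) % 3 = (c' / 3 ^ a) % 3 := by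
    intro a ha
    have := congrFun h (numIdx a)
    rw [vecOf_apply, vecOf_apply, idxNum_numIdx ha] at this
    exact (ZMod.natCast_eq_natCast_iff' _ _ 3).mp this
  have key : ∀ K, K ≤ 14 → c % 3 ^ K = c' % 3 ^ K := by
    intro K
    induction K with
    | zero => intro _; rw [pow_zero, Nat.mod_one, Nat.mod_one]
    | succ K ih =>
      intro hK
      rw [Nat.mod_pow_succ, Nat.mod_pow_succ, ih (by omega), hd K (by omega)]
  exact key 14 le_rfl

end Cfsg.Agent.Lib.Helper61.G23Fast
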