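import Mathlib

set_option autoImplicit false

/-! Generic lemmas for certified stabiliser chains of a finite group of known order acting on a
type, and for centralisers of Sylow subgroups of prime order. -/

namespace Cfsg.Agent.Lib.Helper61.VecCert

open MulAction
open scoped Pointwise

variable {G V : Type*} [Group G] [MulAction G V]

theorem card_orbit_mul (H : Subgroup G) [Finite G] (β : V) :
    Nat.card ↥H = Nat.card (orbit ↥H β) * Nat.card ↥(H ⊓ stabilizer G β) := by
  have h1 : Nat.card (orbit ↥H β × ↥(stabilizer ↥H β)) = Nat.card ↥H :=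
    Nat.card_congr (orbitProdStabilizerEquivGroup ↥H β)
  rw [Nat.card_prod] at h1
  have h2 : Nat.card ↥(stabilizer ↥H β) = Nat.card ↥(H ⊓ stabilizer G β) := by
    apply Nat.card_congr
    refine ⟨fun g => ⟨g.1.1, g.1.2, ?_⟩, fun g => ⟨⟨g.1, g.2.1⟩, ?_⟩, fun g => rfl, fun g => rfl⟩
    · have h3 : g.1 • β = β := g.2
      exact h3
    · have h3 : g.1 • β = β := g.2.2
      exact h3
  rw [← h1, h2]

theorem orbit_sub (H : Subgroup G) (β : V) (D : Finset V)
    (hD : ∀ v ∈ D, ∃ g ∈ H, g • β = v) : (D : Set V) ⊆ orbit ↥H β := by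
  intro v hv
  obtain ⟨g, hg, rfl⟩ := hD v hv
  exact ⟨⟨g, hg⟩, rfl⟩

theorem card_le_orbit (H : Subgroup G) [Finite G] (β : V) (D : Finset V)
    (hD : ∀ v ∈ D, ∃ g ∈ H, g • β = v) : D.card ≤ Nat.card (orbit ↥H β) := by
  have hfin : (orbit ↥H β).Finite := Set.finite_range _
  rw [Nat.card_coe_set_eq, ← Set.ncard_coe_finset]
  exact Set.ncard_le_ncard (orbit_sub H β D hD) hfin

/-- lower bound for the order of a subgroup from an exhibited part of an orbit. -/
theorem level_lower (H : Subgroup G) [Finite G] (β : V) (D : Finset V)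
    (hD : ∀ v ∈ D, ∃ g ∈ H, g • β = v) (L : ℕ)
    (hL : L ≤ Nat.card ↥(H ⊓ stabilizer G β)) : D.card * L ≤ Nat.card ↥H := by
  rw [card_orbit_mul H β]
  exact Nat.mul_le_mul (card_le_orbit H β D hD) hL

/-- if the bound is attained the exhibited part is the whole orbit and the stabiliser has the
expected order. -/
theorem level_exact (H : Subgroup G) [Finite G] (β : V) (D : Finset V)
    (hD : ∀ v ∈ D, ∃ g ∈ H, g • β = v) (L : ℕ)
    (hL : L ≤ Nat.card ↥(H ⊓ stabilizer G β)) (hL0 : 0 < L)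
    (hcard : Nat.card ↥H ≤ D.card * L) :
    Nat.card ↥(H ⊓ stabilizer G β) = L ∧ ∀ g ∈ H, g • β ∈ D := by
  have h1 := card_orbit_mul H β
  have h2 := card_le_orbit H β D hD
  have hHpos : 0 < Nat.card ↥H := Nat.card_pos
  have hDpos : 0 < D.card := by
    rcases Nat.eq_zero_or_pos D.card with h | h
    · rw [h, zero_mul] at hcard; omega
    · exact h
  set a := Nat.card (orbit ↥H β)
  set b := Nat.card ↥(H ⊓ stabilizer G β)
  have hab : a * b ≤ D.card * L := h1 ▸ hcard
  have hbpos : 0 < b := lt_of_lt_of_le hL0 hL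
  have ha : a = D.card := by
    by_contra hne
    have hlt : D.card < a := lt_of_le_of_ne h2 (Ne.symm hne)
    have : D.card * L < a * b := by
      calc D.card * L ≤ D.card * b := Nat.mul_le_mul_left _ hL
        _ < a * b := Nat.mul_lt_mul_of_pos_right hlt hbpos
    omega
  have hb : b = L := by
    by_contra hne
    have hlt : L < b := lt_of_le_of_ne hL (Ne.symm hne)
    have : D.card * L < a * b := by
      rw [ha]
      exact Nat.mul_lt_mul_of_pos_left hlt hDpos
    omega
  refine ⟨hb, ?_⟩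
  have hfin : (orbit ↥H β).Finite := Set.finite_range _
  have heq : (D : Set V) = orbit ↥H β := by
    apply Set.eq_of_subset_of_ncard_le (orbit_sub H β D hD) _ hfin
    rw [Set.ncard_coe_finset, ← Nat.card_coe_set_eq]
    exact ha.le
  intro g hg
  have : g • β ∈ orbit ↥H β := ⟨⟨g, hg⟩, rfl⟩
  rw [← heq] at this
  exact_mod_cast this

/-- soundness of a Schreier tree. -/
theorem tree (H : Subgroup G) (β : V) (n : ℕ) (vec : ℕ → V) (par dep : ℕ → ℕ) (gen : ℕ → G)
    (rt : ℕ) (hrt : vec rt = β)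
    (h : ∀ j < n, j = rt ∨ (par j < n ∧ dep (par j) < dep j ∧ gen j ∈ H ∧
      gen j • vec (par j) = vec j)) :
    ∀ j < n, ∃ g ∈ H, g • β = vec j := by
  have key : ∀ d j, dep j ≤ d → j < n → ∃ g ∈ H, g • β = vec j := by
    intro d
    induction d with
    | zero =>
      intro j hd hj
      rcases h j hj with rfl | ⟨_, h2, _, _⟩
      · exact ⟨1, H.one_mem, by rw [one_smul, hrt]⟩
      · omega
    | succ d ih =>
      intro j hd hj
      rcases h j hj with rfl | ⟨h1, h2, h3, h4⟩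
      · exact ⟨1, H.one_mem, by rw [one_smul, hrt]⟩
      · obtain ⟨g, hg, hgv⟩ := ih (par j) (by omega) h1
        exact ⟨gen j * g, H.mul_mem h3 hg, by rw [mul_smul, hgv, h4]⟩
  intro j hj
  exact key (dep j) j le_rfl hj

theorem smul_pow_fixed (g : G) (v : V) (h : g • v = v) (n : ℕ) : g ^ n • v = v := by
  induction n with
  | zero => simp
  | succ n ih => rw [pow_succ, mul_smul, h, ih]

/-- the candidates for the action of a centralising element on the two base points. -/
theorem hb_of_scans (x : G) (w0 w1 : V) (hx0 : x • w0 = w0) (hx1 : x • w1 = w1) (D0 D1 : Finset V)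
    (hD0 : ∀ g : G, g • w0 ∈ D0) (hD1 : ∀ g ∈ stabilizer G w0, g • w1 ∈ D1)
    (w0' : V) (m : G) (hm : m • w0 = w0') (k k' : ℕ) (hmx : x * m = m * x ^ k)
    (hk : (x ^ k) ^ k' = x)
    (hF0 : ∀ v ∈ D0, x • v = v → v = w0 ∨ v = w0')
    (ns : List G) (hns : ∀ n ∈ ns, n • w0 = w0)
    (hF1 : ∀ v ∈ D1, x • v = v → ∃ n ∈ ns, n • w1 = v) :
    ∀ c : G, Commute c x → ∃ n ∈ ns, (c • w0 = n • w0 ∧ c • w1 = n • w1) ∨
      (c • w0 = (m * n) • w0 ∧ c • w1 = (m * n) • w1) := by
  intro c hc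
  have hfix : ∀ w : V, x • w = w → x • (c • w) = c • w := by
    intro w hw
    rw [← mul_smul, ← hc.eq, mul_smul, hw]
  rcases hF0 (c • w0) (hD0 c) (hfix w0 hx0) with h | h
  · have hcs : c ∈ stabilizer G w0 := h
    obtain ⟨n, hn, hnv⟩ := hF1 (c • w1) (hD1 c hcs) (hfix w1 hx1)
    exact ⟨n, hn, Or.inl ⟨by rw [h, hns n hn], hnv.symm⟩⟩
  · have hc' : m⁻¹ * c ∈ stabilizer G w0 := by
      show (m⁻¹ * c) • w0 = w0
      rw [mul_smul, h, ← hm, inv_smul_smul]
    have hmv : m • ((m⁻¹ * c) • w1) = c • w1 := by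
      rw [← mul_smul, mul_inv_cancel_left]
    have hxv : x • ((m⁻¹ * c) • w1) = (m⁻¹ * c) • w1 := by
      have h1 : (x * m) • ((m⁻¹ * c) • w1) = m • ((m⁻¹ * c) • w1) := by
        rw [mul_smul, hmv]; exact hfix w1 hx1
      rw [hmx, mul_smul] at h1
      have h2 : x ^ k • ((m⁻¹ * c) • w1) = (m⁻¹ * c) • w1 := smul_left_cancel m h1
      have h3 := smul_pow_fixed (x ^ k) _ h2 k'
      rwa [hk] at h3
    obtain ⟨n, hn, hnv⟩ := hF1 ((m⁻¹ * c) • w1) (hD1 _ hc') hxv
    refine ⟨n, hn, Or.inr ⟨?_, ?_⟩⟩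
    · rw [h, mul_smul, hns n hn, hm]
    · rw [mul_smul, hnv, hmv]

/-- the centraliser of `x` is `⟨x⟩`. -/
theorem cent_of_chain [Finite G] (x : G) (p : ℕ) (hx : orderOf x = p) (w0 w1 : V)
    (hx0 : x • w0 = w0) (hx1 : x • w1 = w1)
    (hH2 : Nat.card ↥(stabilizer G w0 ⊓ stabilizer G w1) = p)
    (m : G) (ns : List G)
    (hb : ∀ c : G, Commute c x → ∃ n ∈ ns, (c • w0 = n • w0 ∧ c • w1 = n • w1) ∨
      (c • w0 = (m * n) • w0 ∧ c • w1 = (m * n) • w1))
    (hns : ∀ n ∈ ns, n • w0 = w0)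
    (hc1 : ∀ n ∈ ns, Commute n x → n • w1 = w1)
    (hc2 : ∀ n ∈ ns, ¬ Commute (m * n) x) :
    ∀ c : G, Commute c x → c ∈ Subgroup.zpowers x := by
  have hle : Subgroup.zpowers x ≤ stabilizer G w0 ⊓ stabilizer G w1 := by
    rw [Subgroup.zpowers_le]
    exact ⟨hx0, hx1⟩
  have heq : Subgroup.zpowers x = stabilizer G w0 ⊓ stabilizer G w1 := by
    apply Subgroup.eq_of_le_of_card_ge hle
    rw [hH2, Nat.card_zpowers, hx]
  have hcomm : ∀ z ∈ Subgroup.zpowers x, Commute z x := by
    intro z hz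
    obtain ⟨i, rfl⟩ := Subgroup.mem_zpowers_iff.mp hz
    exact (Commute.refl x).zpow_left i
  have hmem : ∀ a c : G, c • w0 = a • w0 → c • w1 = a • w1 → a⁻¹ * c ∈ Subgroup.zpowers x := by
    intro a c h0 h1
    rw [heq]
    refine ⟨?_, ?_⟩
    · show (a⁻¹ * c) • w0 = w0
      rw [mul_smul, h0, inv_smul_smul]
    · show (a⁻¹ * c) • w1 = w1
      rw [mul_smul, h1, inv_smul_smul]
  intro c hc
  obtain ⟨n, hn, h | h⟩ := hb c hc
  · have hz := hmem n c h.1 h.2
    have hnc : Commute n x := by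
      have : n = c * (n⁻¹ * c)⁻¹ := by group
      rw [this]
      exact hc.mul_left (hcomm _ (Subgroup.inv_mem _ hz))
    have hn2 : n ∈ Subgroup.zpowers x := by
      rw [heq]
      exact ⟨hns n hn, hc1 n hn hnc⟩
    have : c = n * (n⁻¹ * c) := by group
    rw [this]
    exact Subgroup.mul_mem _ hn2 hz
  · have hz := hmem (m * n) c h.1 h.2
    exfalso
    apply hc2 n hn
    have : m * n = c * ((m * n)⁻¹ * c)⁻¹ := by group
    rw [this]
    exact hc.mul_left (hcomm _ (Subgroup.inv_mem _ hz))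

/-- no element of order `p * r` when a Sylow `p`-subgroup has order `p` and is self-centralising. -/
theorem no_order_mul {G : Type*} [Group G] [Finite G] (p : ℕ) [hp : Fact p.Prime] (x : G)
    (hx : orderOf x = p) (hcard : (Nat.card G).factorization p = 1)
    (hC : ∀ c : G, Commute c x → c ∈ Subgroup.zpowers x) (r : ℕ) (hr : 1 < r) (y : G)
    (hy : orderOf y = p * r) : False := by
  have hppos : 0 < p := hp.out.pos
  have hy' : orderOf (y ^ r) = p := by
    rw [orderOf_pow_of_dvd (by omega) (by rw [hy]; exact Dvd.intro_left p rfl), hy,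
      Nat.mul_div_cancel _ (by omega)]
  let P : Sylow p G := Sylow.ofCard (Subgroup.zpowers x) (by rw [Nat.card_zpowers, hx, hcard, pow_one])
  let Q : Sylow p G := Sylow.ofCard (Subgroup.zpowers (y ^ r))
    (by rw [Nat.card_zpowers, hy', hcard, pow_one])
  obtain ⟨g, hg⟩ := MulAction.exists_smul_eq G Q P
  have hz : g * y ^ r * g⁻¹ ∈ Subgroup.zpowers x := by
    have h1 : (MulAut.conj g) • (y ^ r) ∈ (MulAut.conj g) • (Q : Subgroup G) :=
      Subgroup.smul_mem_pointwise_smul _ _ _ (Subgroup.mem_zpowers (y ^ r))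
    rw [← Sylow.coe_subgroup_smul, hg] at h1
    exact h1
  set y2 := g * y * g⁻¹ with hy2
  have hzy : g * y ^ r * g⁻¹ = y2 ^ r := by rw [hy2, conj_pow]
  have hoy2 : orderOf y2 = p * r := by
    rw [← hy]
    exact (MulAut.conj g).orderOf_eq y
  have hoz : orderOf (y2 ^ r) = p := by
    rw [← hzy, ← hy']
    exact (MulAut.conj g).orderOf_eq (y ^ r)
  rw [hzy] at hz
  have heq : Subgroup.zpowers (y2 ^ r) = Subgroup.zpowers x := by
    apply Subgroup.eq_of_le_of_card_ge ((Subgroup.zpowers_le).mpr hz)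
    rw [Nat.card_zpowers, Nat.card_zpowers, hoz, hx]
  have hxz : x ∈ Subgroup.zpowers (y2 ^ r) := heq ▸ Subgroup.mem_zpowers x
  obtain ⟨i, hi⟩ := Subgroup.mem_zpowers_iff.mp hxz
  have hcomm : Commute y2 x := by
    rw [← hi]
    exact ((Commute.refl y2).pow_right r).zpow_right i
  have hmem := hC y2 hcomm
  have hdvd : orderOf y2 ∣ p := by
    have h1 : orderOf (⟨y2, hmem⟩ : Subgroup.zpowers x) ∣ Nat.card (Subgroup.zpowers x) :=
      orderOf_dvd_natCard _
    rw [Nat.card_zpowers, hx] at h1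
    rwa [Subgroup.orderOf_mk] at h1
  rw [hoy2] at hdvd
  have : p * r ≤ p := Nat.le_of_dvd hppos hdvd
  nlinarith

/-- the same with the order of the group given as `p * m`, `p ∤ m`. -/
theorem no_order_mul' {G : Type*} [Group G] [Finite G] (p : ℕ) [hp : Fact p.Prime] (x : G)
    (hx : orderOf x = p) (m : ℕ) (hG : Nat.card G = p * m) (hpm : ¬ p ∣ m)
    (hC : ∀ c : G, Commute c x → c ∈ Subgroup.zpowers x) (r : ℕ) (hr : 1 < r) (y : G)
    (hy : orderOf y = p * r) : False := by
  have hm0 : m ≠ 0 := by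
    rintro rfl
    exact hpm (dvd_zero p)
  have hfac : (Nat.card G).factorization p = 1 := by
    rw [hG, Nat.factorization_mul hp.out.ne_zero hm0, Finsupp.add_apply,
      Nat.Prime.factorization_self hp.out, Nat.factorization_eq_zero_of_not_dvd hpm]
  exact no_order_mul p x hx hfac hC r hr y hy

/-- an element with `g^6 = 1`, `g^2 ≠ 1`, `g^3 ≠ 1` has order 6. -/
theorem order_six {G : Type*} [Group G] (g : G) (h6 : g ^ 6 = 1) (h2 : g ^ 2 ≠ 1) (h3 : g ^ 3 ≠ 1) :
    orderOf g = 6 := by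
  have hd := orderOf_dvd_of_pow_eq_one h6
  have hle := Nat.le_of_dvd (by norm_num) hd
  have hpow := pow_orderOf_eq_one g
  generalize orderOf g = n at *
  interval_cases n
  · simp at hd
  · exfalso; apply h2; rw [pow_one] at hpow; rw [hpow, one_pow]
  · exact absurd hpow h2
  · exact absurd hpow h3
  · norm_num at hd
  · norm_num at hd
  · rfl

end Cfsg.Agent.Lib.Helper61.VecCert
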