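import Mathlib
import Cfsg.Prelude.Def_LieChev
import Cfsg.Agent.S1023
import Cfsg.Agent.S1024
import Cfsg.Agent.Lib.Helper61.G23Fast
import Cfsg.Agent.Lib.Helper61.G23Data
import Cfsg.Agent.Lib.Helper61.VecCert

set_option autoImplicit false

/-! `G_2(3)` (the Chevalley group of the Prelude over `ZMod 3`): words in root elements acting on
coded vectors, certified stabiliser chains, and the centralisers of elements of order 7 and 13. -/

namespace Cfsg.Agent.Lib.Helper61.G23Main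

open Cfsg.Lie Cfsg.Agent.Lib.Helper61.G23Fast Cfsg.Agent.Lib.Helper61

abbrev G3 : Type := ↥(Cfsg.Lie.chevG2.group (ZMod 3))

theorem hD : Cfsg.Lie.chevG2 ∈ [Cfsg.Lie.chevG2, Cfsg.Lie.chevB2, Cfsg.Lie.chevD4, Cfsg.Lie.chevF4,
    Cfsg.Lie.chevE6, Cfsg.Lie.chevE7, Cfsg.Lie.chevE8] := by simp

/-- the parameter `t ∈ {1, 2}` of a letter. -/
def letT (l : ℕ) : ZMod 3 := ((l % 2 + 1 : ℕ) : ZMod 3)

/-- the matrix of the letter `l = 2r + (t - 1)`: the root element `x_r(t)`. -/
def letM (l : ℕ) : Matrix Idx Idx (ZMod 3) := Cfsg.Lie.chevG2.x (ZMod 3) (l / 2) (letT l)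

theorem x_mul_neg (r : ℕ) (t : ZMod 3) :
    Cfsg.Lie.chevG2.x (ZMod 3) r t * Cfsg.Lie.chevG2.x (ZMod 3) r (-t) = 1 := by
  by_cases h : r < Cfsg.Lie.chevG2.nroots
  · rw [Cfsg.Agent.S1023.result _ hD r h, add_neg_cancel]
    exact (Cfsg.Agent.S1024.result _ hD r h 0).mpr rfl
  · simp [ChevalleyDatum.x, h]

theorem x_neg_mul (r : ℕ) (t : ZMod 3) :
    Cfsg.Lie.chevG2.x (ZMod 3) r (-t) * Cfsg.Lie.chevG2.x (ZMod 3) r t = 1 := by
  have := x_mul_neg r (-t)
  rwa [neg_neg] at this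

/-- the letter as a unit. -/
def letU (l : ℕ) : GL Idx (ZMod 3) :=
  ⟨letM l, Cfsg.Lie.chevG2.x (ZMod 3) (l / 2) (-(letT l)), x_mul_neg _ _, x_neg_mul _ _⟩

theorem letU_mem (l : ℕ) : letU l ∈ Cfsg.Lie.chevG2.group (ZMod 3) := by
  by_cases h : l / 2 < Cfsg.Lie.chevG2.nroots
  · apply Subgroup.subset_closure
    refine ⟨⟨l / 2, h⟩, letT l, ?_⟩
    show letM l = _
    simp [letM, ChevalleyDatum.x, h]
  · have : letU l = 1 := by
      apply Units.ext
      show letM l = 1
      simp [letM, ChevalleyDatum.x, h]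
    rw [this]
    exact Subgroup.one_mem _

/-- the letter as an element of the group. -/
def letG (l : ℕ) : G3 := ⟨letU l, letU_mem l⟩

/-- the word `[l₁, …, l_k]` as the element `x_{l₁} ⋯ x_{l_k}`. -/
def wprod (w : List ℕ) : G3 := (w.map letG).prod

theorem wprod_nil : wprod [] = 1 := rfl

theorem wprod_cons (l : ℕ) (w : List ℕ) : wprod (l :: w) = letG l * wprod w := by
  simp [wprod]

theorem wprod_append (u w : List ℕ) : wprod (u ++ w) = wprod u * wprod w := by
  simp [wprod]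

/-- the action of `GL` on vectors. -/
@[reducible] def actGL : MulAction (GL Idx (ZMod 3)) (Idx → ZMod 3) where
  smul g v := g.1.mulVec v
  one_smul v := Matrix.one_mulVec v
  mul_smul g h v := by
    show (g.1 * h.1).mulVec v = g.1.mulVec (h.1.mulVec v)
    rw [Matrix.mulVec_mulVec]

attribute [local instance] actGL

theorem smul_def (g : G3) (v : Idx → ZMod 3) : g • v = (g.1.1).mulVec v := rfl

theorem letG_smul (l : ℕ) (v : Idx → ZMod 3) : letG l • v = (letM l).mulVec v := rfl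

/-! ### the letters agree with the sparse tables -/

theorem rows_ok : ∀ l : Fin 24, (G23Data.rowsL.getD l.val []).length = 14 ∧
    ((G23Data.rowsL.getD l.val []).all fun row => row.all fun p => decide (p.1 < 14)) = true := by
  decide +kernel

set_option maxRecDepth 100000 in
theorem letM_eq : ∀ l : Fin 24, letM l.val = Mat (G23Data.rowsL.getD l.val []) := by
  decide +kernel

theorem letM_big (l : ℕ) (hl : 24 ≤ l) : letM l = 1 := by
  have h : ¬ (l / 2 < Cfsg.Lie.chevG2.nroots) := by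
    show ¬ (l / 2 < 12)
    omega
  simp [letM, ChevalleyDatum.x, h]

/-- fast action of a letter on a coded vector. -/
noncomputable def fmvL (l c : ℕ) : ℕ :=
  cond (Nat.blt l 24) (fmv (G23Data.rowsL.getD l []) c) c

theorem fmvL_sound (l c : ℕ) : vecOf (fmvL l c) = letG l • vecOf c := by
  rw [letG_smul]
  unfold fmvL
  by_cases hl : l < 24
  · have h1 : Nat.blt l 24 = true := by rw [Nat.blt_eq]; exact hl
    rw [h1, cond_true]
    have hr := rows_ok ⟨l, hl⟩
    have hm := letM_eq ⟨l, hl⟩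
    simp only at hr hm
    rw [hm]
    apply fmv_sound _ hr.1
    intro row hrow p hp
    have := hr.2
    rw [List.all_eq_true] at this
    have h2 := this row hrow
    rw [List.all_eq_true] at h2
    exact of_decide_eq_true (h2 p hp)
  · have h1 : Nat.blt l 24 = false := by
      rw [← Bool.not_eq_true, Nat.blt_eq]; exact hl
    rw [h1, cond_false, letM_big l (by omega), Matrix.one_mulVec]

/-- fast action of a word. -/
noncomputable def fmvW (w : List ℕ) (c : ℕ) : ℕ :=
  @List.rec ℕ (fun _ => ℕ) c (fun l _ acc => fmvL l acc) w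

theorem fmvW_nil (c : ℕ) : fmvW [] c = c := rfl

theorem fmvW_cons (l : ℕ) (w : List ℕ) (c : ℕ) : fmvW (l :: w) c = fmvL l (fmvW w c) := rfl

theorem fmvW_sound (w : List ℕ) (c : ℕ) : vecOf (fmvW w c) = wprod w • vecOf c := by
  induction w with
  | nil => rw [fmvW_nil, wprod_nil, one_smul]
  | cons l w ih => rw [fmvW_cons, fmvL_sound, ih, wprod_cons, mul_smul]

/-- fast action of a power of a word. -/
noncomputable def fmvWn (n : ℕ) (w : List ℕ) (c : ℕ) : ℕ :=
  @Nat.rec (fun _ => ℕ) c (fun _ acc => fmvW w acc) n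

theorem fmvWn_sound (n : ℕ) (w : List ℕ) (c : ℕ) : vecOf (fmvWn n w c) = wprod w ^ n • vecOf c := by
  induction n with
  | zero => show vecOf c = _; rw [pow_zero, one_smul]
  | succ n ih =>
    show vecOf (fmvW w (fmvWn n w c)) = _
    rw [fmvW_sound, ih, pow_succ', mul_smul]

/-! ### bounded quantifiers and tables -/

noncomputable def allB (n : ℕ) (f : ℕ → Bool) : Bool :=
  @Nat.rec (fun _ => Bool) true (fun j acc => f j && acc) n

theorem allB_iff (n : ℕ) (f : ℕ → Bool) : allB n f = true ↔ ∀ j < n, f j = true := by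
  induction n with
  | zero => simp [allB]
  | succ n ih =>
    show (f n && allB n f) = true ↔ _
    rw [Bool.and_eq_true, ih]
    constructor
    · rintro ⟨h1, h2⟩ j hj
      rcases Nat.lt_succ_iff_lt_or_eq.mp hj with h | rfl
      · exact h2 j h
      · exact h1
    · intro h
      exact ⟨h n (Nat.lt_succ_self n), fun j hj => h j (Nat.lt_succ_of_lt hj)⟩

noncomputable def anyB (n : ℕ) (f : ℕ → Bool) : Bool :=
  @Nat.rec (fun _ => Bool) false (fun j acc => f j || acc) n

theorem anyB_iff (n : ℕ) (f : ℕ → Bool) : anyB n f = true ↔ ∃ j < n, f j = true := by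
  induction n with
  | zero => simp [anyB]
  | succ n ih =>
    show (f n || anyB n f) = true ↔ _
    rw [Bool.or_eq_true, ih]
    constructor
    · rintro (h | ⟨j, hj, h⟩)
      · exact ⟨n, Nat.lt_succ_self n, h⟩
      · exact ⟨j, Nat.lt_succ_of_lt hj, h⟩
    · rintro ⟨j, hj, h⟩
      rcases Nat.lt_succ_iff_lt_or_eq.mp hj with h' | rfl
      · exact Or.inr ⟨j, h', h⟩
      · exact Or.inl h

theorem beq_iff (a b : ℕ) : Nat.beq a b = true ↔ a = b :=
  ⟨Nat.eq_of_beq_eq_true, fun h => h ▸ Nat.beq_refl a⟩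

theorem nbeq_iff (a b : ℕ) : (!Nat.beq a b) = true ↔ a ≠ b := by
  rw [Bool.not_eq_true', ← Bool.not_eq_true, beq_iff]

/-- entry `j` of a table of vector codes (24 bits each). -/
def cd (T j : ℕ) : ℕ := Nat.land (Nat.shiftRight T (Nat.mul 24 j)) 16777215
/-- parent of `j` in a Schreier tree. -/
def pr (P j : ℕ) : ℕ := Nat.land (Nat.shiftRight P (Nat.mul 24 j)) 1023
/-- generator index of the edge into `j`. -/
def gi (P j : ℕ) : ℕ := Nat.land (Nat.shiftRight P (Nat.add (Nat.mul 24 j) 10)) 63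
/-- depth of `j`. -/
def dp (P j : ℕ) : ℕ := Nat.land (Nat.shiftRight P (Nat.add (Nat.mul 24 j) 16)) 255

/-- check of one level: codes valid and strictly increasing, and a Schreier tree. -/
noncomputable def okLvl (gens : List (List ℕ)) (n T P rt : ℕ) : Bool :=
  allB n (fun j =>
    Nat.blt (cd T j) 4782969 && (Nat.ble n (j + 1) || Nat.blt (cd T j) (cd T (j + 1))) &&
    (Nat.beq j rt || (Nat.blt (pr P j) n && Nat.blt (dp P (pr P j)) (dp P j) &&
      Nat.beq (fmvW (gens.getD (gi P j) []) (cd T (pr P j))) (cd T j))))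

theorem okLvl_spec {gens : List (List ℕ)} {n T P rt : ℕ} (h : okLvl gens n T P rt = true) :
    ∀ j < n, cd T j < 4782969 ∧ (j + 1 < n → cd T j < cd T (j + 1)) ∧
      (j = rt ∨ (pr P j < n ∧ dp P (pr P j) < dp P j ∧
        fmvW (gens.getD (gi P j) []) (cd T (pr P j)) = cd T j)) := by
  unfold okLvl at h
  rw [allB_iff] at h
  intro j hj
  have := h j hj
  simp only [Bool.and_eq_true, Bool.or_eq_true, Nat.blt_eq, Nat.ble_eq, beq_iff] at this
  obtain ⟨⟨h1, h2⟩, h3⟩ := this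
  refine ⟨h1, ?_, ?_⟩
  · intro hj1
    rcases h2 with h2 | h2
    · omega
    · exact h2
  · rcases h3 with h3 | ⟨⟨h3, h4⟩, h5⟩
    · exact Or.inl h3
    · exact Or.inr ⟨h3, h4, h5⟩

theorem cd_strict {n T : ℕ} (h : ∀ j < n, (j + 1 < n → cd T j < cd T (j + 1))) :
    ∀ j, j < n → ∀ i, i < j → cd T i < cd T j := by
  intro j
  induction j with
  | zero => intro _ i hi; omega
  | succ j ih =>
    intro hj i hi
    have h1 := h j (by omega) hj
    rcases Nat.lt_succ_iff_lt_or_eq.mp hi with h2 | rfl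
    · exact lt_trans (ih (by omega) i h2) h1
    · exact h1

theorem code_of_vec_eq {a b : ℕ} (h : vecOf a = vecOf b) : a % 4782969 = b % 4782969 := by
  have := vecOf_inj h
  norm_num at this
  exact this

theorem wprod_getD_mem (H : Subgroup G3) (gens : List (List ℕ)) (hgens : ∀ w ∈ gens, wprod w ∈ H)
    (i : ℕ) : wprod (gens.getD i []) ∈ H := by
  by_cases hi : i < gens.length
  · rw [List.getD_eq_getElem _ _ hi]
    exact hgens _ (List.getElem_mem hi)
  · rw [List.getD_eq_default _ _ (by omega), wprod_nil]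
    exact H.one_mem

/-- soundness of a level check. -/
theorem lvl_sound (H : Subgroup G3) (gens : List (List ℕ)) (hgens : ∀ w ∈ gens, wprod w ∈ H)
    (n T P rt : ℕ) (hok : okLvl gens n T P rt = true) :
    (∀ j < n, ∃ g ∈ H, g • vecOf (cd T rt) = vecOf (cd T j)) ∧
    (∀ i j, i < n → j < n → vecOf (cd T i) = vecOf (cd T j) → i = j) ∧
    (∀ j < n, cd T j < 4782969) := by
  have hs := okLvl_spec hok
  refine ⟨?_, ?_, fun j hj => (hs j hj).1⟩
  · apply VecCert.tree H (vecOf (cd T rt)) n (fun j => vecOf (cd T j)) (pr P) (dp P)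
      (fun j => wprod (gens.getD (gi P j) [])) rt rfl
    intro j hj
    rcases (hs j hj).2.2 with h | ⟨h1, h2, h3⟩
    · exact Or.inl h
    · refine Or.inr ⟨h1, h2, wprod_getD_mem H gens hgens _, ?_⟩
      show wprod (gens.getD (gi P j) []) • vecOf (cd T (pr P j)) = vecOf (cd T j)
      rw [← fmvW_sound, h3]
  · have hmono := cd_strict (fun j hj => (hs j hj).2.1)
    intro i j hi hj hv
    have hc := code_of_vec_eq hv
    rw [Nat.mod_eq_of_lt (hs i hi).1, Nat.mod_eq_of_lt (hs j hj).1] at hc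
    rcases Nat.lt_trichotomy i j with h | h | h
    · have := hmono j hj i h; omega
    · exact h
    · have := hmono i hi j h; omega

/-- the set of vectors of a table. -/
noncomputable def Dset (n T : ℕ) : Finset (Idx → ZMod 3) :=
  (Finset.range n).image (fun j => vecOf (cd T j))

theorem mem_Dset {n T : ℕ} {v : Idx → ZMod 3} : v ∈ Dset n T ↔ ∃ j < n, vecOf (cd T j) = v := by
  simp [Dset]

theorem Dset_card {n T : ℕ}
    (hinj : ∀ i j, i < n → j < n → vecOf (cd T i) = vecOf (cd T j) → i = j) :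
    (Dset n T).card = n := by
  rw [Dset, Finset.card_image_of_injOn, Finset.card_range]
  intro i hi j hj h
  exact hinj i j (Finset.mem_range.mp hi) (Finset.mem_range.mp hj) h

/-! ### basis vectors -/

theorem vecOf_pow : ∀ k : Fin 14, vecOf (3 ^ k.val) = Pi.single (numIdx k.val) 1 := by
  decide +kernel

theorem eq_of_basis (g h : G3) (hgh : ∀ k < 14, g • vecOf (3 ^ k) = h • vecOf (3 ^ k)) : g = h := by
  apply Subtype.ext
  apply Units.ext
  ext i j
  have h1 := hgh (idxNum j) (idxNum_lt j)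
  have h2 := vecOf_pow ⟨idxNum j, idxNum_lt j⟩
  simp only at h2
  rw [h2, numIdx_idxNum, smul_def, smul_def, Matrix.mulVec_single_one, Matrix.mulVec_single_one] at h1
  exact congrFun h1 i

/-! ### chains -/

/-- data of a two-level chain for an element `x` of prime order `p`. -/
structure CData where
  p : ℕ
  n0 : ℕ
  T0 : ℕ
  P0 : ℕ
  rt0 : ℕ
  n1 : ℕ
  T1 : ℕ
  P1 : ℕ
  rt1 : ℕ
  S1 : List (List ℕ)
  xw : List ℕ
  mw : List ℕ
  k : ℕ
  kinv : ℕ
  ns : List (List ℕ)
  xwit : ℕ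

def letters24 : List (List ℕ) := (List.range 24).map (fun l => [l])

def c0 (d : CData) : ℕ := cd d.T0 d.rt0
def c1 (d : CData) : ℕ := cd d.T1 d.rt1

noncomputable def chkL0 (d : CData) : Bool := okLvl letters24 d.n0 d.T0 d.P0 d.rt0

noncomputable def chkS1 (d : CData) : Bool :=
  d.S1.all (fun w => Nat.beq (fmvW w (c0 d)) (c0 d))

noncomputable def chkL1 (d : CData) : Bool := okLvl d.S1 d.n1 d.T1 d.P1 d.rt1

noncomputable def chkX (d : CData) : Bool :=
  Nat.beq (fmvW d.xw (c0 d)) (c0 d) && Nat.beq (fmvW d.xw (c1 d)) (c1 d) &&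
  allB 14 (fun k => Nat.beq (fmvWn d.p d.xw (Nat.pow 3 k)) (Nat.pow 3 k)) &&
  !(Nat.beq (Nat.mod (fmvW d.xw d.xwit) 4782969) (Nat.mod d.xwit 4782969))

noncomputable def chkM (d : CData) : Bool :=
  allB 14 (fun k => Nat.beq (fmvW d.xw (fmvW d.mw (Nat.pow 3 k)))
    (fmvW d.mw (fmvWn d.k d.xw (Nat.pow 3 k)))) &&
  Nat.beq (Nat.mod (Nat.mul d.k d.kinv) d.p) 1

noncomputable def chkD0 (d : CData) : Bool :=
  allB d.n0 (fun j => !(Nat.beq (Nat.mod (fmvW d.xw (cd d.T0 j)) 4782969) (cd d.T0 j)) ||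
    (Nat.beq j d.rt0 || Nat.beq (cd d.T0 j) (fmvW d.mw (c0 d))))

noncomputable def chkD1 (d : CData) : Bool :=
  allB d.n1 (fun j => !(Nat.beq (Nat.mod (fmvW d.xw (cd d.T1 j)) 4782969) (cd d.T1 j)) ||
    d.ns.any (fun nw => Nat.beq (fmvW nw (c1 d)) (cd d.T1 j)))

noncomputable def chkNs (d : CData) : Bool :=
  d.ns.all (fun nw => Nat.beq (fmvW nw (c0 d)) (c0 d) &&
    (Nat.beq (fmvW nw (c1 d)) (c1 d) || anyB 14 (fun k =>
      !(Nat.beq (Nat.mod (fmvW nw (fmvW d.xw (Nat.pow 3 k))) 4782969)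
        (Nat.mod (fmvW d.xw (fmvW nw (Nat.pow 3 k))) 4782969)))) &&
    anyB 14 (fun k =>
      !(Nat.beq (Nat.mod (fmvW d.mw (fmvW nw (fmvW d.xw (Nat.pow 3 k)))) 4782969)
        (Nat.mod (fmvW d.xw (fmvW d.mw (fmvW nw (Nat.pow 3 k)))) 4782969))))

theorem xfacts (d : CData) (hp : d.p.Prime) (hX : chkX d = true) :
    wprod d.xw • vecOf (c0 d) = vecOf (c0 d) ∧ wprod d.xw • vecOf (c1 d) = vecOf (c1 d) ∧
      orderOf (wprod d.xw) = d.p := by
  unfold chkX at hX
  simp only [Bool.and_eq_true, allB_iff, beq_iff, nbeq_iff] at hX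
  obtain ⟨⟨⟨h0, h1⟩, hpw⟩, hne⟩ := hX
  refine ⟨by rw [← fmvW_sound, h0], by rw [← fmvW_sound, h1], ?_⟩
  have : Fact d.p.Prime := ⟨hp⟩
  apply orderOf_eq_prime
  · apply eq_of_basis
    intro k hk
    rw [one_smul, ← fmvWn_sound]
    have := hpw k hk
    simp only [Nat.pow_eq] at this
    rw [this]
  · intro h
    apply hne
    have h2 := fmvW_sound d.xw d.xwit
    rw [h, one_smul] at h2
    exact code_of_vec_eq h2

theorem mfacts (d : CData) (hord : orderOf (wprod d.xw) = d.p) (hM : chkM d = true) :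
    wprod d.xw * wprod d.mw = wprod d.mw * wprod d.xw ^ d.k ∧
      (wprod d.xw ^ d.k) ^ d.kinv = wprod d.xw := by
  unfold chkM at hM
  simp only [Bool.and_eq_true, allB_iff, beq_iff] at hM
  obtain ⟨h1, h2⟩ := hM
  constructor
  · apply eq_of_basis
    intro k hk
    rw [mul_smul, mul_smul, ← fmvWn_sound, ← fmvW_sound, ← fmvW_sound, ← fmvW_sound]
    have := h1 k hk
    simp only [Nat.pow_eq] at this
    rw [this]
  · rw [← pow_mul, ← pow_mod_orderOf, hord]
    have : d.k * d.kinv % d.p = 1 := h2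
    rw [this, pow_one]

theorem chain_main (d : CData) (hp : d.p.Prime) (hG : Nat.card G3 = d.n0 * d.n1 * d.p)
    (hL0 : chkL0 d = true) (hS1 : chkS1 d = true) (hL1 : chkL1 d = true) (hX : chkX d = true)
    (hM : chkM d = true) (hD0 : chkD0 d = true) (hD1 : chkD1 d = true) (hNs : chkNs d = true) :
    orderOf (wprod d.xw) = d.p ∧
      ∀ c : G3, Commute c (wprod d.xw) → c ∈ Subgroup.zpowers (wprod d.xw) := by
  obtain ⟨hx0, hx1, hord⟩ := xfacts d hp hX
  obtain ⟨hmx, hk⟩ := mfacts d hord hM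
  refine ⟨hord, ?_⟩
  -- level 0
  obtain ⟨ht0, hinj0, hlt0⟩ := lvl_sound ⊤ letters24 (fun w _ => Subgroup.mem_top _) d.n0 d.T0 d.P0
    d.rt0 hL0
  -- level 1
  have hS1' : ∀ w ∈ d.S1, wprod w ∈ MulAction.stabilizer G3 (vecOf (c0 d)) := by
    unfold chkS1 at hS1
    rw [List.all_eq_true] at hS1
    intro w hw
    have := (beq_iff _ _).mp (hS1 w hw)
    show wprod w • vecOf (c0 d) = vecOf (c0 d)
    rw [← fmvW_sound, this]
  obtain ⟨ht1, hinj1, hlt1⟩ := lvl_sound (MulAction.stabilizer G3 (vecOf (c0 d))) d.S1 hS1' d.n1 d.T1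
    d.P1 d.rt1 hL1
  have hDex0 : ∀ v ∈ Dset d.n0 d.T0, ∃ g ∈ (⊤ : Subgroup G3), g • vecOf (c0 d) = v := by
    intro v hv
    obtain ⟨j, hj, rfl⟩ := mem_Dset.mp hv
    exact ht0 j hj
  have hDex1 : ∀ v ∈ Dset d.n1 d.T1,
      ∃ g ∈ MulAction.stabilizer G3 (vecOf (c0 d)), g • vecOf (c1 d) = v := by
    intro v hv
    obtain ⟨j, hj, rfl⟩ := mem_Dset.mp hv
    exact ht1 j hj
  have hppos : 0 < d.p := hp.pos
  have hGpos : 0 < Nat.card G3 := Nat.card_pos
  have hn1pos : 0 < d.n1 := by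
    rcases Nat.eq_zero_or_pos d.n1 with h | h
    · rw [hG, h] at hGpos; simp at hGpos
    · exact h
  have hL2 : d.p ≤ Nat.card ↥(MulAction.stabilizer G3 (vecOf (c0 d)) ⊓
      MulAction.stabilizer G3 (vecOf (c1 d))) := by
    have hle : Subgroup.zpowers (wprod d.xw) ≤ MulAction.stabilizer G3 (vecOf (c0 d)) ⊓
        MulAction.stabilizer G3 (vecOf (c1 d)) := by
      rw [Subgroup.zpowers_le]
      exact ⟨hx0, hx1⟩
    have := Subgroup.card_le_of_le hle
    rwa [Nat.card_zpowers, hord] at this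
  have hL1b := VecCert.level_lower (MulAction.stabilizer G3 (vecOf (c0 d))) (vecOf (c1 d))
    (Dset d.n1 d.T1) hDex1 d.p hL2
  rw [Dset_card hinj1] at hL1b
  have hL1b' : d.n1 * d.p ≤ Nat.card ↥((⊤ : Subgroup G3) ⊓ MulAction.stabilizer G3 (vecOf (c0 d))) := by
    rw [top_inf_eq]; exact hL1b
  have hcard0 : Nat.card ↥(⊤ : Subgroup G3) ≤ (Dset d.n0 d.T0).card * (d.n1 * d.p) := by
    rw [Subgroup.card_top, Dset_card hinj0, hG, mul_assoc]
  obtain ⟨hH1, hD0all⟩ := VecCert.level_exact (⊤ : Subgroup G3) (vecOf (c0 d)) (Dset d.n0 d.T0) hDex0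
    (d.n1 * d.p) hL1b' (Nat.mul_pos hn1pos hppos) hcard0
  rw [top_inf_eq] at hH1
  have hcard1 : Nat.card ↥(MulAction.stabilizer G3 (vecOf (c0 d))) ≤ (Dset d.n1 d.T1).card * d.p := by
    rw [hH1, Dset_card hinj1]
  obtain ⟨hH2, hD1all⟩ := VecCert.level_exact (MulAction.stabilizer G3 (vecOf (c0 d))) (vecOf (c1 d))
    (Dset d.n1 d.T1) hDex1 d.p hL2 hppos hcard1
  -- scans
  have hm : wprod d.mw • vecOf (c0 d) = vecOf (fmvW d.mw (c0 d)) := (fmvW_sound _ _).symm
  have hF0 : ∀ v ∈ Dset d.n0 d.T0, wprod d.xw • v = v →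
      v = vecOf (c0 d) ∨ v = vecOf (fmvW d.mw (c0 d)) := by
    intro v hv hxv
    obtain ⟨j, hj, rfl⟩ := mem_Dset.mp hv
    rw [← fmvW_sound] at hxv
    have hc := code_of_vec_eq hxv
    rw [Nat.mod_eq_of_lt (hlt0 j hj)] at hc
    unfold chkD0 at hD0
    rw [allB_iff] at hD0
    have := hD0 j hj
    simp only [Bool.or_eq_true, nbeq_iff, beq_iff] at this
    rcases this with h | h | h
    · exact absurd hc h
    · left; rw [h]; rfl
    · right; rw [h]
  have hns : ∀ n ∈ d.ns.map wprod, n • vecOf (c0 d) = vecOf (c0 d) := by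
    intro n hn
    obtain ⟨nw, hnw, rfl⟩ := List.mem_map.mp hn
    unfold chkNs at hNs
    rw [List.all_eq_true] at hNs
    have := hNs nw hnw
    simp only [Bool.and_eq_true, beq_iff] at this
    rw [← fmvW_sound, this.1.1]
  have hF1 : ∀ v ∈ Dset d.n1 d.T1, wprod d.xw • v = v →
      ∃ n ∈ d.ns.map wprod, n • vecOf (c1 d) = v := by
    intro v hv hxv
    obtain ⟨j, hj, rfl⟩ := mem_Dset.mp hv
    rw [← fmvW_sound] at hxv
    have hc := code_of_vec_eq hxv
    rw [Nat.mod_eq_of_lt (hlt1 j hj)] at hc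
    unfold chkD1 at hD1
    rw [allB_iff] at hD1
    have := hD1 j hj
    simp only [Bool.or_eq_true, nbeq_iff, List.any_eq_true, beq_iff] at this
    rcases this with h | ⟨nw, hnw, h⟩
    · exact absurd hc h
    · exact ⟨wprod nw, List.mem_map_of_mem hnw, by rw [← fmvW_sound, h]⟩
  have hb := VecCert.hb_of_scans (wprod d.xw) (vecOf (c0 d)) (vecOf (c1 d)) hx0 hx1
    (Dset d.n0 d.T0) (Dset d.n1 d.T1) (fun g => hD0all g (Subgroup.mem_top g)) hD1all
    (vecOf (fmvW d.mw (c0 d))) (wprod d.mw) hm d.k d.kinv hmx hk hF0 (d.ns.map wprod) hns hF1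
  have hc1 : ∀ n ∈ d.ns.map wprod, Commute n (wprod d.xw) → n • vecOf (c1 d) = vecOf (c1 d) := by
    intro n hn hcomm
    obtain ⟨nw, hnw, rfl⟩ := List.mem_map.mp hn
    unfold chkNs at hNs
    rw [List.all_eq_true] at hNs
    have := hNs nw hnw
    simp only [Bool.and_eq_true, Bool.or_eq_true, beq_iff, anyB_iff, nbeq_iff] at this
    rcases this.1.2 with h | ⟨k, hk, h⟩
    · rw [← fmvW_sound, h]
    · exfalso
      apply h
      apply code_of_vec_eq
      simp only [Nat.pow_eq]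
      rw [fmvW_sound, fmvW_sound, fmvW_sound, fmvW_sound, ← mul_smul, ← mul_smul, hcomm.eq]
  have hc2 : ∀ n ∈ d.ns.map wprod, ¬ Commute (wprod d.mw * n) (wprod d.xw) := by
    intro n hn hcomm
    obtain ⟨nw, hnw, rfl⟩ := List.mem_map.mp hn
    unfold chkNs at hNs
    rw [List.all_eq_true] at hNs
    have := hNs nw hnw
    simp only [Bool.and_eq_true, Bool.or_eq_true, beq_iff, anyB_iff, nbeq_iff] at this
    obtain ⟨k, hk, h⟩ := this.2
    apply h
    apply code_of_vec_eq
    simp only [Nat.pow_eq]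
    rw [fmvW_sound, fmvW_sound, fmvW_sound, fmvW_sound, fmvW_sound, fmvW_sound, ← mul_smul,
      ← mul_smul, ← mul_smul, ← mul_smul, hcomm.eq, mul_assoc]
  exact VecCert.cent_of_chain (wprod d.xw) d.p hord (vecOf (c0 d)) (vecOf (c1 d)) hx0 hx1 hH2
    (wprod d.mw) (d.ns.map wprod) hb hns hc1 hc2

end Cfsg.Agent.Lib.Helper61.G23Main
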