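import Mathlib
import Cfsg.Agent.Lib.Helper61.G23Main
import Cfsg.Agent.S1059

set_option autoImplicit false

/-! The certificates for `G_2(3)`: elements of order 7 and 13 are self-centralising, so there are
no elements of order `7r` or `13r`; and there is an element of order 6. -/

namespace Cfsg.Agent.Lib.Helper61.G23Chk

open Cfsg.Agent.Lib.Helper61.G23Main Cfsg.Agent.Lib.Helper61.G23Data Cfsg.Agent.Lib.Helper61.G23Fast
open Cfsg.Agent.Lib.Helper61

def d7 : CData where
  p := 7
  n0 := c7_n0
  T0 := c7_T0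
  P0 := c7_P0
  rt0 := c7_rt0
  n1 := c7_n1
  T1 := c7_T1
  P1 := c7_P1
  rt1 := c7_rt1
  S1 := c7_S1
  xw := c7_xw
  mw := c7_mw
  k := c7_k
  kinv := c7_kinv
  ns := c7_ns
  xwit := c7_xwit

def d13 : CData where
  p := 13
  n0 := c13_n0
  T0 := c13_T0
  P0 := c13_P0
  rt0 := c13_rt0
  n1 := c13_n1
  T1 := c13_T1
  P1 := c13_P1
  rt1 := c13_rt1
  S1 := c13_S1
  xw := c13_xw
  mw := c13_mw
  k := c13_k
  kinv := c13_kinv
  ns := c13_ns
  xwit := c13_xwit

set_option maxRecDepth 1000000 in
theorem d7_L0 : chkL0 d7 = true := by decide +kernel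

set_option maxRecDepth 1000000 in
theorem d7_S1 : chkS1 d7 = true := by decide +kernel

set_option maxRecDepth 1000000 in
theorem d7_L1 : chkL1 d7 = true := by decide +kernel

set_option maxRecDepth 1000000 in
theorem d7_X : chkX d7 = true := by decide +kernel

set_option maxRecDepth 1000000 in
theorem d7_M : chkM d7 = true := by decide +kernel

set_option maxRecDepth 1000000 in
theorem d7_D0 : chkD0 d7 = true := by decide +kernel

set_option maxRecDepth 1000000 in
theorem d7_D1 : chkD1 d7 = true := by decide +kernel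

set_option maxRecDepth 1000000 in
theorem d7_Ns : chkNs d7 = true := by decide +kernel

set_option maxRecDepth 1000000 in
theorem d13_L0 : chkL0 d13 = true := by decide +kernel

set_option maxRecDepth 1000000 in
theorem d13_S1 : chkS1 d13 = true := by decide +kernel

set_option maxRecDepth 1000000 in
theorem d13_L1 : chkL1 d13 = true := by decide +kernel

set_option maxRecDepth 1000000 in
theorem d13_X : chkX d13 = true := by decide +kernel

set_option maxRecDepth 1000000 in
theorem d13_M : chkM d13 = true := by decide +kernel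

set_option maxRecDepth 1000000 in
theorem d13_D0 : chkD0 d13 = true := by decide +kernel

set_option maxRecDepth 1000000 in
theorem d13_D1 : chkD1 d13 = true := by decide +kernel

set_option maxRecDepth 1000000 in
theorem d13_Ns : chkNs d13 = true := by decide +kernel

theorem card_G3 : Nat.card G3 = 4245696 := by
  have h := Cfsg.Agent.S1059.result (F := ZMod 3) (q := 3) (by rw [ZMod.card])
  rw [h]
  norm_num

theorem cent7 : orderOf (wprod d7.xw) = 7 ∧
    ∀ c : G3, Commute c (wprod d7.xw) → c ∈ Subgroup.zpowers (wprod d7.xw) :=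
  chain_main d7 (by norm_num [d7]) (by rw [card_G3]; rfl) d7_L0 d7_S1 d7_L1 d7_X d7_M d7_D0 d7_D1
    d7_Ns

theorem cent13 : orderOf (wprod d13.xw) = 13 ∧
    ∀ c : G3, Commute c (wprod d13.xw) → c ∈ Subgroup.zpowers (wprod d13.xw) :=
  chain_main d13 (by norm_num [d13]) (by rw [card_G3]; rfl) d13_L0 d13_S1 d13_L1 d13_X d13_M d13_D0
    d13_D1 d13_Ns

/-- no element of order `7 r`, `r > 1`. -/
theorem no7 (r : ℕ) (hr : 1 < r) (y : G3) : orderOf y ≠ 7 * r := by
  intro hy
  have : Fact (Nat.Prime 7) := ⟨by norm_num⟩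
  exact VecCert.no_order_mul' 7 (wprod d7.xw) cent7.1 606528 (by rw [card_G3]) (by norm_num)
    cent7.2 r hr y hy

/-- no element of order `13 r`, `r > 1`. -/
theorem no13 (r : ℕ) (hr : 1 < r) (y : G3) : orderOf y ≠ 13 * r := by
  intro hy
  have : Fact (Nat.Prime 13) := ⟨by norm_num⟩
  exact VecCert.no_order_mul' 13 (wprod d13.xw) cent13.1 326592 (by rw [card_G3]) (by norm_num)
    cent13.2 r hr y hy

/-- check for the element of order 6. -/
noncomputable def chk6 : Bool :=
  allB 14 (fun k => Nat.beq (fmvWn 6 g6w (Nat.pow 3 k)) (Nat.pow 3 k)) &&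
  !(Nat.beq (Nat.mod (fmvWn 2 g6w g6wit2) 4782969) (Nat.mod g6wit2 4782969)) &&
  !(Nat.beq (Nat.mod (fmvWn 3 g6w g6wit3) 4782969) (Nat.mod g6wit3 4782969))

set_option maxRecDepth 1000000 in
theorem chk6_ok : chk6 = true := by decide +kernel

theorem ex6 : ∃ y : G3, orderOf y = 6 := by
  refine ⟨wprod g6w, ?_⟩
  have h := chk6_ok
  unfold chk6 at h
  simp only [Bool.and_eq_true, allB_iff, beq_iff, nbeq_iff] at h
  obtain ⟨⟨h6, h2⟩, h3⟩ := h
  apply VecCert.order_six
  · apply eq_of_basis
    intro k hk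
    rw [one_smul, ← fmvWn_sound]
    have := h6 k hk
    simp only [Nat.pow_eq] at this
    rw [this]
  · intro hh
    apply h2
    have h4 := fmvWn_sound 2 g6w g6wit2
    rw [hh, one_smul] at h4
    exact code_of_vec_eq h4
  · intro hh
    apply h3
    have h4 := fmvWn_sound 3 g6w g6wit3
    rw [hh, one_smul] at h4
    exact code_of_vec_eq h4

end Cfsg.Agent.Lib.Helper61.G23Chk
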