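import Mathlib
import Cfsg.Agent.Lib.Helper61.SemiSpec

set_option autoImplicit false

/-!
The group `V ⋊ (2 × PSL₂(q))`, `q = 3 ^ α` with `α` odd, `V` the space of `2 × 2` matrices over the
field with `q` elements, on which `(X, u)` acts by `A ↦ u • (X * A * (X ^ (3))ᵀ)` (entrywise cube).
Its element orders are the divisors of `6`, `9`, `q - 1` and `(q + 1) / 2`.
-/

namespace Cfsg.Agent.Lib.Helper61.L2Mod

open Matrix

section arith

theorem pow_mod8 {α : ℕ} (hα : Odd α) : 3 ^ α % 8 = 3 := by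
  obtain ⟨k, rfl⟩ := hα
  rw [pow_succ, pow_mul, Nat.mul_mod, Nat.pow_mod]
  norm_num

theorem pow_ge {α : ℕ} (hα : 3 ≤ α) : 27 ≤ 3 ^ α := by
  calc 27 = 3 ^ 3 := by norm_num
    _ ≤ 3 ^ α := Nat.pow_le_pow_right (by norm_num) hα

theorem pow_mod3 {α : ℕ} (hα : 3 ≤ α) : 3 ^ α % 3 = 0 := by
  obtain ⟨k, rfl⟩ : ∃ k, α = k + 1 := ⟨α - 1, by omega⟩
  rw [pow_succ]
  omega

end arith

variable {K : Type*} [Field K]

/-- The entrywise cube of a matrix, as a ring homomorphism in characteristic three. -/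
noncomputable def fm [CharP K 3] : Matrix (Fin 2) (Fin 2) K →+* Matrix (Fin 2) (Fin 2) K :=
  (frobenius K 3).mapMatrix

theorem fm_apply [CharP K 3] (M : Matrix (Fin 2) (Fin 2) K) (i j : Fin 2) :
    fm M i j = M i j ^ 3 := rfl

theorem fm_neg_one [CharP K 3] : fm (-1 : Matrix (Fin 2) (Fin 2) K) = -1 := by
  rw [map_neg, map_one]

theorem three_eq_zero [CharP K 3] : (3 : K) = 0 := by
  have h := CharP.cast_eq_zero K 3
  exact_mod_cast h

theorem two_eq_neg_one [CharP K 3] : (2 : K) = -1 := by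
  linear_combination (three_eq_zero : (3 : K) = 0)

theorem two_ne_zero_K [CharP K 3] : (2 : K) ≠ 0 := by
  rw [two_eq_neg_one]
  exact neg_ne_zero.2 one_ne_zero

/-- Cayley–Hamilton for `2 × 2` matrices of determinant one. -/
theorem cayley (M : Matrix (Fin 2) (Fin 2) K) (hdet : M.det = 1) :
    M * M = M.trace • M - 1 := by
  rw [Matrix.det_fin_two] at hdet
  ext i j
  fin_cases i <;> fin_cases j <;>
    simp [Matrix.mul_apply, Fin.sum_univ_two, Matrix.trace] <;>
    first | ring1 | linear_combination (-1 : K) * hdet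

theorem fm_det [CharP K 3] (M : Matrix (Fin 2) (Fin 2) K) : (fm M).det = M.det ^ 3 := by
  rw [Matrix.det_fin_two, Matrix.det_fin_two]
  simp only [fm_apply]
  have h3 : (3 : K) = 0 := three_eq_zero
  linear_combination ((M 0 0 * M 1 1) ^ 2 * (M 0 1 * M 1 0) - (M 0 0 * M 1 1) * (M 0 1 * M 1 0) ^ 2) * h3

theorem fm_trace [CharP K 3] (M : Matrix (Fin 2) (Fin 2) K) : (fm M).trace = M.trace ^ 3 := by
  simp only [Matrix.trace, Fin.sum_univ_two, Matrix.diag_apply, fm_apply]
  have h3 : (3 : K) = 0 := three_eq_zero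
  linear_combination (-(M 0 0) ^ 2 * M 1 1 - M 0 0 * (M 1 1) ^ 2) * h3

/-- The operator `A ↦ s • (M * A * (M ^ (3))ᵀ)`. -/
noncomputable def op [CharP K 3] (s : K) (M A : Matrix (Fin 2) (Fin 2) K) :
    Matrix (Fin 2) (Fin 2) K :=
  s • (M * A * (fm M)ᵀ)

theorem op_op [CharP K 3] (s s' : K) (M M' A : Matrix (Fin 2) (Fin 2) K) :
    op s M (op s' M' A) = op (s * s') (M * M') A := by
  simp only [op, map_mul, Matrix.transpose_mul, Matrix.mul_smul, Matrix.smul_mul, smul_smul,
    Matrix.mul_assoc]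

theorem op_one [CharP K 3] (s : K) (A : Matrix (Fin 2) (Fin 2) K) : op s 1 A = s • A := by
  simp [op]

theorem op_neg_one [CharP K 3] (s : K) (A : Matrix (Fin 2) (Fin 2) K) : op s (-1) A = s • A := by
  simp [op, fm_neg_one]

/-- The sign of a unit of `ℤ` as an element of `K`. -/
def sgn (u : ℤˣ) : K := ((u : ℤ) : K)

@[simp] theorem sgn_one : sgn (1 : ℤˣ) = (1 : K) := by simp [sgn]

theorem sgn_neg_one : sgn (-1 : ℤˣ) = (-1 : K) := by simp [sgn]

theorem sgn_mul (u w : ℤˣ) : (sgn (u * w) : K) = sgn u * sgn w := by simp [sgn]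

theorem sgn_pow (u : ℤˣ) (n : ℕ) : (sgn (u ^ n) : K) = sgn u ^ n := by simp [sgn]

theorem sgn_cases (u : ℤˣ) : (sgn u : K) = 1 ∨ (sgn u : K) = -1 := by
  rcases Int.units_eq_one_or u with h | h
  · left; rw [h, sgn_one]
  · right; rw [h, sgn_neg_one]

/-- The acting group `SL₂(K) × {±1}`. -/
abbrev G0 (K : Type*) [Field K] : Type _ := Matrix.SpecialLinearGroup (Fin 2) K × ℤˣ

noncomputable instance [CharP K 3] : DistribMulAction (G0 K) (Matrix (Fin 2) (Fin 2) K) where
  smul γ A := op (sgn γ.2) γ.1.1 A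
  one_smul A := by
    show op (sgn (1 : G0 K).2) (1 : G0 K).1.1 A = A
    simp [op_one]
  mul_smul γ δ A := by
    show op (sgn (γ * δ).2) (γ * δ).1.1 A = op (sgn γ.2) γ.1.1 (op (sgn δ.2) δ.1.1 A)
    rw [op_op]
    simp [sgn_mul]
  smul_zero γ := by
    show op (sgn γ.2) γ.1.1 0 = 0
    simp [op]
  smul_add γ A B := by
    show op (sgn γ.2) γ.1.1 (A + B) = op (sgn γ.2) γ.1.1 A + op (sgn γ.2) γ.1.1 B
    simp [op, Matrix.mul_add, Matrix.add_mul]

theorem smul_def [CharP K 3] (γ : G0 K) (A : Matrix (Fin 2) (Fin 2) K) :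
    γ • A = op (sgn γ.2) γ.1.1 A := rfl

theorem pow_smul [CharP K 3] (γ : G0 K) (n : ℕ) (A : Matrix (Fin 2) (Fin 2) K) :
    γ ^ n • A = op (sgn γ.2 ^ n) (γ.1.1 ^ n) A := by
  rw [smul_def]
  simp [sgn_pow]

section general

variable [CharP K 3]

theorem three_nsmul (A : Matrix (Fin 2) (Fin 2) K) : (3 : ℕ) • A = 0 := by
  ext i j
  simp [three_eq_zero]

/-- `Good γ n`: every element of the semidirect product lying over `γ` has trivial `n`-th power. -/
def Good (γ : G0 K) (n : ℕ) : Prop :=
  (∀ a : Matrix (Fin 2) (Fin 2) K, ∑ i ∈ Finset.range n, γ ^ i • a = 0) ∧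
    ∀ A : Matrix (Fin 2) (Fin 2) K, γ ^ n • A = A

theorem good_of_period (γ : G0 K) (m : ℕ)
    (h : ∀ A : Matrix (Fin 2) (Fin 2) K, γ ^ m • A = A) : Good γ (3 * m) := by
  have hshift : ∀ (x : ℕ) (a : Matrix (Fin 2) (Fin 2) K), γ ^ (m + x) • a = γ ^ x • a := by
    intro x a
    rw [pow_add, mul_smul, h]
  constructor
  · intro a
    rw [show 3 * m = m + (m + m) by ring, Finset.sum_range_add, Finset.sum_range_add]
    simp only [hshift]
    have h3 := three_nsmul (∑ i ∈ Finset.range m, γ ^ i • a)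
    rw [← h3]
    abel
  · intro A
    rw [show 3 * m = m + (m + m) by ring, pow_add, pow_add, mul_smul, mul_smul, h, h, h]

theorem good_of_antiperiod (γ : G0 K) (m : ℕ)
    (h : ∀ A : Matrix (Fin 2) (Fin 2) K, γ ^ m • A = -A) : Good γ (2 * m) := by
  have hshift : ∀ (x : ℕ) (a : Matrix (Fin 2) (Fin 2) K), γ ^ (m + x) • a = -(γ ^ x • a) := by
    intro x a
    rw [pow_add, mul_smul, h]
  constructor
  · intro a
    rw [show 2 * m = m + m by ring, Finset.sum_range_add]
    simp only [hshift, Finset.sum_neg_distrib]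
    abel
  · intro A
    rw [show 2 * m = m + m by ring, pow_add, mul_smul, h, h, neg_neg]

theorem good_of_fpf (γ : G0 K) (n : ℕ)
    (hfix : ∀ A : Matrix (Fin 2) (Fin 2) K, γ • A = A → A = 0)
    (h : ∀ A : Matrix (Fin 2) (Fin 2) K, γ ^ n • A = A) : Good γ n := by
  refine ⟨fun a => ?_, h⟩
  apply hfix
  rw [Finset.smul_sum]
  have h1 : ∀ i : ℕ, γ • γ ^ i • a = γ ^ (i + 1) • a := by
    intro i
    rw [← mul_smul, ← pow_succ']
  simp only [h1]
  have h2 := Finset.sum_range_succ' (fun i => γ ^ i • a) n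
  have h3 := Finset.sum_range_succ (fun i => γ ^ i • a) n
  simp only [pow_zero, one_smul, h] at h2 h3
  rw [h3] at h2
  exact (add_right_cancel h2).symm

theorem good_mono (γ : G0 K) (n m : ℕ) (h : Good γ n) : Good γ (n * m) := by
  have hper : ∀ (j : ℕ) (A : Matrix (Fin 2) (Fin 2) K), γ ^ (n * j) • A = A := by
    intro j
    induction j with
    | zero => intro A; simp
    | succ j ih => intro A; rw [Nat.mul_succ, pow_add, mul_smul, h.2, ih]
  refine ⟨fun a => ?_, hper m⟩
  induction m with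
  | zero => simp
  | succ m ih =>
    rw [Nat.mul_succ, Finset.sum_range_add, ih, zero_add]
    have : ∀ x : ℕ, γ ^ (n * m + x) • a = γ ^ x • a := by
      intro x
      rw [pow_add, mul_smul, hper]
    simp only [this]
    exact h.1 a

/-- Fixed-point-freeness of elements whose trace is not in the prime field. -/
theorem fpf_op (M A : Matrix (Fin 2) (Fin 2) K) (hdet : M.det = 1) (s : K)
    (hs : s = 1 ∨ s = -1) (ht : M.trace ^ 3 ≠ M.trace) (hsq : ∀ r : K, r ^ 2 ≠ -1)
    (hA : op s M A = A) : A = 0 := by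
  set t := M.trace with ht_def
  set W := (fm M)ᵀ with hW_def
  have hss : s * s = 1 := by rcases hs with h | h <;> rw [h] <;> ring
  have hM : M * M = t • M - 1 := cayley M hdet
  have hW : W * W = t ^ 3 • W - 1 := by
    have h1 := cayley (fm M) (by rw [fm_det, hdet, one_pow])
    rw [fm_trace] at h1
    have h2 := congrArg Matrix.transpose h1
    rw [Matrix.transpose_mul, Matrix.transpose_sub, Matrix.transpose_smul,
      Matrix.transpose_one] at h2
    exact h2
  have hA' : M * A * W = s • A := by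
    have h1 : s • op s M A = s • A := by rw [hA]
    rw [op, smul_smul, hss, one_smul] at h1
    exact h1
  have hWinv : W * (t ^ 3 • 1 - W) = 1 := by
    rw [Matrix.mul_sub, Matrix.mul_smul, Matrix.mul_one, hW]
    abel
  have step1 : M * A = s • (t ^ 3 • A - A * W) := by
    calc M * A = M * A * (W * (t ^ 3 • 1 - W)) := by rw [hWinv, Matrix.mul_one]
      _ = (M * A * W) * (t ^ 3 • 1 - W) := by rw [Matrix.mul_assoc (M * A)]
      _ = s • (t ^ 3 • A - A * W) := by
        rw [hA', Matrix.smul_mul, Matrix.mul_sub, Matrix.mul_smul, Matrix.mul_one]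
  have step2 : M * (M * A) = (s * t ^ 3) • (M * A) - A := by
    calc M * (M * A) = M * (s • (t ^ 3 • A - A * W)) := by rw [← step1]
      _ = s • (t ^ 3 • (M * A) - M * A * W) := by
        rw [Matrix.mul_smul, Matrix.mul_sub, Matrix.mul_smul, Matrix.mul_assoc]
      _ = (s * t ^ 3) • (M * A) - A := by
        rw [hA', smul_sub, smul_smul, smul_smul, hss, one_smul]
  have step3 : M * (M * A) = t • (M * A) - A := by
    rw [← Matrix.mul_assoc, hM, Matrix.sub_mul, Matrix.smul_mul, Matrix.one_mul]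
  have step4 : (t - s * t ^ 3) • (M * A) = 0 := by
    rw [sub_smul, ← sub_eq_zero.2 (step3.symm.trans step2)]
    abel
  have hne : t - s * t ^ 3 ≠ 0 := by
    rcases hs with h | h
    · rw [h, one_mul]
      exact sub_ne_zero.2 (Ne.symm ht)
    · rw [h]
      intro h0
      have h1 : t * (t ^ 2 + 1) = 0 := by linear_combination h0
      rcases mul_eq_zero.1 h1 with h2 | h2
      · apply ht
        rw [h2]
        ring
      · exact hsq t (by linear_combination h2)
  have hMA : M * A = 0 := by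
    rcases smul_eq_zero.1 step4 with h | h
    · exact absurd h hne
    · exact h
  have hMinv : (t • 1 - M) * M = 1 := by
    rw [Matrix.sub_mul, Matrix.smul_mul, Matrix.one_mul, hM]
    abel
  calc A = (t • 1 - M) * M * A := by rw [hMinv, Matrix.one_mul]
    _ = (t • 1 - M) * (M * A) := by rw [Matrix.mul_assoc]
    _ = 0 := by rw [hMA, Matrix.mul_zero]

end general

section period

variable [Finite K] {α : ℕ}

theorem pow_card (hK : Nat.card K = 3 ^ α) (x : K) : x ^ (3 ^ α) = x := by
  let _ : Fintype K := Fintype.ofFinite K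
  have h := FiniteField.pow_card x
  rwa [Fintype.card_eq_nat_card, hK] at h

theorem pow_card_sub_one (hK : Nat.card K = 3 ^ α) (x : K) (hx : x ≠ 0) :
    x ^ (3 ^ α - 1) = 1 := by
  let _ : Fintype K := Fintype.ofFinite K
  have h := FiniteField.pow_card_sub_one_eq_one x hx
  rwa [Fintype.card_eq_nat_card, hK] at h

theorem neg_one_not_sq (hK : Nat.card K = 3 ^ α) (hα : Odd α) (r : K) : r ^ 2 ≠ -1 := by
  let _ : Fintype K := Fintype.ofFinite K
  intro h
  have h1 : IsSquare (-1 : K) := ⟨r, by rw [← h]; ring⟩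
  rw [FiniteField.isSquare_neg_one_iff, Fintype.card_eq_nat_card, hK] at h1
  have := pow_mod8 hα
  omega

variable [CharP K 3]

/-- Elements with two distinct eigenvalues in `K` have order dividing `q - 1`. -/
theorem pow_split (hK : Nat.card K = 3 ^ α) (M : Matrix (Fin 2) (Fin 2) K) (hdet : M.det = 1)
    (ht : M.trace ^ 3 ≠ M.trace) (a : K) (ha : a ^ 2 = -1 + M.trace * a) :
    M ^ (3 ^ α - 1) = 1 := by
  set t := M.trace with ht_def
  have hM : M * M = t • M - 1 := cayley M hdet
  set b := t - a with hb_def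
  have hab : a * b = 1 := by rw [hb_def]; linear_combination -ha
  have ha0 : a ≠ 0 := left_ne_zero_of_mul_eq_one hab
  have hb0 : b ≠ 0 := right_ne_zero_of_mul_eq_one hab
  have hne : a ≠ b := by
    intro h
    apply ht
    have h1 : a * a = 1 := by rw [← h] at hab; exact hab
    have h2 : t = 2 * a := by rw [hb_def] at h; linear_combination -h
    have h3 : (3 : K) = 0 := three_eq_zero
    rw [h2]
    linear_combination (8 * a) * h1 + (2 * a) * h3
  have hsum : a + b = t := by rw [hb_def]; ring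
  have hMP : M * (M - b • 1) = a • (M - b • 1) := by
    rw [Matrix.mul_sub, hM, Matrix.mul_smul, Matrix.mul_one, smul_sub, smul_smul, hab, one_smul,
      ← hsum, add_smul]
    abel
  have hMR : M * (M - a • 1) = b • (M - a • 1) := by
    rw [Matrix.mul_sub, hM, Matrix.mul_smul, Matrix.mul_one, smul_sub, smul_smul, mul_comm b a,
      hab, one_smul, ← hsum, add_smul]
    abel
  have powP : ∀ n : ℕ, M ^ n * (M - b • 1) = a ^ n • (M - b • 1) := by
    intro n
    induction n with
    | zero => simp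
    | succ n ih => rw [pow_succ, Matrix.mul_assoc, hMP, Matrix.mul_smul, ih, smul_smul, pow_succ,
        mul_comm]
  have powR : ∀ n : ℕ, M ^ n * (M - a • 1) = b ^ n • (M - a • 1) := by
    intro n
    induction n with
    | zero => simp
    | succ n ih => rw [pow_succ, Matrix.mul_assoc, hMR, Matrix.mul_smul, ih, smul_smul, pow_succ,
        mul_comm]
  have h1 := powP (3 ^ α - 1)
  have h2 := powR (3 ^ α - 1)
  rw [pow_card_sub_one hK a ha0, one_smul] at h1
  rw [pow_card_sub_one hK b hb0, one_smul] at h2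
  have h3 : M ^ (3 ^ α - 1) * ((a - b) • (1 : Matrix (Fin 2) (Fin 2) K)) = (a - b) • 1 := by
    have e : (a - b) • (1 : Matrix (Fin 2) (Fin 2) K) = (M - b • 1) - (M - a • 1) := by
      rw [sub_smul]
      abel
    rw [e, Matrix.mul_sub, h1, h2]
  rw [Matrix.mul_smul, Matrix.mul_one] at h3
  have h4 : (a - b) • (M ^ (3 ^ α - 1) - 1) = 0 := by rw [smul_sub, h3, sub_self]
  rcases smul_eq_zero.1 h4 with h | h
  · exact absurd (sub_eq_zero.1 h) hne
  · exact sub_eq_zero.1 h

open QuadraticAlgebra in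
/-- In the quadratic extension `K[ω]`, `ω ^ 2 = -1 + b ω`, the element `ω` has norm one, so
`ω ^ (q + 1) = 1`. -/
theorem omega_pow (hK : Nat.card K = 3 ^ α) (hα : α ≠ 0) (b : K)
    [Fact (∀ r : K, r ^ 2 ≠ -1 + b * r)] :
    (ω : QuadraticAlgebra K (-1) b) ^ (3 ^ α + 1) = 1 := by
  have hchar : CharP (QuadraticAlgebra K (-1) b) 3 :=
    charP_of_injective_algebraMap (algebraMap K (QuadraticAlgebra K (-1) b)).injective 3
  have hω : (ω : QuadraticAlgebra K (-1) b) * ω =
      algebraMap K _ (-1) + algebraMap K _ b * ω := omega_mul_omega_eq_algebraMap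
  set F := (ω : QuadraticAlgebra K (-1) b) ^ (3 ^ α) with hF_def
  have hF : F * F = algebraMap K _ (-1) + algebraMap K _ b * F := by
    rw [hF_def, ← mul_pow, hω, add_pow_char_pow, mul_pow, ← map_pow, ← map_pow, pow_card hK,
      pow_card hK]
  have hprod : (F - ω) * (F - (algebraMap K _ b - ω)) = 0 := by
    linear_combination hF - hω
  rcases mul_eq_zero.1 hprod with h | h
  · exfalso
    have hFω : F = ω := sub_eq_zero.1 h
    have hall : ∀ z : QuadraticAlgebra K (-1) b, z ^ (3 ^ α) = z := by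
      intro z
      have hz : z = algebraMap K _ z.re + algebraMap K _ z.im * ω := by
        rw [← Algebra.smul_def]
        exact mk_eq_add_smul_omega z.re z.im
      conv_lhs => rw [hz]
      rw [add_pow_char_pow, mul_pow, ← map_pow, ← map_pow, pow_card hK, pow_card hK, ← hF_def,
        hFω, ← hz]
    have hfin : Finite (QuadraticAlgebra K (-1) b) := Finite.of_equiv _ (equivProd (-1) b).symm
    let _ : Fintype (QuadraticAlgebra K (-1) b) := Fintype.ofFinite _
    classical
    have hq1 : 1 < 3 ^ α := Nat.one_lt_pow hα (by norm_num)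
    have hroots : (Finset.univ : Finset (QuadraticAlgebra K (-1) b)) ⊆
        (Polynomial.X ^ (3 ^ α) - Polynomial.X : Polynomial (QuadraticAlgebra K (-1) b)).roots.toFinset := by
      intro z _
      rw [Multiset.mem_toFinset, Polynomial.mem_roots (FiniteField.X_pow_card_sub_X_ne_zero _ hq1)]
      simp [hall z]
    have hle := Finset.card_le_card hroots
    have h2 : (Polynomial.X ^ (3 ^ α) - Polynomial.X :
        Polynomial (QuadraticAlgebra K (-1) b)).roots.toFinset.card ≤ 3 ^ α := by
      calc _ ≤ Multiset.card (Polynomial.X ^ (3 ^ α) - Polynomial.X :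
            Polynomial (QuadraticAlgebra K (-1) b)).roots := Multiset.toFinset_card_le _
        _ ≤ (Polynomial.X ^ (3 ^ α) - Polynomial.X :
            Polynomial (QuadraticAlgebra K (-1) b)).natDegree := Polynomial.card_roots' _
        _ = 3 ^ α := FiniteField.X_pow_card_sub_X_natDegree_eq _ hq1
    have hcard : Fintype.card (QuadraticAlgebra K (-1) b) = 3 ^ α * 3 ^ α := by
      rw [Fintype.card_eq_nat_card, Nat.card_congr (equivProd (-1 : K) b), Nat.card_prod, hK]
    rw [Finset.card_univ, hcard] at hle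
    have : 3 ^ α * 3 ^ α ≤ 3 ^ α := le_trans hle h2
    nlinarith
  · have hFω : F = algebraMap K _ b - ω := sub_eq_zero.1 h
    rw [pow_succ, ← hF_def, hFω]
    have hneg : algebraMap K (QuadraticAlgebra K (-1) b) (-1) = -1 := by
      rw [map_neg, map_one]
    rw [hneg] at hω
    linear_combination -hω

/-- Elements without eigenvalues in `K` have order dividing `q + 1`. -/
theorem pow_nonsplit (hK : Nat.card K = 3 ^ α) (hα : α ≠ 0) (M : Matrix (Fin 2) (Fin 2) K)
    (hdet : M.det = 1) (hns : ∀ r : K, r ^ 2 ≠ -1 + M.trace * r) : M ^ (3 ^ α + 1) = 1 := by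
  have hM : M * M = (-1 : K) • (1 : Matrix (Fin 2) (Fin 2) K) + M.trace • M := by
    rw [cayley M hdet]
    simp
    abel
  have : Fact (∀ r : K, r ^ 2 ≠ -1 + M.trace * r) := ⟨hns⟩
  let Φ := QuadraticAlgebra.lift (⟨M, hM⟩ :
    {u : Matrix (Fin 2) (Fin 2) K // u * u = (-1 : K) • 1 + M.trace • u})
  have hΦ : Φ QuadraticAlgebra.omega = M := by
    simp [Φ, QuadraticAlgebra.lift]
  rw [← hΦ, ← map_pow, omega_pow hK hα, map_one]

theorem period (hK : Nat.card K = 3 ^ α) (hα : α ≠ 0) (M : Matrix (Fin 2) (Fin 2) K)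
    (hdet : M.det = 1) (ht : M.trace ^ 3 ≠ M.trace) :
    M ^ (3 ^ α - 1) = 1 ∨ M ^ (3 ^ α + 1) = 1 := by
  by_cases h : ∃ a : K, a ^ 2 = -1 + M.trace * a
  · obtain ⟨a, ha⟩ := h
    exact Or.inl (pow_split hK M hdet ht a ha)
  · push Not at h
    exact Or.inr (pow_nonsplit hK hα M hdet h)

omit [Finite K] in
/-- A matrix of determinant one squaring to one is `±1`. -/
theorem sq_one (Y : Matrix (Fin 2) (Fin 2) K) (hdet : Y.det = 1) (hY : Y * Y = 1) :
    Y = 1 ∨ Y = -1 := by
  have h1 := cayley Y hdet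
  rw [hY] at h1
  have h2 : Y.trace • Y = (2 : K) • (1 : Matrix (Fin 2) (Fin 2) K) := by
    rw [two_smul]
    rw [eq_sub_iff_add_eq] at h1
    exact h1.symm
  have e00 := congrFun (congrFun h2 0) 0
  have e01 := congrFun (congrFun h2 0) 1
  have e10 := congrFun (congrFun h2 1) 0
  have e11 := congrFun (congrFun h2 1) 1
  simp at e00 e01 e10 e11
  have htr : Y.trace ≠ 0 := by
    intro h
    rw [h, zero_mul] at e00
    exact two_ne_zero_K e00.symm
  have h01 : Y 0 1 = 0 := by
    rcases e01 with h | h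
    · exact absurd h htr
    · exact h
  have h10 : Y 1 0 = 0 := by
    rcases e10 with h | h
    · exact absurd h htr
    · exact h
  have h0011 : Y 0 0 = Y 1 1 := by
    have : Y.trace * (Y 0 0 - Y 1 1) = 0 := by rw [mul_sub, e00, e11, sub_self]
    rcases mul_eq_zero.1 this with h | h
    · exact absurd h htr
    · exact sub_eq_zero.1 h
  rw [Matrix.det_fin_two, h01, h10, ← h0011] at hdet
  have h3 : (Y 0 0 - 1) * (Y 0 0 + 1) = 0 := by linear_combination hdet
  rcases mul_eq_zero.1 h3 with h | h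
  · left
    ext i j
    fin_cases i <;> fin_cases j <;> simp [h01, h10, ← h0011] <;> linear_combination h
  · right
    ext i j
    fin_cases i <;> fin_cases j <;> simp [h01, h10, ← h0011] <;> linear_combination h

end period

section main

theorem sgn_sq (u : ℤˣ) : (sgn u : K) * sgn u = 1 := by
  rcases sgn_cases (K := K) u with h | h <;> rw [h] <;> ring

theorem sgn_pow_even (u : ℤˣ) (n : ℕ) (hn : Even n) : (sgn u : K) ^ n = 1 := by
  obtain ⟨k, rfl⟩ := hn
  rw [← two_mul, pow_mul, pow_two, sgn_sq, one_pow]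

variable [CharP K 3] [Finite K] {α : ℕ}

/-- Every element of `SL₂(K) × {±1}` is good for one of the four exponents. -/
theorem good_cases (hK : Nat.card K = 3 ^ α) (hα : Odd α) (γ : G0 K) :
    Good γ 6 ∨ Good γ 9 ∨ Good γ (3 ^ α - 1) ∨ Good γ ((3 ^ α + 1) / 2) := by
  have hdet : γ.1.1.det = 1 := γ.1.2
  have hM := cayley γ.1.1 hdet
  by_cases ht : γ.1.1.trace ^ 3 = γ.1.1.trace
  · have h1 : γ.1.1.trace * (γ.1.1.trace - 1) * (γ.1.1.trace + 1) = 0 := by
      linear_combination ht
    rcases mul_eq_zero.1 h1 with h2 | h2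
    · rcases mul_eq_zero.1 h2 with h3 | h3
      · left
        have hMM : γ.1.1 * γ.1.1 = -1 := by rw [hM, h3, zero_smul, zero_sub]
        exact good_of_period γ 2 (fun A => by
          rw [pow_smul, pow_two, sgn_sq, pow_two, hMM, op_neg_one, one_smul])
      · have ht1 : γ.1.1.trace = 1 := sub_eq_zero.1 h3
        have hM3 : γ.1.1 ^ 3 = -1 := by
          rw [pow_succ, pow_two, hM, ht1, one_smul, Matrix.sub_mul, Matrix.one_mul, hM, ht1,
            one_smul]
          abel
        rcases sgn_cases (K := K) γ.2 with hs | hs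
        · right; left
          exact good_of_period γ 3 (fun A => by
            rw [pow_smul, hM3, op_neg_one, hs, one_pow, one_smul])
        · left
          exact good_of_antiperiod γ 3 (fun A => by
            rw [pow_smul, hM3, op_neg_one, hs, show ((-1 : K) ^ 3) = -1 by ring, neg_one_smul])
    · have ht1 : γ.1.1.trace = -1 := eq_neg_of_add_eq_zero_left h2
      have hM3 : γ.1.1 ^ 3 = 1 := by
        rw [pow_succ, pow_two, hM, ht1, Matrix.sub_mul, Matrix.one_mul, Matrix.smul_mul, hM, ht1]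
        simp
      rcases sgn_cases (K := K) γ.2 with hs | hs
      · right; left
        exact good_of_period γ 3 (fun A => by
          rw [pow_smul, hM3, op_one, hs, one_pow, one_smul])
      · left
        exact good_of_antiperiod γ 3 (fun A => by
          rw [pow_smul, hM3, op_one, hs, show ((-1 : K) ^ 3) = -1 by ring, neg_one_smul])
  · right; right
    have hfix : ∀ A : Matrix (Fin 2) (Fin 2) K, γ • A = A → A = 0 := fun A hA =>
      fpf_op γ.1.1 A hdet (sgn γ.2) (sgn_cases _) ht (neg_one_not_sq hK hα) hA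
    have hq8 := pow_mod8 hα
    rcases period hK (by rintro rfl; simp at hα) γ.1.1 hdet ht with hp | hp
    · left
      refine good_of_fpf γ _ hfix (fun A => ?_)
      rw [pow_smul, hp, op_one, sgn_pow_even _ _ (by rw [Nat.even_iff]; omega), one_smul]
    · right
      have hn2 : (3 ^ α + 1) / 2 + (3 ^ α + 1) / 2 = 3 ^ α + 1 := by omega
      have hY : γ.1.1 ^ ((3 ^ α + 1) / 2) * γ.1.1 ^ ((3 ^ α + 1) / 2) = 1 := by
        rw [← pow_add, hn2, hp]
      have hYdet : (γ.1.1 ^ ((3 ^ α + 1) / 2)).det = 1 := by rw [Matrix.det_pow, hdet, one_pow]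
      refine good_of_fpf γ _ hfix (fun A => ?_)
      rw [pow_smul, sgn_pow_even _ _ (by rw [Nat.even_iff]; omega)]
      rcases sq_one _ hYdet hY with h | h
      · rw [h, op_one, one_smul]
      · rw [h, op_neg_one, one_smul]

end main

end Cfsg.Agent.Lib.Helper61.L2Mod
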