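import Mathlib
import Cfsg.Agent.Lib.Helper61.SemiSpec
import Cfsg.Agent.Lib.Helper61.L2Mod

set_option autoImplicit false

/-!
The group `V ⋊ (2 × PSL₂(q))` of `L2Mod` as a type, and the set of its element orders that are
maximal under divisibility.
-/

namespace Cfsg.Agent.Lib.Helper61.L2Grp

open Matrix Cfsg.Agent.Lib.Helper61 Cfsg.Agent.Lib.Helper61.L2Mod

section group

variable (K : Type*) [Field K] [CharP K 3]

/-- The faithful acting group `2 × PSL₂(K)`. -/
abbrev Gbar : Type _ := (SemiSpec.act (G0 K) (Matrix (Fin 2) (Fin 2) K)).range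

/-- The projection of `SL₂(K) × {±1}` onto the faithful acting group. -/
noncomputable def rr : G0 K →* Gbar K :=
  (SemiSpec.act (G0 K) (Matrix (Fin 2) (Fin 2) K)).rangeRestrict

variable {K}

noncomputable instance : DistribMulAction (Gbar K) (Matrix (Fin 2) (Fin 2) K) where
  smul g A := Multiplicative.toAdd (g.1 (Multiplicative.ofAdd A))
  one_smul _ := rfl
  mul_smul _ _ _ := rfl
  smul_zero g := map_one g.1
  smul_add g A B := map_mul g.1 (Multiplicative.ofAdd A) (Multiplicative.ofAdd B)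

theorem rr_surj : Function.Surjective (rr K) :=
  (SemiSpec.act (G0 K) (Matrix (Fin 2) (Fin 2) K)).rangeRestrict_surjective

theorem rr_smul (γ : G0 K) (A : Matrix (Fin 2) (Fin 2) K) : rr K γ • A = γ • A := rfl

theorem rr_eq_one_iff (γ : G0 K) :
    rr K γ = 1 ↔ ∀ A : Matrix (Fin 2) (Fin 2) K, γ • A = A := by
  constructor
  · intro h A
    rw [← rr_smul, h, one_smul]
  · intro h
    apply Subtype.ext
    apply MulEquiv.ext
    intro A
    exact h A

variable (K) in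
/-- The group `V ⋊ (2 × PSL₂(K))`. -/
abbrev Hgrp : Type _ := SemiSpec.Semi (Gbar K) (Matrix (Fin 2) (Fin 2) K)

theorem mk_pow_eq_one_iff (a : Matrix (Fin 2) (Fin 2) K) (γ : G0 K) (n : ℕ) :
    (SemiSpec.mk a (rr K γ)) ^ n = 1 ↔
      (∑ i ∈ Finset.range n, γ ^ i • a = 0) ∧ ∀ A : Matrix (Fin 2) (Fin 2) K, γ ^ n • A = A := by
  rw [SemiSpec.pow_mk]
  have h1 : ∀ i : ℕ, (rr K γ) ^ i • a = γ ^ i • a := fun i => by rw [← map_pow]; rfl
  simp only [h1]
  rw [← rr_eq_one_iff, map_pow]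
  constructor
  · intro h
    have hl := congrArg SemidirectProduct.left h
    have hr := congrArg SemidirectProduct.right h
    exact ⟨hl, hr⟩
  · rintro ⟨h1, h2⟩
    rw [h1, h2]
    rfl

theorem pow_eq_one_of_good (a : Matrix (Fin 2) (Fin 2) K) (γ : G0 K) (n : ℕ) (h : Good γ n) :
    (SemiSpec.mk a (rr K γ)) ^ n = 1 :=
  (mk_pow_eq_one_iff a γ n).2 ⟨h.1 a, h.2⟩

theorem exists_rep (h : Hgrp K) : ∃ (a : Matrix (Fin 2) (Fin 2) K) (γ : G0 K),
    h = SemiSpec.mk a (rr K γ) := by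
  obtain ⟨γ, hγ⟩ := rr_surj h.right
  exact ⟨Multiplicative.toAdd h.left, γ, by rw [hγ]; rfl⟩

end group

theorem maxOrders_eq {H : Type*} [Group H] (S : Set ℕ)
    (hS : ∀ a ∈ S, ∀ b ∈ S, a ∣ b → a = b)
    (hpow : ∀ h : H, ∃ N ∈ S, h ^ N = 1)
    (hex : ∀ N ∈ S, ∃ h : H, orderOf h = N) :
    {n : ℕ | n ∈ Set.range (orderOf : H → ℕ) ∧
      ∀ m ∈ Set.range (orderOf : H → ℕ), n ∣ m → m = n} = S := by
  ext n
  constructor
  · rintro ⟨⟨h, rfl⟩, hmax⟩
    obtain ⟨N, hN, hpN⟩ := hpow h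
    have hdvd : orderOf h ∣ N := orderOf_dvd_of_pow_eq_one hpN
    obtain ⟨h', hh'⟩ := hex N hN
    have := hmax N ⟨h', hh'⟩ hdvd
    rw [← this]
    exact hN
  · intro hn
    obtain ⟨h, hh⟩ := hex n hn
    refine ⟨⟨h, hh⟩, ?_⟩
    rintro m ⟨h', rfl⟩ hdvd
    obtain ⟨N, hN, hpN⟩ := hpow h'
    have h1 : orderOf h' ∣ N := orderOf_dvd_of_pow_eq_one hpN
    have h2 : n = N := hS n hn N hN (dvd_trans hdvd h1)
    rw [← h2] at h1
    exact Nat.dvd_antisymm h1 hdvd

section three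

variable {K : Type*} [Field K] [CharP K 3]

theorem exists_normal_three :
    ∃ P : Subgroup (Hgrp K), P.Normal ∧ P ≠ ⊥ ∧ IsPGroup 3 ↥P := by
  refine ⟨(SemidirectProduct.inl :
    Multiplicative (Matrix (Fin 2) (Fin 2) K) →* Hgrp K).range, ?_, ?_, ?_⟩
  · rw [SemidirectProduct.range_inl_eq_ker_rightHom]
    exact MonoidHom.normal_ker _
  · intro h
    have h1 : (SemidirectProduct.inl (Multiplicative.ofAdd (1 : Matrix (Fin 2) (Fin 2) K)) :
        Hgrp K) ∈ (⊥ : Subgroup (Hgrp K)) := by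
      rw [← h]
      exact ⟨_, rfl⟩
    rw [Subgroup.mem_bot] at h1
    have h2 := congrArg SemidirectProduct.left h1
    have h3 : (1 : Matrix (Fin 2) (Fin 2) K) = 0 := h2
    have h4 := congrFun (congrFun h3 0) 0
    simp at h4
  · rintro ⟨g, v, rfl⟩
    refine ⟨1, Subtype.ext ?_⟩
    show (SemidirectProduct.inl v : Hgrp K) ^ (3 ^ 1) = 1
    rw [pow_one, ← map_pow]
    have hv : v ^ 3 = 1 := three_nsmul (Multiplicative.toAdd v)
    rw [hv, map_one]

end three

section split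

variable {K : Type*} [Field K] [CharP K 3]

theorem op_apply (s : K) (M A : Matrix (Fin 2) (Fin 2) K) (i j : Fin 2) :
    op s M A i j = s * (M i 0 * A 0 0 * M j 0 ^ 3 + M i 0 * A 0 1 * M j 1 ^ 3 +
      M i 1 * A 1 0 * M j 0 ^ 3 + M i 1 * A 1 1 * M j 1 ^ 3) := by
  simp only [op, Matrix.smul_apply, Matrix.mul_apply, Fin.sum_univ_two, Matrix.transpose_apply,
    fm_apply, smul_eq_mul]
  ring

omit [CharP K 3] in
theorem diag_pow (x y : K) (k : ℕ) :
    (!![x, 0; 0, y] : Matrix (Fin 2) (Fin 2) K) ^ k = !![x ^ k, 0; 0, y ^ k] := by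
  induction k with
  | zero => simp [Matrix.one_fin_two]
  | succ k ih =>
    rw [pow_succ, ih, Matrix.mul_fin_two]
    simp [pow_succ]

/-- The diagonal element. -/
def dg (a : Kˣ) : Matrix.SpecialLinearGroup (Fin 2) K :=
  ⟨!![(a : K), 0; 0, ((a⁻¹ : Kˣ) : K)], by simp [Matrix.det_fin_two]⟩

theorem split_order [Finite K] {α : ℕ} (hK : Nat.card K = 3 ^ α) (hα : Odd α) :
    ∃ h : Hgrp K, orderOf h = 3 ^ α - 1 := by
  obtain ⟨a, ha⟩ := IsCyclic.exists_generator (α := Kˣ)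
  have hord : orderOf a = 3 ^ α - 1 := by
    rw [orderOf_eq_card_of_forall_mem_zpowers ha, Nat.card_units, hK]
  set γ : G0 K := (dg a, -1) with hγ
  refine ⟨SemiSpec.mk 0 (rr K γ), ?_⟩
  have hq8 := pow_mod8 hα
  have hpow : ∀ (k : ℕ) (A : Matrix (Fin 2) (Fin 2) K), γ ^ k • A =
      op ((-1 : K) ^ k) !![(a : K) ^ k, 0; 0, ((a⁻¹ : Kˣ) : K) ^ k] A := by
    intro k A
    rw [pow_smul, show γ.1.1 = !![(a : K), 0; 0, ((a⁻¹ : Kˣ) : K)] from rfl, diag_pow,
      show γ.2 = -1 from rfl, sgn_neg_one]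
  have hone : (-1 : K) ≠ 1 := by
    intro h
    apply two_ne_zero_K (K := K)
    linear_combination -h
  have key : ∀ k : ℕ, (∀ A : Matrix (Fin 2) (Fin 2) K, γ ^ k • A = A) → (3 ^ α - 1) ∣ k := by
    intro k h
    have h11 := h !![1,0;0,0]
    have h12 := h !![0,1;0,0]
    rw [hpow] at h11 h12
    have e11 := congrFun (congrFun h11 0) 0
    have e12 := congrFun (congrFun h12 0) 1
    rw [op_apply] at e11 e12
    simp at e11 e12
    have hx : (a : K) ^ k ≠ 0 := pow_ne_zero _ (Units.ne_zero a)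
    have hs2 : ((-1 : K) ^ k) * ((-1 : K) ^ k) = 1 := by
      rw [← mul_pow]
      simp
    have h1 : (-1 : K) ^ k * (a : K) ^ k = ((a : K) ^ k) ^ 3 := by
      calc (-1 : K) ^ k * (a : K) ^ k
          = ((-1 : K) ^ k * ((a : K) ^ k * (((a : K) ^ k) ^ 3)⁻¹)) * ((a : K) ^ k) ^ 3 := by
            field_simp
        _ = ((a : K) ^ k) ^ 3 := by rw [e12, one_mul]
    have h2 : ((a : K) ^ k) ^ 2 = (-1 : K) ^ k := by
      have : (a : K) ^ k * (((a : K) ^ k) ^ 2 - (-1 : K) ^ k) = 0 := by linear_combination -h1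
      rcases mul_eq_zero.1 this with h0 | h0
      · exact absurd h0 hx
      · exact sub_eq_zero.1 h0
    have h3 : (-1 : K) ^ k = 1 := by
      have e : (-1 : K) ^ k * ((a : K) ^ k * ((a : K) ^ k) ^ 3) =
          (-1 : K) ^ k * ((-1 : K) ^ k * (-1 : K) ^ k) := by
        rw [← h2]
        ring
      rw [e11, hs2, mul_one] at e
      exact e.symm
    have heven : Even k := (neg_one_pow_eq_one_iff_even hone).1 h3
    have h4 : a ^ (2 * k) = 1 := by
      apply Units.ext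
      rw [Units.val_pow_eq_pow_val, Units.val_one, mul_comm, pow_mul, h2, h3]
    have hdvd : 3 ^ α - 1 ∣ 2 * k := by
      rw [← hord]
      exact orderOf_dvd_of_pow_eq_one h4
    have hq : 3 ^ α - 1 = 2 * ((3 ^ α - 1) / 2) := by omega
    have hodd : Odd ((3 ^ α - 1) / 2) := by
      rw [Nat.odd_iff]
      omega
    rw [hq] at hdvd ⊢
    exact Nat.Coprime.mul_dvd_of_dvd_of_dvd (Nat.coprime_two_left.2 hodd)
      (even_iff_two_dvd.1 heven) (Nat.dvd_of_mul_dvd_mul_left (by norm_num) hdvd)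
  have htriv : ∀ A : Matrix (Fin 2) (Fin 2) K, γ ^ (3 ^ α - 1) • A = A := by
    intro A
    have h1 : (a : K) ^ (3 ^ α - 1) = 1 := by
      rw [← Units.val_pow_eq_pow_val, ← hord, pow_orderOf_eq_one, Units.val_one]
    have h2 : ((a⁻¹ : Kˣ) : K) ^ (3 ^ α - 1) = 1 := by
      rw [← Units.val_pow_eq_pow_val, inv_pow, ← hord, pow_orderOf_eq_one, inv_one, Units.val_one]
    have h3 : (-1 : K) ^ (3 ^ α - 1) = 1 :=
      (neg_one_pow_eq_one_iff_even hone).2 (by rw [Nat.even_iff]; omega)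
    rw [hpow, h1, h2, h3, ← Matrix.one_fin_two, op_one, one_smul]
  apply Nat.dvd_antisymm
  · apply orderOf_dvd_of_pow_eq_one
    rw [mk_pow_eq_one_iff]
    exact ⟨by simp, htriv⟩
  · apply key
    have h1 := pow_orderOf_eq_one (SemiSpec.mk 0 (rr K γ) : Hgrp K)
    rw [mk_pow_eq_one_iff] at h1
    exact h1.2

end split

section unip

variable {K : Type*} [Field K] [CharP K 3]

/-- The unipotent element. -/
def uu : Matrix.SpecialLinearGroup (Fin 2) K := ⟨!![1, 1; 0, 1], by simp [Matrix.det_fin_two]⟩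

omit [CharP K 3] in
theorem uu_pow (k : ℕ) :
    (!![1, 1; 0, 1] : Matrix (Fin 2) (Fin 2) K) ^ k = !![1, (k : K); 0, 1] := by
  induction k with
  | zero => simp [Matrix.one_fin_two]
  | succ k ih =>
    rw [pow_succ, ih, Matrix.mul_fin_two]
    simp [add_comm]

theorem uu_three : (!![1, ((3 : ℕ) : K); 0, 1] : Matrix (Fin 2) (Fin 2) K) = 1 := by
  rw [Matrix.one_fin_two]
  simp [three_eq_zero]

theorem nine_order : ∃ h : Hgrp K, orderOf h = 9 := by
  set γ : G0 K := (uu, 1) with hγ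
  refine ⟨SemiSpec.mk !![0,0;0,1] (rr K γ), ?_⟩
  have hpow : ∀ (k : ℕ) (A : Matrix (Fin 2) (Fin 2) K),
      γ ^ k • A = op 1 !![1, (k : K); 0, 1] A := by
    intro k A
    rw [pow_smul, show γ.1.1 = !![1,1;0,1] from rfl, uu_pow, show γ.2 = 1 from rfl, sgn_one,
      one_pow]
  have hgood : Good γ (3 * 3) := good_of_period γ 3 (fun A => by
    rw [hpow, uu_three, op_one, one_smul])
  have h9 : (SemiSpec.mk !![0,0;0,1] (rr K γ) : Hgrp K) ^ 3 ^ (1 + 1) = 1 :=
    pow_eq_one_of_good _ γ _ hgood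
  have h3 : ¬ (SemiSpec.mk !![0,0;0,1] (rr K γ) : Hgrp K) ^ 3 ^ 1 = 1 := by
    rw [pow_one, mk_pow_eq_one_iff]
    rintro ⟨hsum, -⟩
    simp only [Finset.sum_range_succ, Finset.sum_range_zero, hpow] at hsum
    have e := congrFun (congrFun hsum 0) 0
    simp [op_apply] at e
    exact two_ne_zero_K (K := K) (by linear_combination e - 5 * (three_eq_zero : (3 : K) = 0))
  have : Fact (Nat.Prime 3) := ⟨by norm_num⟩
  have := orderOf_eq_prime_pow h3 h9
  simpa using this

theorem six_order : ∃ h : Hgrp K, orderOf h = 6 := by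
  set γ : G0 K := (uu, -1) with hγ
  refine ⟨SemiSpec.mk 0 (rr K γ), ?_⟩
  have hpow : ∀ (k : ℕ) (A : Matrix (Fin 2) (Fin 2) K),
      γ ^ k • A = op ((-1) ^ k) !![1, (k : K); 0, 1] A := by
    intro k A
    rw [pow_smul, show γ.1.1 = !![1,1;0,1] from rfl, uu_pow, show γ.2 = -1 from rfl, sgn_neg_one]
  have hgood : Good γ (2 * 3) := good_of_antiperiod γ 3 (fun A => by
    rw [hpow, uu_three, op_one, show ((-1 : K) ^ 3) = -1 by ring, neg_one_smul])
  have h6 : (SemiSpec.mk 0 (rr K γ) : Hgrp K) ^ 6 = 1 :=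
    pow_eq_one_of_good _ γ _ hgood
  have h3 : (SemiSpec.mk 0 (rr K γ) : Hgrp K) ^ 3 ≠ 1 := by
    rw [Ne, mk_pow_eq_one_iff]
    rintro ⟨-, hA⟩
    have e := congrFun (congrFun (hA 1) 0) 0
    rw [hpow, uu_three, op_one] at e
    simp at e
    exact two_ne_zero_K (K := K) (by linear_combination (-1 : K) * e)
  have h2 : (SemiSpec.mk 0 (rr K γ) : Hgrp K) ^ 2 ≠ 1 := by
    rw [Ne, mk_pow_eq_one_iff]
    rintro ⟨-, hA⟩
    have e := congrFun (congrFun (hA !![0,0;0,1]) 0) 0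
    rw [hpow, op_apply] at e
    simp at e
    exact two_ne_zero_K (K := K) e
  apply orderOf_eq_of_pow_and_pow_div_prime (by norm_num) h6
  intro p hp hdvd
  have hp6 : p ≤ 6 := Nat.le_of_dvd (by norm_num) hdvd
  interval_cases p
  · exact absurd hp (by norm_num)
  · exact absurd hp (by norm_num)
  · exact h3
  · exact h2
  · exact absurd hp (by norm_num)
  · exact absurd hdvd (by norm_num)
  · exact absurd hp (by norm_num)

theorem op_trivial (Y : Matrix (Fin 2) (Fin 2) K) (hdet : Y.det = 1)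
    (h : ∀ A : Matrix (Fin 2) (Fin 2) K, op 1 Y A = A) : Y = 1 ∨ Y = -1 := by
  have e1 := congrFun (congrFun (h !![1,0;0,0]) 1) 1
  have e2 := congrFun (congrFun (h !![0,0;0,1]) 0) 0
  have e3 := congrFun (congrFun (h !![0,1;0,0]) 0) 1
  rw [op_apply] at e1 e2 e3
  simp at e1 e2 e3
  rw [Matrix.det_fin_two, e1, e2] at hdet
  have h1 : Y 0 0 * Y 1 1 = 1 := by linear_combination hdet
  have h2 : (Y 1 1 - 1) * (Y 1 1 + 1) = 0 := by linear_combination e3 - (Y 1 1) ^ 2 * h1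
  have h00 : Y 0 0 = Y 1 1 := by linear_combination (-(Y 0 0)) * h2 + (Y 1 1) * h1
  rcases mul_eq_zero.1 h2 with h | h
  · left
    ext i j
    fin_cases i <;> fin_cases j <;> simp [e1, e2, h00] <;> linear_combination h
  · right
    ext i j
    fin_cases i <;> fin_cases j <;> simp [e1, e2, h00] <;> linear_combination h

end unip

section nonsplit

variable {K : Type*} [Field K] [CharP K 3] [Finite K] {α : ℕ}

/-- The quadratic extension `K[i]`. -/
abbrev LL (K : Type*) [Field K] : Type _ := QuadraticAlgebra K (-1 : K) (0 : K)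

open QuadraticAlgebra in
theorem frob_star (hK : Nat.card K = 3 ^ α) (hα : Odd α) (z : LL K) :
    z ^ (3 ^ α) = star z := by
  have hchar : CharP (LL K) 3 :=
    charP_of_injective_algebraMap (algebraMap K (LL K)).injective 3
  have hq8 := pow_mod8 hα
  have hω : (ω : LL K) * ω = -1 := by
    rw [omega_mul_omega_eq_algebraMap]
    simp
  have hωq : (ω : LL K) ^ (3 ^ α) = -ω := by
    have e : 3 ^ α = 2 * ((3 ^ α - 1) / 2) + 1 := by omega
    have hodd : Odd ((3 ^ α - 1) / 2) := by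
      rw [Nat.odd_iff]
      omega
    rw [e, pow_succ, pow_mul, pow_two, hω, hodd.neg_one_pow, neg_one_mul]
  have hz : z = algebraMap K _ z.re + algebraMap K _ z.im * ω := by
    rw [← Algebra.smul_def]
    exact mk_eq_add_smul_omega z.re z.im
  conv_lhs => rw [hz]
  rw [add_pow_char_pow, mul_pow, ← map_pow, ← map_pow, pow_card hK, pow_card hK, hωq]
  ext <;> simp

open QuadraticAlgebra in
theorem nonsplit_order (hK : Nat.card K = 3 ^ α) (hα : Odd α) :
    ∃ h : Hgrp K, orderOf h = (3 ^ α + 1) / 2 := by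
  have hq8 := pow_mod8 hα
  have hfact : Fact (∀ r : K, r ^ 2 ≠ -1 + 0 * r) :=
    ⟨fun r => by rw [zero_mul, add_zero]; exact neg_one_not_sq hK hα r⟩
  have hfin : Finite (LL K) := Finite.of_equiv _ (equivProd (-1 : K) 0).symm
  have hcard : Nat.card (LL K) = 3 ^ α * 3 ^ α := by
    rw [Nat.card_congr (equivProd (-1 : K) 0), Nat.card_prod, hK]
  obtain ⟨w, hw⟩ := IsCyclic.exists_generator (α := (LL K)ˣ)
  have hordw : orderOf w = 3 ^ α * 3 ^ α - 1 := by
    rw [orderOf_eq_card_of_forall_mem_zpowers hw, Nat.card_units, hcard]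
  have hfac : 3 ^ α * 3 ^ α - 1 = (3 ^ α - 1) * (3 ^ α + 1) := by
    have h1 : 1 ≤ 3 ^ α := by omega
    obtain ⟨c, hc⟩ : ∃ c, 3 ^ α = c + 1 := ⟨3 ^ α - 1, by omega⟩
    rw [hc, Nat.add_sub_cancel, show (c + 1) * (c + 1) = c * (c + 1 + 1) + 1 by ring,
      Nat.add_sub_cancel]
  set b : (LL K)ˣ := w ^ (3 ^ α - 1) with hb
  have hordb : orderOf b = 3 ^ α + 1 := by
    rw [hb, orderOf_pow' _ (by omega), hordw, hfac, Nat.gcd_eq_right (Dvd.intro _ rfl),
      Nat.mul_div_cancel_left _ (by omega)]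
  have hnorm : norm (b : LL K) = 1 := by
    apply (algebraMap K (LL K)).injective
    rw [algebraMap_norm_eq_mul_star, ← frob_star hK hα, ← pow_succ', map_one,
      ← Units.val_pow_eq_pow_val, ← hordb, pow_orderOf_eq_one, Units.val_one]
  set x := (b : LL K).re with hx
  set y := (b : LL K).im with hy
  have hxy : x * x + y * y = 1 := by
    have h := hnorm
    rw [QuadraticAlgebra.norm_def] at h
    linear_combination h
  let J : Matrix (Fin 2) (Fin 2) K := !![0, -1; 1, 0]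
  have hJ : J * J = (-1 : K) • (1 : Matrix (Fin 2) (Fin 2) K) + (0 : K) • J := by
    ext i j
    fin_cases i <;> fin_cases j <;> simp [J, Matrix.mul_apply, Fin.sum_univ_two]
  let Φ := QuadraticAlgebra.lift
    (⟨J, hJ⟩ : {u : Matrix (Fin 2) (Fin 2) K // u * u = (-1 : K) • 1 + (0 : K) • u})
  have hΦinj : Function.Injective Φ := (Φ : LL K →+* Matrix (Fin 2) (Fin 2) K).injective
  set X0 : Matrix (Fin 2) (Fin 2) K := Φ (b : LL K) with hX0
  have hX0eq : X0 = !![x, -y; y, x] := by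
    ext i j
    fin_cases i <;> fin_cases j <;> simp [X0, Φ, J, hx, hy]
  have hdet : X0.det = 1 := by
    rw [hX0eq, Matrix.det_fin_two_of]
    linear_combination hxy
  have hX0pow : ∀ k : ℕ, X0 ^ k = Φ ((b : LL K) ^ k) := fun k => (map_pow Φ _ k).symm
  set γ : G0 K := (⟨X0, hdet⟩, 1) with hγ
  have hpow : ∀ (k : ℕ) (A : Matrix (Fin 2) (Fin 2) K), γ ^ k • A = op 1 (X0 ^ k) A := by
    intro k A
    rw [pow_smul, show γ.2 = 1 from rfl, sgn_one, one_pow]
  refine ⟨SemiSpec.mk 0 (rr K γ), ?_⟩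
  have hQ : (3 ^ α + 1) / 2 + (3 ^ α + 1) / 2 = 3 ^ α + 1 := by omega
  apply Nat.dvd_antisymm
  · apply orderOf_dvd_of_pow_eq_one
    rw [mk_pow_eq_one_iff]
    refine ⟨by simp, fun A => ?_⟩
    rw [hpow]
    have hY : X0 ^ ((3 ^ α + 1) / 2) * X0 ^ ((3 ^ α + 1) / 2) = 1 := by
      rw [← pow_add, hQ, hX0pow, ← Units.val_pow_eq_pow_val, ← hordb, pow_orderOf_eq_one,
        Units.val_one, map_one]
    have hYdet : (X0 ^ ((3 ^ α + 1) / 2)).det = 1 := by rw [Matrix.det_pow, hdet, one_pow]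
    rcases sq_one _ hYdet hY with h | h
    · rw [h, op_one, one_smul]
    · rw [h, op_neg_one, one_smul]
  · have h1 := pow_orderOf_eq_one (SemiSpec.mk 0 (rr K γ) : Hgrp K)
    rw [mk_pow_eq_one_iff] at h1
    generalize orderOf (SemiSpec.mk 0 (rr K γ) : Hgrp K) = k at h1 ⊢
    have h2 : X0 ^ k = 1 ∨ X0 ^ k = -1 :=
      op_trivial _ (by rw [Matrix.det_pow, hdet, one_pow]) (fun A => by
        rw [← hpow]
        exact h1.2 A)
    have h3 : b ^ (2 * k) = 1 := by
      apply Units.ext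
      rw [Units.val_pow_eq_pow_val, Units.val_one, mul_comm, pow_mul]
      apply hΦinj
      rw [map_pow, ← hX0pow, map_one]
      rcases h2 with h | h <;> rw [h] <;> simp
    have h4 : 3 ^ α + 1 ∣ 2 * k := by
      rw [← hordb]
      exact orderOf_dvd_of_pow_eq_one h3
    have h5 : 3 ^ α + 1 = 2 * ((3 ^ α + 1) / 2) := by omega
    rw [h5] at h4
    exact Nat.dvd_of_mul_dvd_mul_left (by norm_num) h4

end nonsplit

section final

theorem arith_antichain (q : ℕ) (hq : 27 ≤ q) (h8 : q % 8 = 3) (h3 : q % 3 = 0) :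
    ∀ a ∈ ({6, 9, q - 1, (q + 1) / 2} : Set ℕ), ∀ b ∈ ({6, 9, q - 1, (q + 1) / 2} : Set ℕ),
      a ∣ b → a = b := by
  have hQ2 : (q + 1) / 2 ∣ q - 1 → False := by
    intro h
    have h1 : (q + 1) / 2 ∣ 2 * ((q + 1) / 2) := Dvd.intro_left _ rfl
    have h2 : (q + 1) / 2 ∣ 2 * ((q + 1) / 2) - (q - 1) := Nat.dvd_sub h1 h
    have h3 : 2 * ((q + 1) / 2) - (q - 1) = 2 := by omega
    rw [h3] at h2
    have := Nat.le_of_dvd (by norm_num) h2
    omega
  intro a ha b hb hab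
  simp only [Set.mem_insert_iff, Set.mem_singleton_iff] at ha hb
  rcases ha with rfl | rfl | rfl | rfl <;> rcases hb with rfl | rfl | rfl | rfl
  · rfl
  · omega
  · omega
  · omega
  · omega
  · rfl
  · omega
  · omega
  · have := Nat.le_of_dvd (by norm_num) hab
    omega
  · have := Nat.le_of_dvd (by norm_num) hab
    omega
  · rfl
  · have := Nat.le_of_dvd (by omega) hab
    omega
  · have := Nat.le_of_dvd (by norm_num) hab
    omega
  · have := Nat.le_of_dvd (by norm_num) hab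
    omega
  · exact absurd hab hQ2
  · rfl

theorem main (α : ℕ) (hα : 3 ≤ α) (hodd : Odd α) :
    ∃ (H : Type) (_ : Group H) (_ : Fintype H),
      (∃ P : Subgroup H, P.Normal ∧ P ≠ ⊥ ∧ IsPGroup 3 ↥P) ∧
      {n : ℕ | n ∈ Set.range (orderOf : H → ℕ) ∧
        ∀ m ∈ Set.range (orderOf : H → ℕ), n ∣ m → m = n} =
        ({6, 9, 3 ^ α - 1, (3 ^ α + 1) / 2} : Set ℕ) := by
  have hK : Nat.card (GaloisField 3 α) = 3 ^ α := GaloisField.card 3 α (by omega)
  refine ⟨Hgrp (GaloisField 3 α), inferInstance, Fintype.ofFinite _, exists_normal_three, ?_⟩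
  apply maxOrders_eq
  · exact arith_antichain (3 ^ α) (pow_ge hα) (pow_mod8 hodd) (pow_mod3 hα)
  · intro h
    obtain ⟨a, γ, rfl⟩ := exists_rep h
    rcases good_cases hK hodd γ with h | h | h | h
    · exact ⟨6, by simp, pow_eq_one_of_good a γ 6 h⟩
    · exact ⟨9, by simp, pow_eq_one_of_good a γ 9 h⟩
    · exact ⟨3 ^ α - 1, by simp, pow_eq_one_of_good a γ _ h⟩
    · exact ⟨(3 ^ α + 1) / 2, by simp, pow_eq_one_of_good a γ _ h⟩
  · intro N hN
    simp only [Set.mem_insert_iff, Set.mem_singleton_iff] at hN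
    rcases hN with rfl | rfl | rfl | rfl
    · exact six_order
    · exact nine_order
    · exact split_order hK hodd
    · exact nonsplit_order hK hodd

end final

end Cfsg.Agent.Lib.Helper61.L2Grp
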