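import Mathlib
import Cfsg.Agent.Lib.Helper61.PrimeGraph

set_option autoImplicit false

namespace Cfsg.Agent.Lib.Helper61.PrimeGraph2

open Cfsg.Agent.Lib.Helper61.PrimeGraph

universe u v w

/-- The prime graph of a split extension `N ⋊ S` by an elementary abelian `p`-group `N`
(with `p ∣ |S|`), compared with a group `L`: same prime divisors as `S`, same edges away
from `p` as `S`, and `p`–`r` edges coming from `S` or from fixed points on `N`. -/
theorem samePG_semidirect_of_data {L : Type w} [Group L] {S : Type u} [Group S] [Finite S]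
    {N : Type v} [CommGroup N] [Finite N]
    (φ : S →* MulAut N) (p : ℕ) (hp : p.Prime) (hN : ∀ n : N, n ^ p = 1) (hpS : p ∣ Nat.card S)
    (hdiv : ∀ r : ℕ, r.Prime → (r ∣ Nat.card L ↔ r ∣ Nat.card S))
    (hedge : ∀ r s : ℕ, r.Prime → s.Prime → r ≠ s → r ≠ p → s ≠ p →
      ((∃ x : L, orderOf x = r * s) ↔ ∃ y : S, orderOf y = r * s))
    (hpedge : ∀ r : ℕ, r.Prime → r ≠ p →
      ((∃ x : L, orderOf x = p * r) ↔
        ((∃ y : S, orderOf y = p * r) ∨ ∃ (g : S) (n : N), n ≠ 1 ∧ orderOf g = r ∧ φ g n = n))) :
    SamePG L (N ⋊[φ] S) := by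
  haveI : Finite (N ⋊[φ] S) := Finite.of_equiv _ SemidirectProduct.equivProd.symm
  haveI : Fact p.Prime := ⟨hp⟩
  have hpN : IsPGroup p N := by
    intro n
    exact ⟨1, by rw [pow_one]; exact hN n⟩
  obtain ⟨j, hj⟩ := IsPGroup.iff_card.1 hpN
  have hcard : Nat.card (N ⋊[φ] S) = p ^ j * Nat.card S := by
    rw [SemidirectProduct.card, hj]
  -- killing the image kills the `p`-th power
  have hkill : ∀ (x : N ⋊[φ] S) (k : ℕ), (SemidirectProduct.rightHom x) ^ k = 1 →
      x ^ (k * p) = 1 := by
    intro x k hk
    have h1 : (x ^ k).right = 1 := by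
      have : SemidirectProduct.rightHom (x ^ k) = 1 := by rw [map_pow, hk]
      exact this
    have h2 : x ^ k = SemidirectProduct.inl (x ^ k).left := by
      ext
      · simp
      · simp [h1]
    rw [pow_mul, h2, ← map_pow, hN, map_one]
  have hinr : ∀ y : S, orderOf (SemidirectProduct.inr y : N ⋊[φ] S) = orderOf y := fun y =>
    orderOf_injective (SemidirectProduct.inr : S →* N ⋊[φ] S) SemidirectProduct.inr_injective y
  -- edges at `p`
  have hpe : ∀ r : ℕ, r.Prime → r ≠ p →
      ((∃ x : L, orderOf x = p * r) ↔ ∃ y : N ⋊[φ] S, orderOf y = p * r) := by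
    intro r hr hrp
    rw [hpedge r hr hrp]
    constructor
    · rintro (⟨y, hy⟩ | ⟨g, n, hn, hg, hfix⟩)
      · exact ⟨SemidirectProduct.inr y, by rw [hinr, hy]⟩
      · refine ⟨SemidirectProduct.inl n * SemidirectProduct.inr g, ?_⟩
        have hcomm : Commute (SemidirectProduct.inl n : N ⋊[φ] S) (SemidirectProduct.inr g) := by
          have h1 : (SemidirectProduct.inr g : N ⋊[φ] S) * SemidirectProduct.inl n
              * (SemidirectProduct.inr g)⁻¹ = SemidirectProduct.inl n := by
            rw [← map_inv, ← SemidirectProduct.inl_aut, hfix]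
          have h2 : (SemidirectProduct.inr g : N ⋊[φ] S) * SemidirectProduct.inl n
              = SemidirectProduct.inl n * SemidirectProduct.inr g := by
            rw [← h1]
            simp [mul_assoc]
            rw [← mul_assoc, ← map_inv, ← SemidirectProduct.inl_aut, hfix]
          exact h2.symm
        have ho1 : orderOf (SemidirectProduct.inl n : N ⋊[φ] S) = p := by
          apply orderOf_eq_prime
          · rw [← map_pow, hN, map_one]
          · intro h
            exact hn (SemidirectProduct.inl_injective (by rw [h, map_one]))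
        have ho2 : orderOf (SemidirectProduct.inr g : N ⋊[φ] S) = r := by rw [hinr, hg]
        rw [hcomm.orderOf_mul_eq_mul_orderOf_of_coprime, ho1, ho2]
        rw [ho1, ho2]
        exact (Nat.coprime_primes hp hr).2 (Ne.symm hrp)
    · rintro ⟨x, hx⟩
      set d := orderOf (SemidirectProduct.rightHom x) with hd
      have hd1 : d ∣ p * r := by
        rw [← hx]
        exact orderOf_map_dvd _ x
      have hd2 : r ∣ d := by
        have h1 : p * r ∣ d * p := by
          rw [← hx]
          exact orderOf_dvd_of_pow_eq_one (hkill x d (pow_orderOf_eq_one _))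
        have h2 : p * r ∣ p * d := by rwa [mul_comm d p] at h1
        exact (Nat.mul_dvd_mul_iff_left hp.pos).1 h2
      obtain ⟨e, he⟩ := hd2
      have he1 : e ∣ p := by
        have h1 : r * e ∣ r * p := by rw [← he, mul_comm r p]; exact hd1
        exact (Nat.mul_dvd_mul_iff_left hr.pos).1 h1
      rcases (Nat.dvd_prime hp).1 he1 with h1 | h1
      · right
        have hdr : d = r := by rw [he, h1, mul_one]
        refine ⟨SemidirectProduct.rightHom x, (x ^ r).left, ?_, hdr, ?_⟩
        · intro hl
          have h2 : (x ^ r).right = 1 := by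
            have : SemidirectProduct.rightHom (x ^ r) = 1 := by
              rw [map_pow, ← hdr, hd, pow_orderOf_eq_one]
            exact this
          have h3 : x ^ r = 1 := by
            ext
            · simpa using hl
            · simpa using h2
          have h4 : p * r ∣ r := by
            rw [← hx]
            exact orderOf_dvd_of_pow_eq_one h3
          have h5 : p * r ≤ r := Nat.le_of_dvd hr.pos h4
          have h6 : 2 * r ≤ p * r := Nat.mul_le_mul_right r hp.two_le
          have := hr.pos
          omega
        · have h2 : (x ^ r).right = 1 := by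
            have : SemidirectProduct.rightHom (x ^ r) = 1 := by
              rw [map_pow, ← hdr, hd, pow_orderOf_eq_one]
            exact this
          have hcomm : x ^ r * x = x * x ^ r := by
            rw [← pow_succ, ← pow_succ']
          have h3 : (x ^ r * x).left = (x * x ^ r).left := by rw [hcomm]
          rw [SemidirectProduct.mul_left, SemidirectProduct.mul_left, h2, map_one] at h3
          have h4 : (x ^ r).left * x.left = x.left * φ x.right (x ^ r).left := by simpa using h3
          rw [mul_comm] at h4
          exact (mul_left_cancel h4).symm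
      · left
        exact ⟨SemidirectProduct.rightHom x, by rw [← hd, he, h1, mul_comm]⟩
  refine ⟨fun r hr => ?_, fun r s hr hs hrs => ?_⟩
  · rw [hdiv r hr, hcard]
    constructor
    · intro h
      exact Dvd.dvd.mul_left h _
    · intro h
      rcases (Nat.Prime.dvd_mul hr).1 h with h1 | h1
      · have : r = p := (Nat.prime_dvd_prime_iff_eq hr hp).1 (hr.dvd_of_dvd_pow h1)
        rw [this]
        exact hpS
      · exact h1
  · by_cases hrp : r = p
    · subst hrp
      exact hpe s hs (Ne.symm hrs)
    · by_cases hsp : s = p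
      · subst hsp
        rw [mul_comm r s]
        exact hpe r hr hrp
      · rw [hedge r s hr hs hrs hrp hsp]
        constructor
        · rintro ⟨y, hy⟩
          exact ⟨SemidirectProduct.inr y, by rw [hinr, hy]⟩
        · rintro ⟨x, hx⟩
          refine ⟨SemidirectProduct.rightHom x, ?_⟩
          set d := orderOf (SemidirectProduct.rightHom x) with hd
          have hd1 : d ∣ r * s := by
            rw [← hx]
            exact orderOf_map_dvd _ x
          have hd2 : r * s ∣ d * p := by
            rw [← hx]
            exact orderOf_dvd_of_pow_eq_one (hkill x d (pow_orderOf_eq_one _))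
          have hcop : Nat.Coprime (r * s) p :=
            Nat.Coprime.mul_left ((Nat.coprime_primes hr hp).2 hrp) ((Nat.coprime_primes hs hp).2 hsp)
          exact Nat.dvd_antisymm hd1 (hcop.dvd_of_dvd_mul_right hd2)

/-- Arbitrarily large groups with the prime graph of `L`, from the data of
`samePG_semidirect_of_data`. -/
theorem exists_large_of_data {L : Type w} [Group L] {S : Type u} [Group S] [Finite S]
    {N : Type v} [CommGroup N] [Finite N] [Nontrivial N]
    (φ : S →* MulAut N) (p : ℕ) (hp : p.Prime) (hN : ∀ n : N, n ^ p = 1) (hpS : p ∣ Nat.card S)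
    (hdiv : ∀ r : ℕ, r.Prime → (r ∣ Nat.card L ↔ r ∣ Nat.card S))
    (hedge : ∀ r s : ℕ, r.Prime → s.Prime → r ≠ s → r ≠ p → s ≠ p →
      ((∃ x : L, orderOf x = r * s) ↔ ∃ y : S, orderOf y = r * s))
    (hpedge : ∀ r : ℕ, r.Prime → r ≠ p →
      ((∃ x : L, orderOf x = p * r) ↔
        ((∃ y : S, orderOf y = p * r) ∨ ∃ (g : S) (n : N), n ≠ 1 ∧ orderOf g = r ∧ φ g n = n)))
    (M : ℕ) :
    ∃ (H : Type) (_ : Group H) (_ : Finite H), M < Nat.card H ∧ SamePG L H := by
  have hsame : SamePG L ((Fin (M + 1) → N) ⋊[piAct φ (M + 1)] S) := by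
    refine samePG_semidirect_of_data (piAct φ (M + 1)) p hp ?_ hpS hdiv hedge ?_
    · intro f
      funext i
      simp [hN]
    · intro r hr hrp
      rw [hpedge r hr hrp]
      constructor
      · rintro (h | ⟨g, n, hn, hg, hfix⟩)
        · exact Or.inl h
        · refine Or.inr ⟨g, fun _ => n, ?_, hg, ?_⟩
          · intro h
            exact hn (congrFun h 0)
          · funext i
            rw [piAct_apply, hfix]
      · rintro (h | ⟨g, f, hf, hg, hfix⟩)
        · exact Or.inl h
        · obtain ⟨i, hi⟩ : ∃ i, f i ≠ 1 := by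
            by_contra hcon
            push Not at hcon
            exact hf (funext hcon)
          refine Or.inr ⟨g, f i, hi, hg, ?_⟩
          have := congrFun hfix i
          rwa [piAct_apply] at this
  haveI : Finite ((Fin (M + 1) → N) ⋊[piAct φ (M + 1)] S) :=
    Finite.of_equiv _ SemidirectProduct.equivProd.symm
  obtain ⟨H', hG, hF, ⟨e⟩⟩ := exists_type0 ((Fin (M + 1) → N) ⋊[piAct φ (M + 1)] S)
  refine ⟨H', hG, inferInstance, ?_, hsame.trans (SamePG.of_mulEquiv e.symm)⟩
  rw [Nat.card_congr e.toEquiv, SemidirectProduct.card, Nat.card_fun, Nat.card_fin]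
  have h2 : 2 ≤ Nat.card N := by
    have := Finite.one_lt_card (α := N)
    omega
  have h3 : 0 < Nat.card S := Nat.card_pos
  calc M < 2 ^ M := Nat.lt_two_pow_self
    _ ≤ 2 ^ (M + 1) := Nat.pow_le_pow_right (by norm_num) (by omega)
    _ ≤ Nat.card N ^ (M + 1) := Nat.pow_le_pow_left h2 _
    _ ≤ Nat.card N ^ (M + 1) * Nat.card S := Nat.le_mul_of_pos_right _ h3

end Cfsg.Agent.Lib.Helper61.PrimeGraph2
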