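import Mathlib
import Cfsg.Agent.Lib.Helper79.SNStmt

/-!
# S4931 piece NORMQ: if `g P g⁻¹ ≤ P R` (`R` normal) then `g ∈ N_G(P) R`.
-/

set_option autoImplicit false

namespace Cfsg.Agent.Lib.Helper61.SNNORMQ

universe u

theorem mem_smul_sylow {H : Type u} [Group H] {p : ℕ} (S : Sylow p H) (n x : H) :
    x ∈ ((n • S : Sylow p H) : Subgroup H) ↔ n⁻¹ * x * n ∈ (S : Subgroup H) := by
  rw [Sylow.coe_subgroup_smul, Subgroup.mem_pointwise_smul_iff_inv_smul_mem]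
  simp [MulAut.smul_def, mul_assoc]

theorem main : Cfsg.Agent.Lib.Helper79.SNStmt.NormQ.{u} := by
  intro G _ _ p _ P R hR g hg
  have := hR
  have hPH : (P : Subgroup G) ≤ (P : Subgroup G) ⊔ R := le_sup_left
  let S : Sylow p ↥((P : Subgroup G) ⊔ R) := P.subtype hPH
  have hS : (S : Subgroup ↥((P : Subgroup G) ⊔ R)) =
      (P : Subgroup G).subgroupOf ((P : Subgroup G) ⊔ R) := Sylow.coe_subtype (P := P) hPH
  have hQp : IsPGroup p (((P : Subgroup G).map (MulAut.conj g).toMonoidHom).subgroupOf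
      ((P : Subgroup G) ⊔ R)) := (P.isPGroup'.map _).comap_subtype
  obtain ⟨Q, hQ⟩ := hQp.exists_le_sylow
  obtain ⟨y, hy⟩ := MulAction.exists_smul_eq ↥((P : Subgroup G) ⊔ R) S Q
  have hz : ∀ x ∈ (P : Subgroup G),
      ((y : G)⁻¹ * g) * x * ((y : G)⁻¹ * g)⁻¹ ∈ (P : Subgroup G) := by
    intro x hx
    have hxH : g * x * g⁻¹ ∈ (P : Subgroup G) ⊔ R := hg x hx
    have h1 : (⟨g * x * g⁻¹, hxH⟩ : ↥((P : Subgroup G) ⊔ R)) ∈
        ((P : Subgroup G).map (MulAut.conj g).toMonoidHom).subgroupOf ((P : Subgroup G) ⊔ R) := by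
      rw [Subgroup.mem_subgroupOf]
      exact ⟨x, hx, by simp [MulAut.conj_apply]⟩
    have h2 : (⟨g * x * g⁻¹, hxH⟩ : ↥((P : Subgroup G) ⊔ R)) ∈
        ((y • S : Sylow p ↥((P : Subgroup G) ⊔ R)) : Subgroup ↥((P : Subgroup G) ⊔ R)) := by
      rw [hy]; exact hQ h1
    rw [mem_smul_sylow, hS, Subgroup.mem_subgroupOf] at h2
    have e : ((y : G)⁻¹ * g) * x * ((y : G)⁻¹ * g)⁻¹ =
        ((y⁻¹ * (⟨g * x * g⁻¹, hxH⟩ : ↥((P : Subgroup G) ⊔ R)) * y :
          ↥((P : Subgroup G) ⊔ R)) : G) := by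
      simp only [Subgroup.coe_mul, Subgroup.coe_inv]; group
    rw [e]; exact h2
  have hzN : (y : G)⁻¹ * g ∈ Subgroup.normalizer ((P : Subgroup G) : Set G) :=
    Subgroup.mem_normalizer_fintype (fun n hn => hz n hn)
  have hyN : (y : G) ∈ Subgroup.normalizer ((P : Subgroup G) : Set G) ⊔ R :=
    sup_le_sup_right Subgroup.le_normalizer R y.2
  have e : g = (y : G) * ((y : G)⁻¹ * g) := by group
  rw [e]
  exact mul_mem hyN (Subgroup.mem_sup_left hzN)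

end Cfsg.Agent.Lib.Helper61.SNNORMQ
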