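import Mathlib
import Cfsg.Prelude.Def_Classical
import Cfsg.Agent.Lib.Helper61.SU33
import Cfsg.Agent.Lib.Helper61.F16

set_option autoImplicit false

/-!
# Element orders of `SU(3,4)` and `PSU(3,4)`

Over a field `F` with sixteen elements every element of `Cfsg.SU 3 F 4` has order dividing 20, 15
or 13, and `Cfsg.PSU 3 F 4` has elements of orders 10, 15 and 13.
-/

namespace Cfsg.Agent.Lib.Helper61.SU34

open Matrix Polynomial
open Cfsg.Agent.Lib.Helper61.F16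

theorem two_eq_zero {F : Type*} [Field F] [Fintype F] (hF : Fintype.card F = 16) : (2 : F) = 0 := by
  have h := FiniteField.cast_card_eq_zero F
  rw [hF] at h
  have h16 : (2 : F) ^ 4 = 0 := by
    have : ((16 : ℕ) : F) = 2 ^ 4 := by norm_num
    rw [← this]
    exact h
  exact (pow_eq_zero_iff (by norm_num)).1 h16

theorem pow_sixteen {F : Type*} [Field F] [Fintype F] (hF : Fintype.card F = 16) (x : F) :
    x ^ 16 = x := by
  have h := FiniteField.pow_card x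
  rwa [hF] at h

/-- The map `x ↦ x ^ 4` in characteristic two. -/
def frob {F : Type*} [Field F] (h2 : (2 : F) = 0) : F →+* F where
  toFun x := x ^ 4
  map_one' := one_pow 4
  map_mul' x y := mul_pow x y 4
  map_zero' := zero_pow (by norm_num)
  map_add' x y := by linear_combination (2 * x ^ 3 * y + 3 * x ^ 2 * y ^ 2 + 2 * x * y ^ 3) * h2

theorem frob_apply {F : Type*} [Field F] (h2 : (2 : F) = 0) (x : F) : frob h2 x = x ^ 4 := rfl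

/-- Membership in `SU(3)` in matrix form. -/
theorem mem_SU_iff {F : Type*} [Field F] (h2 : (2 : F) = 0)
    (g : Matrix.SpecialLinearGroup (Fin 3) F) :
    g ∈ Cfsg.SU 3 F 4 ↔
      (g : Matrix (Fin 3) (Fin 3) F)ᵀ * (g : Matrix (Fin 3) (Fin 3) F).map (frob h2) = 1 := by
  have hM : Cfsg.slToMat 3 F g = (g : Matrix (Fin 3) (Fin 3) F) := rfl
  constructor
  · intro hg
    ext j k
    have h := hg (Pi.single j 1) (Pi.single k 1)
    rw [hM, Matrix.mulVec_single_one, Matrix.mulVec_single_one] at h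
    have h1 : ((g : Matrix (Fin 3) (Fin 3) F)ᵀ * (g : Matrix (Fin 3) (Fin 3) F).map (frob h2)) j k
        = Cfsg.hermForm 3 F 4 ((g : Matrix (Fin 3) (Fin 3) F).col j)
          ((g : Matrix (Fin 3) (Fin 3) F).col k) := by
      rw [Matrix.mul_apply]
      rfl
    rw [h1, h]
    unfold Cfsg.hermForm
    fin_cases j <;> fin_cases k <;> simp [Pi.single_apply]
  · intro h u v
    rw [hM]
    have e1 : ∀ x y : Fin 3 → F, Cfsg.hermForm 3 F 4 x y = x ⬝ᵥ (fun i => frob h2 (y i)) := by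
      intro x y
      rfl
    rw [e1, e1]
    have e2 : (fun i => frob h2 (((g : Matrix (Fin 3) (Fin 3) F) *ᵥ v) i)) =
        (g : Matrix (Fin 3) (Fin 3) F).map (frob h2) *ᵥ (fun i => frob h2 (v i)) := by
      funext i
      exact RingHom.map_mulVec (frob h2) (g : Matrix (Fin 3) (Fin 3) F) v i
    rw [e2, ← Matrix.vecMul_transpose, ← Matrix.dotProduct_mulVec, Matrix.mulVec_mulVec, h,
      Matrix.one_mulVec]

/-- The characteristic polynomial of a unitary `3 × 3` matrix of determinant one. -/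
theorem charpoly_form {F : Type*} [Field F] (h2 : (2 : F) = 0) (M : Matrix (Fin 3) (Fin 3) F)
    (hdet : M.det = 1) (hU : Mᵀ * M.map (frob h2) = 1) :
    ∃ a : F, M.charpoly = X ^ 3 + C a * X ^ 2 - C a ^ 4 * X - 1 := by
  have hunit : IsUnit M := (Matrix.isUnit_iff_isUnit_det M).2 (by rw [hdet]; exact isUnit_one)
  have hU' : (M.map (frob h2))ᵀ * M = 1 := by
    have := congrArg Matrix.transpose hU
    rwa [Matrix.transpose_mul, Matrix.transpose_transpose, Matrix.transpose_one] at this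
  have hinv : M⁻¹ = (M.map (frob h2))ᵀ := Matrix.inv_eq_left_inv hU'
  have h1 : M⁻¹.charpoly = M.charpoly.map (frob h2) := by
    rw [hinv, Matrix.charpoly_transpose, Matrix.charpoly_map]
  have h2' := Matrix.charpoly_inv M hunit
  rw [h1, hdet, ← Matrix.reverse_charpoly] at h2'
  have hdeg : M.charpoly.natDegree = 3 := by
    rw [Matrix.charpoly_natDegree_eq_dim]
    simp
  have h4 := congrArg (fun p : F[X] => p.coeff 2) h2'
  have hc : (M.charpoly.reverse).coeff 2 = M.charpoly.coeff 1 := by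
    rw [Polynomial.coeff_reverse, hdeg, Polynomial.revAt_le (by norm_num)]
  have h5 : (M.charpoly.coeff 2) ^ 4 = - M.charpoly.coeff 1 := by
    have h6 : ((-1 : F[X]) ^ Fintype.card (Fin 3) * C (Ring.inverse (1 : F)) * M.charpoly.reverse)
        = - M.charpoly.reverse := by
      simp
      ring
    simp only [h6, Polynomial.coeff_map, Polynomial.coeff_neg, hc] at h4
    exact h4
  refine ⟨M.charpoly.coeff 2, ?_⟩
  conv_lhs => rw [SU33.charpoly_eq M hdet]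
  have h7 : M.charpoly.coeff 1 = - (M.charpoly.coeff 2) ^ 4 := by rw [h5, neg_neg]
  rw [h7, map_neg, map_pow]
  ring

theorem r0 {F : Type*} [Field F] (a : F) (h2 : (2 : F[X]) = 0) (hr : (C a : F[X]) = 0) :
    (X ^ 15 - 1 : F[X]) = (X ^ 3 + C a * X ^ 2 - C a ^ 4 * X - 1) * (1 + X ^ 3 + X ^ 6 + X ^ 9 + X ^ 12) := by
  linear_combination (C a ^ 3 * X - X ^ 2 + C a ^ 3 * X ^ 4 - X ^ 5 + C a ^ 3 * X ^ 7 - X ^ 8 + C a ^ 3 * X ^ 10 - X ^ 11 + C a ^ 3 * X ^ 13 - X ^ 14) * hr + (0) * h2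

theorem r1 {F : Type*} [Field F] (a : F) (h2 : (2 : F[X]) = 0) (hr : (1 + C a : F[X]) = 0) :
    (X ^ 20 - 1 : F[X]) = (X ^ 3 + C a * X ^ 2 - C a ^ 4 * X - 1) * (1 + X + X ^ 4 + X ^ 5 + X ^ 8 + X ^ 9 + X ^ 12 + X ^ 13 + X ^ 16 + X ^ 17) := by
  linear_combination (-X + C a * X - C a ^ 2 * X + C a ^ 3 * X - 2 * X ^ 2 + C a * X ^ 2 - C a ^ 2 * X ^ 2 + C a ^ 3 * X ^ 2 - X ^ 3 - X ^ 5 + C a * X ^ 5 - C a ^ 2 * X ^ 5 + C a ^ 3 * X ^ 5 - 2 * X ^ 6 + C a * X ^ 6 - C a ^ 2 * X ^ 6 + C a ^ 3 * X ^ 6 - X ^ 7 - X ^ 9 + C a * X ^ 9 - C a ^ 2 * X ^ 9 + C a ^ 3 * X ^ 9 - 2 * X ^ 10 + C a * X ^ 10 - C a ^ 2 * X ^ 10 + C a ^ 3 * X ^ 10 - X ^ 11 - X ^ 13 + C a * X ^ 13 - C a ^ 2 * X ^ 13 + C a ^ 3 * X ^ 13 - 2 * X ^ 14 + C a * X ^ 14 - C a ^ 2 * X ^ 14 + C a ^ 3 * X ^ 14 - X ^ 15 - X ^ 17 + C a * X ^ 17 - C a ^ 2 * X ^ 17 + C a ^ 3 * X ^ 17 - 2 * X ^ 18 + C a * X ^ 18 - C a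 ^ 2 * X ^ 18 + C a ^ 3 * X ^ 18 - X ^ 19) * hr + (X + X ^ 2 + X ^ 5 + X ^ 6 + X ^ 9 + X ^ 10 + X ^ 13 + X ^ 14 + X ^ 17 + X ^ 18) * h2

theorem r2 {F : Type*} [Field F] (a : F) (h2 : (2 : F[X]) = 0) (hr : (1 + C a + C a ^ 2 : F[X]) = 0) :
    (X ^ 20 - 1 : F[X]) = (X ^ 3 + C a * X ^ 2 - C a ^ 4 * X - 1) * (1 + C a * X + X ^ 2 + X ^ 5 + C a * X ^ 6 + X ^ 7 + X ^ 10 + C a * X ^ 11 + X ^ 12 + X ^ 15 + C a * X ^ 16 + X ^ 17) := by
  linear_combination (-C a * X + C a ^ 2 * X + X ^ 2 - C a ^ 2 * X ^ 2 + C a ^ 3 * X ^ 2 - X ^ 3 - C a * X ^ 3 + C a ^ 2 * X ^ 3 - C a * X ^ 6 + C a ^ 2 * X ^ 6 + X ^ 7 - C a ^ 2 * X ^ 7 + C a ^ 3 * X ^ 7 - X ^ 8 - C a * X ^ 8 + C a ^ 2 * X ^ 8 - C a * X ^ 11 + C a ^ 2 * X ^ 11 + X ^ 12 - C a ^ 2 * X ^ 12 + C a ^ 3 * X ^ 12 - X ^ 13 - C a * X ^ 13 + C a ^ 2 * X ^ 13 - C a * X ^ 16 + C a ^ 2 * X ^ 16 + X ^ 17 - C a ^ 2 * X ^ 17 + C a ^ 3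 * X ^ 17 - X ^ 18 - C a * X ^ 18 + C a ^ 2 * X ^ 18) * hr + (C a * X - C a * X ^ 2 + C a * X ^ 3 - C a * X ^ 4 + C a * X ^ 6 - C a * X ^ 7 + C a * X ^ 8 - C a * X ^ 9 + C a * X ^ 11 - C a * X ^ 12 + C a * X ^ 13 - C a * X ^ 14 + C a * X ^ 16 - C a * X ^ 17 + C a * X ^ 18 - C a * X ^ 19) * h2

theorem r3 {F : Type*} [Field F] (a : F) (h2 : (2 : F[X]) = 0) (hr : (1 + C a + C a ^ 4 : F[X]) = 0) :
    (X ^ 15 - 1 : F[X]) = (X ^ 3 + C a * X ^ 2 - C a ^ 4 * X - 1) * (1 + X + C a * X + X ^ 2 + C a * X ^ 2 + C a ^ 2 * X ^ 2 + C a * X ^ 3 + C a ^ 2 * X ^ 3 + C a ^ 3 * X ^ 3 + C a ^ 2 * X ^ 4 + C a ^ 3 * X ^ 4 + X ^ 5 + C a * X ^ 5 + C a ^ 2 * X ^ 5 + C a ^ 3 * X ^ 5 + X ^ 6 + C a * X ^ 6 + C a ^ 2 * X ^ 6 + C a ^ 3 * X ^ 7 + C a * X ^ 8 + C a ^ 3 * X ^ 8 + X ^ 9 + C a ^ 3 * X ^ 9 + X ^ 10 + C a * X ^ 10 + C a ^ 2 * X ^ 10 + C a * X ^ 11 + X ^ 12) := by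
  linear_combination (X + X ^ 2 + C a * X ^ 2 + X ^ 3 + C a * X ^ 3 + C a ^ 2 * X ^ 3 - X ^ 4 + C a * X ^ 4 + C a ^ 2 * X ^ 4 + C a ^ 3 * X ^ 4 - 2 * X ^ 5 + C a ^ 2 * X ^ 5 + C a ^ 3 * X ^ 5 - X ^ 6 + C a * X ^ 6 + C a ^ 2 * X ^ 6 + C a ^ 3 * X ^ 6 + C a * X ^ 7 + C a ^ 2 * X ^ 7 - X ^ 8 + C a ^ 3 * X ^ 8 - 2 * X ^ 9 + C a * X ^ 9 + C a ^ 3 * X ^ 9 - X ^ 10 + C a ^ 3 * X ^ 10 + C a * X ^ 11 + C a ^ 2 * X ^ 11 + C a * X ^ 12 + X ^ 13) * hr + (-C a * X ^ 2 - X ^ 3 - C a * X ^ 3 - C a ^ 2 * X ^ 3 - C a * X ^ 4 - C a ^ 2 * X ^ 4 - C a ^ 3 * X ^ 4 + X ^ 5 + C a * X ^ 5 - C a ^ 2 * X ^ 5 - C a ^ 3 * X ^ 5 + X ^ 6 - C a ^ 2 * X ^ 6 - 2 * C a ^ 3 * X ^ 6 - C a * X ^ 7 - 2 * C a ^ 2 * X ^ 7 - C a ^ 3 * X ^ 7 - C a ^ 2 * X ^ 8 - C a ^ 3 * X ^ 8 + X ^ 9 - C a ^ 2 * X ^ 9 + X ^ 10 + C a * X ^ 10 - C a ^ 3 * X ^ 10 - C a * X ^ 11 - C a ^ 2 * X ^ 11 - C a ^ 3 * X ^ 11 - C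 a * X ^ 12 - C a ^ 2 * X ^ 12 - C a ^ 3 * X ^ 12 - X ^ 13 - C a * X ^ 13 - C a ^ 2 * X ^ 13 - C a * X ^ 14) * h2

theorem r4 {F : Type*} [Field F] (a : F) (h2 : (2 : F[X]) = 0) (hr : (1 + C a ^ 3 + C a ^ 4 : F[X]) = 0) :
    (X ^ 13 - 1 : F[X]) = (X ^ 3 + C a * X ^ 2 - C a ^ 4 * X - 1) * (1 + X + C a ^ 3 * X + C a ^ 2 * X ^ 2 + C a ^ 3 * X ^ 2 + C a * X ^ 3 + X ^ 4 + C a * X ^ 4 + C a * X ^ 5 + C a ^ 3 * X ^ 5 + C a ^ 3 * X ^ 6 + X ^ 7 + C a ^ 3 * X ^ 7 + X ^ 8 + C a ^ 2 * X ^ 8 + C a ^ 3 * X ^ 8 + C a * X ^ 9 + X ^ 10) := by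
  linear_combination (X + C a * X ^ 2 - C a ^ 2 * X ^ 2 + C a ^ 3 * X ^ 2 - X ^ 3 + C a ^ 3 * X ^ 3 - 2 * X ^ 4 + C a * X ^ 4 + C a * X ^ 5 - 2 * X ^ 6 + 2 * C a * X ^ 6 - C a ^ 2 * X ^ 6 + C a ^ 3 * X ^ 6 - 2 * X ^ 7 + C a * X ^ 7 - C a ^ 2 * X ^ 7 + C a ^ 3 * X ^ 7 - X ^ 8 + C a * X ^ 8 - C a ^ 2 * X ^ 8 + C a ^ 3 * X ^ 8 + C a ^ 3 * X ^ 9 - 2 * X ^ 10 + C a * X ^ 10 + X ^ 11) * hr + (-C a * X ^ 2 + C a ^ 2 * X ^ 2 + X ^ 4 - C a ^ 2 * X ^ 5 + X ^ 6 - 2 * C a * X ^ 6 + C a ^ 3 * X ^ 6 + X ^ 7 - C a * X ^ 7 + C a ^ 3 * X ^ 7 + X ^ 8 - C a * X ^ 8 + C a ^ 2 * X ^ 8 - C a ^ 3 * X ^ 9 + X ^ 10 - C a * X ^ 10 - X ^ 11 - C a ^ 2 * X ^ 11 - C a ^ 3 * X ^ 11 - C a * X ^ 12) * h2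

theorem r5 {F : Type*} [Field F] (a : F) (h2 : (2 : F[X]) = 0) (hr : (1 + C a + C a ^ 2 + C a ^ 3 + C a ^ 4 : F[X]) = 0) :
    (X ^ 20 - 1 : F[X]) = (X ^ 3 + C a * X ^ 2 - C a ^ 4 * X - 1) * (1 + X + C a * X + C a ^ 2 * X + C a ^ 3 * X + C a * X ^ 2 + C a ^ 3 * X ^ 2 + X ^ 3 + C a ^ 2 * X ^ 3 + X ^ 4 + C a ^ 3 * X ^ 4 + X ^ 5 + C a * X ^ 5 + C a ^ 3 * X ^ 5 + C a * X ^ 6 + X ^ 7 + X ^ 10 + X ^ 11 + C a * X ^ 11 + C a ^ 2 * X ^ 11 + C a ^ 3 * X ^ 11 + C a * X ^ 12 + C a ^ 3 * X ^ 12 + X ^ 13 + C a ^ 2 * X ^ 13 + X ^ 14 + C a ^ 3 * X ^ 14 + X ^ 15 + C a * X ^ 15 + C a ^ 3 * X ^ 15 + C a * X ^ 16 + X ^ 17) := by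
  linear_combination (X + C a ^ 3 * X ^ 2 - 2 * X ^ 3 + C a * X ^ 3 - C a ^ 2 * X ^ 3 + C a ^ 3 * X ^ 3 - C a * X ^ 4 + C a ^ 2 * X ^ 4 + X ^ 5 - C a ^ 2 * X ^ 5 + C a ^ 3 * X ^ 5 - X ^ 6 + C a * X ^ 6 - C a ^ 2 * X ^ 6 + C a ^ 3 * X ^ 6 - 2 * X ^ 7 + C a * X ^ 7 + X ^ 8 + X ^ 11 + C a ^ 3 * X ^ 12 - 2 * X ^ 13 + C a * X ^ 13 - C a ^ 2 * X ^ 13 + C a ^ 3 * X ^ 13 - C a * X ^ 14 + C a ^ 2 * X ^ 14 + X ^ 15 - C a ^ 2 * X ^ 15 + C a ^ 3 * X ^ 15 - X ^ 16 + C a * X ^ 16 - C a ^ 2 * X ^ 16 + C a ^ 3 * X ^ 16 - 2 * X ^ 17 + C a * X ^ 17 + X ^ 18) * hr + (X ^ 3 + C a ^ 2 * X ^ 3 - C a ^ 2 * X ^ 4 - C a * X ^ 5 - C a ^ 3 * X ^ 5 + X ^ 7 - X ^ 8 - C a * X ^ 8 - C a ^ 2 * X ^ 8 - C a ^ 3 * X ^ 8 - C a * X ^ 9 + X ^ 13 + C a ^ 2 * X ^ 13 - C a ^ 2 * X ^ 14 - C a * X ^ 15 - C a ^ 3 * X ^ 15 + X ^ 17 - X ^ 18 - C a * X ^ 18 - C a ^ 2 * X ^ 18 - C a ^ 3 * X ^ 18 - C a * X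 ^ 19) * h2

/-- Powers of a unitary `3 × 3` matrix of determinant one over the field with sixteen elements. -/
theorem su_pow {F : Type*} [Field F] [Fintype F] (hF : Fintype.card F = 16)
    (M : Matrix (Fin 3) (Fin 3) F) (hdet : M.det = 1)
    (hU : Mᵀ * M.map (frob (two_eq_zero hF)) = 1) :
    M ^ 20 = 1 ∨ M ^ 15 = 1 ∨ M ^ 13 = 1 := by
  have h2 := two_eq_zero hF
  obtain ⟨a, hP⟩ := charpoly_form h2 M hdet hU
  have h0 := Matrix.aeval_self_charpoly M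
  rw [hP] at h0
  have h2p : (2 : F[X]) = 0 := by
    have : (2 : F[X]) = C (2 : F) := (map_ofNat C 2).symm
    rw [this, h2, C_0]
  have pos : ∀ (N : ℕ) (q : F[X]),
      (X ^ N - 1 : F[X]) = (X ^ 3 + C a * X ^ 2 - C a ^ 4 * X - 1) * q → M ^ N = 1 := by
    intro N q hq
    have h1 := congrArg (aeval M) hq
    rw [map_mul, h0, zero_mul, map_sub, aeval_X_pow, map_one, sub_eq_zero] at h1
    exact h1
  have h16 := pow_sixteen hF a
  have hfac : a * (a + 1) * (a ^ 2 + a + 1) * (a ^ 4 + a + 1) * (a ^ 4 + a ^ 3 + 1) *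
      (a ^ 4 + a ^ 3 + a ^ 2 + a + 1) = 0 := by
    linear_combination h16 + (1 * a + 2 * a ^ 2 + 4 * a ^ 3 + 6 * a ^ 4 + 9 * a ^ 5 + 13 * a ^ 6 + 16 * a ^ 7 + 17 * a ^ 8 + 17 * a ^ 9 + 16 * a ^ 10 + 13 * a ^ 11 + 9 * a ^ 12 + 6 * a ^ 13 + 4 * a ^ 14 + 2 * a ^ 15) * h2
  have toC : ∀ x : F, x = 0 → (C x : F[X]) = 0 := fun x hx => by rw [hx, C_0]
  rcases mul_eq_zero.1 hfac with h | h
  · rcases mul_eq_zero.1 h with h | h
    · rcases mul_eq_zero.1 h with h | h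
      · rcases mul_eq_zero.1 h with h | h
        · rcases mul_eq_zero.1 h with h | h
          · refine Or.inr (Or.inl (pos 15 _ (r0 a h2p ?_)))
            exact toC a h
          · refine Or.inl (pos 20 _ (r1 a h2p ?_))
            have := toC (1 + a) (by linear_combination h)
            simpa only [map_add, map_one] using this
        · refine Or.inl (pos 20 _ (r2 a h2p ?_))
          have := toC (1 + a + a ^ 2) (by linear_combination h)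
          simpa only [map_add, map_one, map_pow] using this
      · refine Or.inr (Or.inl (pos 15 _ (r3 a h2p ?_)))
        have := toC (1 + a + a ^ 4) (by linear_combination h)
        simpa only [map_add, map_one, map_pow] using this
    · refine Or.inr (Or.inr (pos 13 _ (r4 a h2p ?_)))
      have := toC (1 + a ^ 3 + a ^ 4) (by linear_combination h)
      simpa only [map_add, map_one, map_pow] using this
  · refine Or.inl (pos 20 _ (r5 a h2p ?_))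
    have := toC (1 + a + a ^ 2 + a ^ 3 + a ^ 4) (by linear_combination h)
    simpa only [map_add, map_one, map_pow] using this

/-- Every element of `SU(3,4)` has order dividing 20, 15 or 13. -/
theorem su_pow' {F : Type*} [Field F] [Fintype F] (hF : Fintype.card F = 16)
    (g : Cfsg.SU 3 F 4) : g ^ 20 = 1 ∨ g ^ 15 = 1 ∨ g ^ 13 = 1 := by
  have hU := (mem_SU_iff (two_eq_zero hF) (g : Matrix.SpecialLinearGroup (Fin 3) F)).1 g.2
  have h := su_pow hF _ (g : Matrix.SpecialLinearGroup (Fin 3) F).2 hU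
  have pos : ∀ N : ℕ, ((g : Matrix.SpecialLinearGroup (Fin 3) F) : Matrix (Fin 3) (Fin 3) F) ^ N = 1 →
      g ^ N = 1 := by
    intro N hN
    apply Subtype.ext
    apply Subtype.ext
    rw [Subgroup.coe_pow, Matrix.SpecialLinearGroup.coe_pow, hN]
    rfl
  rcases h with h | h | h
  · exact Or.inl (pos _ h)
  · exact Or.inr (Or.inl (pos _ h))
  · exact Or.inr (Or.inr (pos _ h))

/-- Every element of `PSU(3,4)` has order dividing 20, 15 or 13. -/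
theorem psu_pow {F : Type*} [Field F] [Fintype F] (hF : Fintype.card F = 16)
    (x : Cfsg.PSU 3 F 4) : x ^ 20 = 1 ∨ x ^ 15 = 1 ∨ x ^ 13 = 1 := by
  obtain ⟨g, rfl⟩ := QuotientGroup.mk_surjective x
  have pos : ∀ N : ℕ, g ^ N = 1 → (QuotientGroup.mk g : Cfsg.PSU 3 F 4) ^ N = 1 := by
    intro N hN
    rw [← QuotientGroup.mk_pow, hN]
    rfl
  rcases su_pow' hF g with h | h | h
  · exact Or.inl (pos _ h)
  · exact Or.inr (Or.inl (pos _ h))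
  · exact Or.inr (Or.inr (pos _ h))

/-- The cyclic permutation matrix over the model. -/
def Pm : Matrix (Fin 3) (Fin 3) GF16 := !![0, 1, 0; 0, 0, 1; 1, 0, 0]

/-- Witness of order 10. -/
def W10 : Matrix (Fin 3) (Fin 3) GF16 := !![e 10, e 3, e 3; e 7, e 11, e 10; e 2, e 1, e 13]

/-- Witness of order 15. -/
def W15 : Matrix (Fin 3) (Fin 3) GF16 := !![e 1, e 2, e 11; e 8, e 1, e 10; e 10, e 11, e 3]

/-- Witness of order 13. -/
def W13 : Matrix (Fin 3) (Fin 3) GF16 := !![e 13, e 7, e 1; e 12, e 7, e 11; e 2, e 12, e 7]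

set_option maxRecDepth 100000 in
theorem Pm_props : Pm.det = 1 ∧ Pmᵀ * Pm.map (fun x => x ^ 4) = 1 := by decide +kernel

set_option maxRecDepth 100000 in
theorem W10_props : W10.det = 1 ∧ W10ᵀ * W10.map (fun x => x ^ 4) = 1 ∧ W10 ^ 10 = 1 ∧
    W10 ^ 5 * Pm ≠ Pm * W10 ^ 5 ∧ W10 ^ 2 * Pm ≠ Pm * W10 ^ 2 := by decide +kernel

set_option maxRecDepth 100000 in
theorem W15_props : W15.det = 1 ∧ W15ᵀ * W15.map (fun x => x ^ 4) = 1 ∧ W15 ^ 15 = 1 ∧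
    W15 ^ 5 * Pm ≠ Pm * W15 ^ 5 ∧ W15 ^ 3 * Pm ≠ Pm * W15 ^ 3 := by decide +kernel

set_option maxRecDepth 100000 in
theorem W13_props : W13.det = 1 ∧ W13ᵀ * W13.map (fun x => x ^ 4) = 1 ∧ W13 ^ 13 = 1 ∧
    W13 ^ 1 * Pm ≠ Pm * W13 ^ 1 := by decide +kernel

theorem exists_hom {F : Type*} [Field F] [Fintype F] (hF : Fintype.card F = 16) :
    ∃ φ : GF16 →+* F, Function.Injective φ := by
  have hc : Fintype.card GF16 = Fintype.card F := GF16.card.trans hF.symm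
  exact ⟨(FiniteField.ringEquivOfCardEq hc).toRingHom, (FiniteField.ringEquivOfCardEq hc).injective⟩

/-- Lifting a matrix over the model to an element of `SU(3,F)`. -/
theorem exists_su {F : Type*} [Field F] [Fintype F] (hF : Fintype.card F = 16)
    (φ : GF16 →+* F) (V : Matrix (Fin 3) (Fin 3) GF16) (hVdet : V.det = 1)
    (hVU : Vᵀ * V.map (fun x => x ^ 4) = 1) :
    ∃ g : Cfsg.SU 3 F 4, ((g : Matrix.SpecialLinearGroup (Fin 3) F) : Matrix (Fin 3) (Fin 3) F)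
      = φ.mapMatrix V := by
  have h2 := two_eq_zero hF
  have hdet' : (φ.mapMatrix V).det = 1 := by
    rw [← RingHom.map_det, hVdet, map_one]
  let g0 : Matrix.SpecialLinearGroup (Fin 3) F := ⟨φ.mapMatrix V, hdet'⟩
  have hg0 : g0 ∈ Cfsg.SU 3 F 4 := by
    rw [mem_SU_iff h2]
    show (V.map φ)ᵀ * (V.map φ).map (frob h2) = 1
    have e1 : (V.map φ).map (frob h2) = (V.map (fun x => x ^ 4)).map φ := by
      ext i j
      simp [frob_apply]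
    rw [e1, ← Matrix.transpose_map, ← Matrix.map_mul, hVU, Matrix.map_one φ φ.map_zero φ.map_one]
  exact ⟨⟨g0, hg0⟩, rfl⟩

/-- Lifting a witness over the model to elements of `SU(3,F)` and `PSU(3,F)` of the same order. -/
theorem exists_orderOf {F : Type*} [Field F] [Fintype F] (hF : Fintype.card F = 16)
    (W : Matrix (Fin 3) (Fin 3) GF16) (hdet : W.det = 1) (hU : Wᵀ * W.map (fun x => x ^ 4) = 1)
    (n : ℕ) (hn : 0 < n) (hpow : W ^ n = 1)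
    (hnc : ∀ q : ℕ, q.Prime → q ∣ n → W ^ (n / q) * Pm ≠ Pm * W ^ (n / q)) :
    (∃ x : Cfsg.SU 3 F 4, orderOf x = n) ∧ ∃ x : Cfsg.PSU 3 F 4, orderOf x = n := by
  obtain ⟨φ, hφ⟩ := exists_hom hF
  have hinj : Function.Injective (φ.mapMatrix (m := Fin 3)) := by
    intro M N hMN
    exact Matrix.map_injective hφ hMN
  obtain ⟨w, hw⟩ := exists_su hF φ W hdet hU
  obtain ⟨pm, hpm⟩ := exists_su hF φ Pm Pm_props.1 Pm_props.2
  have hwpow : ∀ k : ℕ, (((w ^ k : Cfsg.SU 3 F 4) : Matrix.SpecialLinearGroup (Fin 3) F) :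
      Matrix (Fin 3) (Fin 3) F) = φ.mapMatrix (W ^ k) := by
    intro k
    rw [Subgroup.coe_pow, Matrix.SpecialLinearGroup.coe_pow, hw]
    exact (map_pow (φ.mapMatrix (m := Fin 3)) W k).symm
  have h1 : w ^ n = 1 := by
    apply Subtype.ext
    apply Subtype.ext
    rw [hwpow, hpow, map_one]
    rfl
  have hcen : ∀ q : ℕ, q.Prime → q ∣ n → w ^ (n / q) ∉ Subgroup.center (Cfsg.SU 3 F 4) := by
    intro q hq hqn hcon
    rw [Subgroup.mem_center_iff] at hcon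
    apply hnc q hq hqn
    have h1 := hcon pm
    have h2 := congrArg (fun z : Cfsg.SU 3 F 4 =>
      ((z : Matrix.SpecialLinearGroup (Fin 3) F) : Matrix (Fin 3) (Fin 3) F)) h1
    simp only [Subgroup.coe_mul, Matrix.SpecialLinearGroup.coe_mul, hwpow, hpm] at h2
    rw [← map_mul, ← map_mul] at h2
    exact (hinj h2).symm
  constructor
  · refine ⟨w, orderOf_eq_of_pow_and_pow_div_prime hn h1 ?_⟩
    intro q hq hqn hcon
    apply hcen q hq hqn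
    rw [hcon]
    exact Subgroup.one_mem _
  · refine ⟨QuotientGroup.mk w, orderOf_eq_of_pow_and_pow_div_prime hn ?_ ?_⟩
    · rw [← QuotientGroup.mk_pow, h1]
      rfl
    · intro q hq hqn hcon
      rw [← QuotientGroup.mk_pow, QuotientGroup.eq_one_iff] at hcon
      exact hcen q hq hqn hcon

theorem exists_orderOf_ten {F : Type*} [Field F] [Fintype F] (hF : Fintype.card F = 16) :
    (∃ x : Cfsg.SU 3 F 4, orderOf x = 10) ∧ ∃ x : Cfsg.PSU 3 F 4, orderOf x = 10 :=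
  exists_orderOf hF W10 W10_props.1 W10_props.2.1 10 (by norm_num) W10_props.2.2.1 (by
    intro q hq hqn
    have hq' : q = 2 ∨ q = 5 := by
      have hle := Nat.le_of_dvd (by norm_num) hqn
      interval_cases q <;> revert hq hqn <;> decide
    rcases hq' with rfl | rfl
    · exact W10_props.2.2.2.1
    · exact W10_props.2.2.2.2)

theorem exists_orderOf_fifteen {F : Type*} [Field F] [Fintype F] (hF : Fintype.card F = 16) :
    (∃ x : Cfsg.SU 3 F 4, orderOf x = 15) ∧ ∃ x : Cfsg.PSU 3 F 4, orderOf x = 15 :=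
  exists_orderOf hF W15 W15_props.1 W15_props.2.1 15 (by norm_num) W15_props.2.2.1 (by
    intro q hq hqn
    have hq' : q = 3 ∨ q = 5 := by
      have hle := Nat.le_of_dvd (by norm_num) hqn
      interval_cases q <;> revert hq hqn <;> decide
    rcases hq' with rfl | rfl
    · exact W15_props.2.2.2.1
    · exact W15_props.2.2.2.2)

theorem exists_orderOf_thirteen {F : Type*} [Field F] [Fintype F] (hF : Fintype.card F = 16) :
    (∃ x : Cfsg.SU 3 F 4, orderOf x = 13) ∧ ∃ x : Cfsg.PSU 3 F 4, orderOf x = 13 :=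
  exists_orderOf hF W13 W13_props.1 W13_props.2.1 13 (by norm_num) W13_props.2.2.1 (by
    intro q hq hqn
    have hq' : q = 13 := by
      have hle := Nat.le_of_dvd (by norm_num) hqn
      interval_cases q <;> revert hq hqn <;> decide
    subst hq'
    exact W13_props.2.2.2)

end Cfsg.Agent.Lib.Helper61.SU34
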