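import Mathlib
import Cfsg.Prelude.Def_Classical
import Cfsg.Agent.Lib.Helper61.Sp63W

set_option autoImplicit false

namespace Cfsg.Agent.Lib.Helper61.Sp63

open Matrix Polynomial

/-- The characteristic polynomial of a symplectic matrix is self-reciprocal. -/
theorem charpoly_reverse {F : Type*} [Field F] (A : Matrix (Fin 3 ⊕ Fin 3) (Fin 3 ⊕ Fin 3) F)
    (hA : A ∈ symplecticGroup (Fin 3) F) : A.charpoly.reverse = A.charpoly := by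
  have hdet : A.det = 1 := SymplecticGroup.det_eq_one hA
  have hunit : IsUnit A := (Matrix.isUnit_iff_isUnit_det A).2 (by rw [hdet]; exact isUnit_one)
  have hinv := SymplecticGroup.inv_eq_symplectic_inv A hA
  have h1 : A⁻¹.charpoly = A.charpoly := by
    rw [hinv, Matrix.charpoly_mul_comm, ← Matrix.mul_assoc, Matrix.mul_neg, Matrix.J_squared,
      neg_neg, Matrix.one_mul, Matrix.charpoly_transpose]
  have h2 := Matrix.charpoly_inv A hunit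
  rw [h1, hdet] at h2
  rw [Matrix.reverse_charpoly]
  have h6 : Fintype.card (Fin 3 ⊕ Fin 3) = 6 := by simp
  rw [h6] at h2
  simp at h2
  rw [h2]
  norm_num

theorem charpoly_form {F : Type*} [Field F] (A : Matrix (Fin 3 ⊕ Fin 3) (Fin 3 ⊕ Fin 3) F)
    (hA : A ∈ symplecticGroup (Fin 3) F) : ∃ a b c : F,
      A.charpoly = X ^ 6 + C a * X ^ 5 + C b * X ^ 4 + C c * X ^ 3 + C b * X ^ 2 + C a * X + 1 := by
  have hmonic : A.charpoly.Monic := Matrix.charpoly_monic A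
  have hdeg : A.charpoly.natDegree = 6 := by
    rw [Matrix.charpoly_natDegree_eq_dim]
    simp
  have hrev := charpoly_reverse A hA
  have hc : ∀ k, k ≤ 6 → A.charpoly.coeff k = A.charpoly.coeff (6 - k) := by
    intro k hk
    conv_lhs => rw [← hrev, Polynomial.coeff_reverse, hdeg, Polynomial.revAt_le hk]
  have h6 : A.charpoly.coeff 6 = 1 := by
    rw [← hdeg]
    exact hmonic.coeff_natDegree
  refine ⟨A.charpoly.coeff 5, A.charpoly.coeff 4, A.charpoly.coeff 3, ?_⟩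
  conv_lhs => rw [A.charpoly.as_sum_range_C_mul_X_pow, hdeg]
  simp only [Finset.sum_range_succ, Finset.sum_range_zero]
  rw [hc 0 (by norm_num), hc 1 (by norm_num), hc 2 (by norm_num), h6]
  simp
  ring

theorem elem_cases {F : Type*} [Field F] [Fintype F] (hF : Fintype.card F = 3) (x : F) :
    x = 0 ∨ x = 1 ∨ x = -1 := by
  have h := FiniteField.pow_card x
  rw [hF] at h
  have h1 : x * (x - 1) * (x + 1) = 0 := by linear_combination h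
  rcases mul_eq_zero.1 h1 with h | h
  · rcases mul_eq_zero.1 h with h | h
    · exact Or.inl h
    · exact Or.inr (Or.inl (by linear_combination h))
  · exact Or.inr (Or.inr (by linear_combination h))

theorem three_eq_zero {F : Type*} [Field F] [Fintype F] (hF : Fintype.card F = 3) : (3 : F) = 0 := by
  have h := FiniteField.cast_card_eq_zero F
  rw [hF] at h
  exact_mod_cast h

theorem case0 {F : Type*} [Field F] (h3 : (3 : F[X]) = 0) :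
    (X ^ 24 - 1 : F[X]) = (X ^ 6 + C (0 : F) * X ^ 5 + C (0 : F) * X ^ 4 + C (0 : F) * X ^ 3 + C (0 : F) * X ^ 2 + C (0 : F) * X + 1) * (-1 + X ^ 6 - X ^ 12 + X ^ 18) := by
  simp only [C_0]
  linear_combination (0) * h3

theorem case1 {F : Type*} [Field F] (h3 : (3 : F[X]) = 0) :
    (X ^ 36 - 1 : F[X]) = (X ^ 6 + C (0 : F) * X ^ 5 + C (0 : F) * X ^ 4 + C (1 : F) * X ^ 3 + C (0 : F) * X ^ 2 + C (0 : F) * X + 1) * (-1 + X ^ 3 - X ^ 9 + X ^ 12 - X ^ 18 + X ^ 21 - X ^ 27 + X ^ 30) := by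
  simp only [C_0, C_1]
  linear_combination (0) * h3

theorem case2 {F : Type*} [Field F] (h3 : (3 : F[X]) = 0) :
    (X ^ 36 - 1 : F[X]) = (X ^ 6 + C (0 : F) * X ^ 5 + C (0 : F) * X ^ 4 + C (-1 : F) * X ^ 3 + C (0 : F) * X ^ 2 + C (0 : F) * X + 1) * (-1 - X ^ 3 + X ^ 9 + X ^ 12 - X ^ 18 - X ^ 21 + X ^ 27 + X ^ 30) := by
  simp only [C_0, C_1, C_neg]
  linear_combination (0) * h3

theorem case3 {F : Type*} [Field F] (h3 : (3 : F[X]) = 0) :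
    (X ^ 24 - 1 : F[X]) = (X ^ 6 + C (0 : F) * X ^ 5 + C (1 : F) * X ^ 4 + C (0 : F) * X ^ 3 + C (1 : F) * X ^ 2 + C (0 : F) * X + 1) * (-1 + X ^ 2 - X ^ 8 + X ^ 10 - X ^ 16 + X ^ 18) := by
  simp only [C_0, C_1]
  linear_combination (0) * h3

theorem case4 {F : Type*} [Field F] (h3 : (3 : F[X]) = 0) :
    (X ^ 30 - 1 : F[X]) = (X ^ 6 + C (0 : F) * X ^ 5 + C (1 : F) * X ^ 4 + C (1 : F) * X ^ 3 + C (1 : F) * X ^ 2 + C (0 : F) * X + 1) * (-1 + X ^ 2 + X ^ 3 + X ^ 5 - X ^ 6 + X ^ 7 - X ^ 8 + X ^ 9 + X ^ 10 + X ^ 11 - X ^ 13 - X ^ 14 - X ^ 15 + X ^ 16 - X ^ 17 + X ^ 18 - X ^ 19 - X ^ 21 - X ^ 22 + X ^ 24) := by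
  simp only [C_0, C_1]
  linear_combination (-X ^ 5 - X ^ 7 - X ^ 9 - X ^ 11 - X ^ 13 + X ^ 17 + X ^ 19 + X ^ 21 + X ^ 23 + X ^ 25) * h3

theorem case5 {F : Type*} [Field F] (h3 : (3 : F[X]) = 0) :
    (X ^ 30 - 1 : F[X]) = (X ^ 6 + C (0 : F) * X ^ 5 + C (1 : F) * X ^ 4 + C (-1 : F) * X ^ 3 + C (1 : F) * X ^ 2 + C (0 : F) * X + 1) * (-1 + X ^ 2 - X ^ 3 - X ^ 5 - X ^ 6 - X ^ 7 - X ^ 8 - X ^ 9 + X ^ 10 - X ^ 11 + X ^ 13 - X ^ 14 + X ^ 15 + X ^ 16 + X ^ 17 + X ^ 18 + X ^ 19 + X ^ 21 - X ^ 22 + X ^ 24) := by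
  simp only [C_0, C_1, C_neg]
  linear_combination (X ^ 5 + X ^ 7 + X ^ 9 + X ^ 11 + X ^ 13 - X ^ 17 - X ^ 19 - X ^ 21 - X ^ 23 - X ^ 25) * h3

theorem case6 {F : Type*} [Field F] (h3 : (3 : F[X]) = 0) :
    (X ^ 24 - 1 : F[X]) = (X ^ 6 + C (0 : F) * X ^ 5 + C (-1 : F) * X ^ 4 + C (0 : F) * X ^ 3 + C (-1 : F) * X ^ 2 + C (0 : F) * X + 1) * (-1 - X ^ 2 + X ^ 4 + X ^ 6 - X ^ 12 - X ^ 14 + X ^ 16 + X ^ 18) := by
  simp only [C_0, C_1, C_neg]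
  linear_combination (-X ^ 4 + X ^ 8 - X ^ 16 + X ^ 20) * h3

theorem case7 {F : Type*} [Field F] (h3 : (3 : F[X]) = 0) :
    (X ^ 13 + 1 : F[X]) = (X ^ 6 + C (0 : F) * X ^ 5 + C (-1 : F) * X ^ 4 + C (1 : F) * X ^ 3 + C (-1 : F) * X ^ 2 + C (0 : F) * X + 1) * (1 + X ^ 2 - X ^ 3 - X ^ 4 + X ^ 5 + X ^ 7) := by
  simp only [C_0, C_1, C_neg]
  linear_combination (X ^ 4 - X ^ 5 - X ^ 8 + X ^ 9) * h3

theorem case8 {F : Type*} [Field F] (h3 : (3 : F[X]) = 0) :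
    (X ^ 13 - 1 : F[X]) = (X ^ 6 + C (0 : F) * X ^ 5 + C (-1 : F) * X ^ 4 + C (-1 : F) * X ^ 3 + C (-1 : F) * X ^ 2 + C (0 : F) * X + 1) * (-1 - X ^ 2 - X ^ 3 + X ^ 4 + X ^ 5 + X ^ 7) := by
  simp only [C_0, C_1, C_neg]
  linear_combination (-X ^ 4 - X ^ 5 + X ^ 8 + X ^ 9) * h3

theorem case9 {F : Type*} [Field F] (h3 : (3 : F[X]) = 0) :
    (X ^ 30 - 1 : F[X]) = (X ^ 6 + C (1 : F) * X ^ 5 + C (0 : F) * X ^ 4 + C (0 : F) * X ^ 3 + C (0 : F) * X ^ 2 + C (1 : F) * X + 1) * (-1 + X - X ^ 2 + X ^ 3 - X ^ 4 - X ^ 5 + X ^ 6 - X ^ 7 + X ^ 8 - X ^ 9 + X ^ 15 - X ^ 16 + X ^ 17 - X ^ 18 + X ^ 19 + X ^ 20 - X ^ 21 + X ^ 22 - X ^ 23 + X ^ 24) := by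
  simp only [C_0, C_1]
  linear_combination (X ^ 5 + X ^ 10 - X ^ 20 - X ^ 25) * h3

theorem case10 {F : Type*} [Field F] (h3 : (3 : F[X]) = 0) :
    (X ^ 14 + 1 : F[X]) = (X ^ 6 + C (1 : F) * X ^ 5 + C (0 : F) * X ^ 4 + C (1 : F) * X ^ 3 + C (0 : F) * X ^ 2 + C (1 : F) * X + 1) * (1 - X + X ^ 2 + X ^ 3 + X ^ 5 + X ^ 6 - X ^ 7 + X ^ 8) := by
  simp only [C_0, C_1]
  linear_combination (-X ^ 3 - X ^ 5 - X ^ 6 - X ^ 8 - X ^ 9 - X ^ 11) * h3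

theorem case11 {F : Type*} [Field F] (h3 : (3 : F[X]) = 0) :
    (X ^ 24 - 1 : F[X]) = (X ^ 6 + C (1 : F) * X ^ 5 + C (0 : F) * X ^ 4 + C (-1 : F) * X ^ 3 + C (0 : F) * X ^ 2 + C (1 : F) * X + 1) * (-1 + X - X ^ 2 + X ^ 4 - X ^ 5 + X ^ 6 - X ^ 12 + X ^ 13 - X ^ 14 + X ^ 16 - X ^ 17 + X ^ 18) := by
  simp only [C_0, C_1, C_neg]
  linear_combination (0) * h3

theorem case12 {F : Type*} [Field F] (h3 : (3 : F[X]) = 0) :
    (X ^ 24 - 1 : F[X]) = (X ^ 6 + C (1 : F) * X ^ 5 + C (1 : F) * X ^ 4 + C (0 : F) * X ^ 3 + C (1 : F) * X ^ 2 + C (1 : F) * X + 1) * (-1 + X - X ^ 3 - X ^ 4 - X ^ 5 - X ^ 6 - X ^ 7 + X ^ 8 - X ^ 10 + X ^ 11 + X ^ 12 + X ^ 13 + X ^ 14 + X ^ 15 - X ^ 17 + X ^ 18) := by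
  simp only [C_0, C_1]
  linear_combination (X ^ 4 + X ^ 5 + X ^ 6 + X ^ 7 + X ^ 8 + X ^ 9 + X ^ 10 + X ^ 11 - X ^ 13 - X ^ 14 - X ^ 15 - X ^ 16 - X ^ 17 - X ^ 18 - X ^ 19 - X ^ 20) * h3

theorem case13 {F : Type*} [Field F] (h3 : (3 : F[X]) = 0) :
    (X ^ 14 - 1 : F[X]) = (X ^ 6 + C (1 : F) * X ^ 5 + C (1 : F) * X ^ 4 + C (1 : F) * X ^ 3 + C (1 : F) * X ^ 2 + C (1 : F) * X + 1) * (-1 + X - X ^ 7 + X ^ 8) := by
  simp only [C_1]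
  linear_combination (0) * h3

theorem case14 {F : Type*} [Field F] (h3 : (3 : F[X]) = 0) :
    (X ^ 36 - 1 : F[X]) = (X ^ 6 + C (1 : F) * X ^ 5 + C (1 : F) * X ^ 4 + C (-1 : F) * X ^ 3 + C (1 : F) * X ^ 2 + C (1 : F) * X + 1) * (-1 + X + X ^ 3 + X ^ 4 + X ^ 5 - X ^ 6 - X ^ 7 + X ^ 8 - X ^ 9 + X ^ 10 - X ^ 11 + X ^ 14 - X ^ 16 + X ^ 19 - X ^ 20 + X ^ 21 - X ^ 22 + X ^ 23 + X ^ 24 - X ^ 25 - X ^ 26 - X ^ 27 - X ^ 29 + X ^ 30) := by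
  simp only [C_1, C_neg]
  linear_combination (-X ^ 3 - X ^ 5 - X ^ 9 - X ^ 10 + X ^ 11 + X ^ 13 - X ^ 14 + X ^ 17 - X ^ 19 + X ^ 22 - X ^ 23 - X ^ 25 + X ^ 26 + X ^ 27 + X ^ 31 + X ^ 33) * h3

theorem case15 {F : Type*} [Field F] (h3 : (3 : F[X]) = 0) :
    (X ^ 13 - 1 : F[X]) = (X ^ 6 + C (1 : F) * X ^ 5 + C (-1 : F) * X ^ 4 + C (0 : F) * X ^ 3 + C (-1 : F) * X ^ 2 + C (1 : F) * X + 1) * (-1 + X + X ^ 2 - X ^ 5 - X ^ 6 + X ^ 7) := by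
  simp only [C_0, C_1, C_neg]
  linear_combination (-X ^ 2 + X ^ 5 + X ^ 6 - X ^ 7 - X ^ 8 + X ^ 11) * h3

theorem case16 {F : Type*} [Field F] (h3 : (3 : F[X]) = 0) :
    (X ^ 36 - 1 : F[X]) = (X ^ 6 + C (1 : F) * X ^ 5 + C (-1 : F) * X ^ 4 + C (1 : F) * X ^ 3 + C (-1 : F) * X ^ 2 + C (1 : F) * X + 1) * (-1 + X + X ^ 2 + X ^ 3 + X ^ 4 + X ^ 5 - X ^ 7 - X ^ 8 - X ^ 9 - X ^ 10 - X ^ 11 + X ^ 12 - X ^ 18 + X ^ 19 + X ^ 20 + X ^ 21 + X ^ 22 + X ^ 23 - X ^ 25 - X ^ 26 - X ^ 27 - X ^ 28 - X ^ 29 + X ^ 30) := by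
  simp only [C_1, C_neg]
  linear_combination (-X ^ 2 - X ^ 4 + X ^ 14 + X ^ 16 - X ^ 20 - X ^ 22 + X ^ 32 + X ^ 34) * h3

theorem case17 {F : Type*} [Field F] (h3 : (3 : F[X]) = 0) :
    (X ^ 20 - 1 : F[X]) = (X ^ 6 + C (1 : F) * X ^ 5 + C (-1 : F) * X ^ 4 + C (-1 : F) * X ^ 3 + C (-1 : F) * X ^ 2 + C (1 : F) * X + 1) * (-1 + X + X ^ 2 - X ^ 3 - X ^ 4 - X ^ 6 + X ^ 8 + X ^ 10 + X ^ 11 - X ^ 12 - X ^ 13 + X ^ 14) := by
  simp only [C_1, C_neg]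
  linear_combination (-X ^ 2 + X ^ 4 + X ^ 5 - X ^ 7 - X ^ 8 + X ^ 12 + X ^ 13 - X ^ 15 - X ^ 16 + X ^ 18) * h3

theorem case18 {F : Type*} [Field F] (h3 : (3 : F[X]) = 0) :
    (X ^ 30 - 1 : F[X]) = (X ^ 6 + C (-1 : F) * X ^ 5 + C (0 : F) * X ^ 4 + C (0 : F) * X ^ 3 + C (0 : F) * X ^ 2 + C (-1 : F) * X + 1) * (-1 - X - X ^ 2 - X ^ 3 - X ^ 4 + X ^ 5 + X ^ 6 + X ^ 7 + X ^ 8 + X ^ 9 - X ^ 15 - X ^ 16 - X ^ 17 - X ^ 18 - X ^ 19 + X ^ 20 + X ^ 21 + X ^ 22 + X ^ 23 + X ^ 24) := by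
  simp only [C_0, C_1, C_neg]
  linear_combination (-X ^ 5 + X ^ 10 - X ^ 20 + X ^ 25) * h3

theorem case19 {F : Type*} [Field F] (h3 : (3 : F[X]) = 0) :
    (X ^ 24 - 1 : F[X]) = (X ^ 6 + C (-1 : F) * X ^ 5 + C (0 : F) * X ^ 4 + C (1 : F) * X ^ 3 + C (0 : F) * X ^ 2 + C (-1 : F) * X + 1) * (-1 - X - X ^ 2 + X ^ 4 + X ^ 5 + X ^ 6 - X ^ 12 - X ^ 13 - X ^ 14 + X ^ 16 + X ^ 17 + X ^ 18) := by
  simp only [C_0, C_1, C_neg]
  linear_combination (0) * h3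

theorem case20 {F : Type*} [Field F] (h3 : (3 : F[X]) = 0) :
    (X ^ 14 + 1 : F[X]) = (X ^ 6 + C (-1 : F) * X ^ 5 + C (0 : F) * X ^ 4 + C (-1 : F) * X ^ 3 + C (0 : F) * X ^ 2 + C (-1 : F) * X + 1) * (1 + X + X ^ 2 - X ^ 3 - X ^ 5 + X ^ 6 + X ^ 7 + X ^ 8) := by
  simp only [C_0, C_1, C_neg]
  linear_combination (X ^ 3 + X ^ 5 - X ^ 6 - X ^ 8 + X ^ 9 + X ^ 11) * h3

theorem case21 {F : Type*} [Field F] (h3 : (3 : F[X]) = 0) :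
    (X ^ 24 - 1 : F[X]) = (X ^ 6 + C (-1 : F) * X ^ 5 + C (1 : F) * X ^ 4 + C (0 : F) * X ^ 3 + C (1 : F) * X ^ 2 + C (-1 : F) * X + 1) * (-1 - X + X ^ 3 - X ^ 4 + X ^ 5 - X ^ 6 + X ^ 7 + X ^ 8 - X ^ 10 - X ^ 11 + X ^ 12 - X ^ 13 + X ^ 14 - X ^ 15 + X ^ 17 + X ^ 18) := by
  simp only [C_0, C_1, C_neg]
  linear_combination (X ^ 4 - X ^ 5 + X ^ 6 - X ^ 7 + X ^ 8 - X ^ 9 + X ^ 10 - X ^ 11 + X ^ 13 - X ^ 14 + X ^ 15 - X ^ 16 + X ^ 17 - X ^ 18 + X ^ 19 - X ^ 20) * h3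

theorem case22 {F : Type*} [Field F] (h3 : (3 : F[X]) = 0) :
    (X ^ 36 - 1 : F[X]) = (X ^ 6 + C (-1 : F) * X ^ 5 + C (1 : F) * X ^ 4 + C (1 : F) * X ^ 3 + C (1 : F) * X ^ 2 + C (-1 : F) * X + 1) * (-1 - X - X ^ 3 + X ^ 4 - X ^ 5 - X ^ 6 + X ^ 7 + X ^ 8 + X ^ 9 + X ^ 10 + X ^ 11 + X ^ 14 - X ^ 16 - X ^ 19 - X ^ 20 - X ^ 21 - X ^ 22 - X ^ 23 + X ^ 24 + X ^ 25 - X ^ 26 + X ^ 27 + X ^ 29 + X ^ 30) := by
  simp only [C_1, C_neg]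
  linear_combination (X ^ 3 + X ^ 5 + X ^ 9 - X ^ 10 - X ^ 11 - X ^ 13 - X ^ 14 - X ^ 17 + X ^ 19 + X ^ 22 + X ^ 23 + X ^ 25 + X ^ 26 - X ^ 27 - X ^ 31 - X ^ 33) * h3

theorem case23 {F : Type*} [Field F] (h3 : (3 : F[X]) = 0) :
    (X ^ 14 - 1 : F[X]) = (X ^ 6 + C (-1 : F) * X ^ 5 + C (1 : F) * X ^ 4 + C (-1 : F) * X ^ 3 + C (1 : F) * X ^ 2 + C (-1 : F) * X + 1) * (-1 - X + X ^ 7 + X ^ 8) := by
  simp only [C_1, C_neg]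
  linear_combination (0) * h3

theorem case24 {F : Type*} [Field F] (h3 : (3 : F[X]) = 0) :
    (X ^ 13 + 1 : F[X]) = (X ^ 6 + C (-1 : F) * X ^ 5 + C (-1 : F) * X ^ 4 + C (0 : F) * X ^ 3 + C (-1 : F) * X ^ 2 + C (-1 : F) * X + 1) * (1 + X - X ^ 2 - X ^ 5 + X ^ 6 + X ^ 7) := by
  simp only [C_0, C_1, C_neg]
  linear_combination (X ^ 2 + X ^ 5 - X ^ 6 - X ^ 7 + X ^ 8 + X ^ 11) * h3

theorem case25 {F : Type*} [Field F] (h3 : (3 : F[X]) = 0) :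
    (X ^ 20 - 1 : F[X]) = (X ^ 6 + C (-1 : F) * X ^ 5 + C (-1 : F) * X ^ 4 + C (1 : F) * X ^ 3 + C (-1 : F) * X ^ 2 + C (-1 : F) * X + 1) * (-1 - X + X ^ 2 + X ^ 3 - X ^ 4 - X ^ 6 + X ^ 8 + X ^ 10 - X ^ 11 - X ^ 12 + X ^ 13 + X ^ 14) := by
  simp only [C_1, C_neg]
  linear_combination (-X ^ 2 + X ^ 4 - X ^ 5 + X ^ 7 - X ^ 8 + X ^ 12 - X ^ 13 + X ^ 15 - X ^ 16 + X ^ 18) * h3

theorem case26 {F : Type*} [Field F] (h3 : (3 : F[X]) = 0) :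
    (X ^ 36 - 1 : F[X]) = (X ^ 6 + C (-1 : F) * X ^ 5 + C (-1 : F) * X ^ 4 + C (-1 : F) * X ^ 3 + C (-1 : F) * X ^ 2 + C (-1 : F) * X + 1) * (-1 - X + X ^ 2 - X ^ 3 + X ^ 4 - X ^ 5 + X ^ 7 - X ^ 8 + X ^ 9 - X ^ 10 + X ^ 11 + X ^ 12 - X ^ 18 - X ^ 19 + X ^ 20 - X ^ 21 + X ^ 22 - X ^ 23 + X ^ 25 - X ^ 26 + X ^ 27 - X ^ 28 + X ^ 29 + X ^ 30) := by
  simp only [C_1, C_neg]
  linear_combination (-X ^ 2 - X ^ 4 + X ^ 14 + X ^ 16 - X ^ 20 - X ^ 22 + X ^ 32 + X ^ 34) * h3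

theorem pow_cases {F : Type*} [Field F] {n : Type*} [Fintype n] [DecidableEq n] (h3 : (3 : F) = 0)
    (A : Matrix n n F) (a b c : F)
    (ha : a = 0 ∨ a = 1 ∨ a = -1) (hb : b = 0 ∨ b = 1 ∨ b = -1) (hc : c = 0 ∨ c = 1 ∨ c = -1)
    (hP : aeval A (X ^ 6 + C a * X ^ 5 + C b * X ^ 4 + C c * X ^ 3 + C b * X ^ 2 + C a * X + 1 : F[X]) = 0) :
    A ^ 24 = 1 ∨ A ^ 36 = 1 ∨ A ^ 30 = 1 ∨ A ^ 20 = 1 ∨ A ^ 14 = 1 ∨ A ^ 14 = -1 ∨ A ^ 13 = 1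
      ∨ A ^ 13 = -1 := by
  have h3' : (3 : F[X]) = 0 := by
    have h : (3 : F[X]) = C (3 : F) := (map_ofNat C 3).symm
    rw [h, h3, C_0]
  have pos : ∀ (N : ℕ) (Q : F[X]), (X ^ N - 1 : F[X]) = (X ^ 6 + C a * X ^ 5 + C b * X ^ 4 + C c * X ^ 3 + C b * X ^ 2 + C a * X + 1) * Q → A ^ N = 1 := by
    intro N Q key
    have h := congrArg (aeval A) key
    rw [map_mul, hP, zero_mul] at h
    simp only [map_sub, map_pow, aeval_X, map_one] at h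
    exact sub_eq_zero.1 h
  have neg : ∀ (N : ℕ) (Q : F[X]), (X ^ N + 1 : F[X]) = (X ^ 6 + C a * X ^ 5 + C b * X ^ 4 + C c * X ^ 3 + C b * X ^ 2 + C a * X + 1) * Q → A ^ N = -1 := by
    intro N Q key
    have h := congrArg (aeval A) key
    rw [map_mul, hP, zero_mul] at h
    simp only [map_add, map_pow, aeval_X, map_one] at h
    exact eq_neg_of_add_eq_zero_left h
  rcases ha with rfl | rfl | rfl <;> rcases hb with rfl | rfl | rfl <;> rcases hc with rfl | rfl | rfl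
  · exact Or.inl (pos 24 _ (case0 h3'))
  · exact Or.inr (Or.inl (pos 36 _ (case1 h3')))
  · exact Or.inr (Or.inl (pos 36 _ (case2 h3')))
  · exact Or.inl (pos 24 _ (case3 h3'))
  · exact Or.inr (Or.inr (Or.inl (pos 30 _ (case4 h3'))))
  · exact Or.inr (Or.inr (Or.inl (pos 30 _ (case5 h3'))))
  · exact Or.inl (pos 24 _ (case6 h3'))
  · exact Or.inr (Or.inr (Or.inr (Or.inr (Or.inr (Or.inr (Or.inr (neg 13 _ (case7 h3'))))))))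
  · exact Or.inr (Or.inr (Or.inr (Or.inr (Or.inr (Or.inr (Or.inl (pos 13 _ (case8 h3'))))))))
  · exact Or.inr (Or.inr (Or.inl (pos 30 _ (case9 h3'))))
  · exact Or.inr (Or.inr (Or.inr (Or.inr (Or.inr (Or.inl (neg 14 _ (case10 h3')))))))
  · exact Or.inl (pos 24 _ (case11 h3'))
  · exact Or.inl (pos 24 _ (case12 h3'))
  · exact Or.inr (Or.inr (Or.inr (Or.inr (Or.inl (pos 14 _ (case13 h3'))))))
  · exact Or.inr (Or.inl (pos 36 _ (case14 h3')))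
  · exact Or.inr (Or.inr (Or.inr (Or.inr (Or.inr (Or.inr (Or.inl (pos 13 _ (case15 h3'))))))))
  · exact Or.inr (Or.inl (pos 36 _ (case16 h3')))
  · exact Or.inr (Or.inr (Or.inr (Or.inl (pos 20 _ (case17 h3')))))
  · exact Or.inr (Or.inr (Or.inl (pos 30 _ (case18 h3'))))
  · exact Or.inl (pos 24 _ (case19 h3'))
  · exact Or.inr (Or.inr (Or.inr (Or.inr (Or.inr (Or.inl (neg 14 _ (case20 h3')))))))
  · exact Or.inl (pos 24 _ (case21 h3'))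
  · exact Or.inr (Or.inl (pos 36 _ (case22 h3')))
  · exact Or.inr (Or.inr (Or.inr (Or.inr (Or.inl (pos 14 _ (case23 h3'))))))
  · exact Or.inr (Or.inr (Or.inr (Or.inr (Or.inr (Or.inr (Or.inr (neg 13 _ (case24 h3'))))))))
  · exact Or.inr (Or.inr (Or.inr (Or.inl (pos 20 _ (case25 h3')))))
  · exact Or.inr (Or.inl (pos 36 _ (case26 h3')))

/-- Orders of symplectic `6 × 6` matrices over the field with three elements. -/
theorem sp_pow {F : Type*} [Field F] [Fintype F] (hF : Fintype.card F = 3)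
    (A : Matrix (Fin 3 ⊕ Fin 3) (Fin 3 ⊕ Fin 3) F) (hA : A ∈ symplecticGroup (Fin 3) F) :
    A ^ 24 = 1 ∨ A ^ 36 = 1 ∨ A ^ 30 = 1 ∨ A ^ 20 = 1 ∨ A ^ 14 = 1 ∨ A ^ 14 = -1 ∨ A ^ 13 = 1
      ∨ A ^ 13 = -1 := by
  obtain ⟨a, b, c, hP⟩ := charpoly_form A hA
  have h0 := Matrix.aeval_self_charpoly A
  rw [hP] at h0
  exact pow_cases (three_eq_zero hF) A a b c (elem_cases hF a) (elem_cases hF b) (elem_cases hF c) h0

/-- A symplectic matrix equal to `-1` is central. -/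
theorem mem_center_of_neg_one {F : Type*} [Field F] (g : symplecticGroup (Fin 3) F)
    (hg : (g : Matrix (Fin 3 ⊕ Fin 3) (Fin 3 ⊕ Fin 3) F) = -1) :
    g ∈ Subgroup.center (symplecticGroup (Fin 3) F) := by
  rw [Subgroup.mem_center_iff]
  intro y
  apply Subtype.ext
  rw [Submonoid.coe_mul, Submonoid.coe_mul, hg]
  simp

/-- Element orders in `PSp(6,3)`. -/
theorem psp_pow {F : Type*} [Field F] [Fintype F] (hF : Fintype.card F = 3) (x : Cfsg.PSp 3 F) :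
    x ^ 24 = 1 ∨ x ^ 36 = 1 ∨ x ^ 30 = 1 ∨ x ^ 20 = 1 ∨ x ^ 14 = 1 ∨ x ^ 13 = 1 := by
  obtain ⟨g, rfl⟩ := QuotientGroup.mk_surjective x
  have h := sp_pow hF g.1 g.2
  have pos : ∀ N : ℕ, (g : Matrix (Fin 3 ⊕ Fin 3) (Fin 3 ⊕ Fin 3) F) ^ N = 1 →
      (QuotientGroup.mk g : Cfsg.PSp 3 F) ^ N = 1 := by
    intro N hN
    have h1 : g ^ N = 1 := Subtype.ext (by rw [SubmonoidClass.coe_pow, hN]; rfl)
    rw [← QuotientGroup.mk_pow, h1]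
    rfl
  have neg : ∀ N : ℕ, (g : Matrix (Fin 3 ⊕ Fin 3) (Fin 3 ⊕ Fin 3) F) ^ N = -1 →
      (QuotientGroup.mk g : Cfsg.PSp 3 F) ^ N = 1 := by
    intro N hN
    rw [← QuotientGroup.mk_pow, QuotientGroup.eq_one_iff]
    exact mem_center_of_neg_one _ (by rw [SubmonoidClass.coe_pow, hN])
  rcases h with h | h | h | h | h | h | h | h
  · exact Or.inl (pos _ h)
  · exact Or.inr (Or.inl (pos _ h))
  · exact Or.inr (Or.inr (Or.inl (pos _ h)))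
  · exact Or.inr (Or.inr (Or.inr (Or.inl (pos _ h))))
  · exact Or.inr (Or.inr (Or.inr (Or.inr (Or.inl (pos _ h)))))
  · exact Or.inr (Or.inr (Or.inr (Or.inr (Or.inl (neg _ h)))))
  · exact Or.inr (Or.inr (Or.inr (Or.inr (Or.inr (pos _ h)))))
  · exact Or.inr (Or.inr (Or.inr (Or.inr (Or.inr (neg _ h)))))

/-- Lifting a witness over `ZMod 3` to an element of `PSp(6,F)` of the same projective order. -/
theorem exists_orderOf {F : Type*} [Field F] (f : ZMod 3 →+* F) (g : Sp63W.M6)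
    (hg : g ∈ symplecticGroup (Fin 3) (ZMod 3)) (n : ℕ) (hn : 0 < n)
    (hpow : g ^ n = 1 ∨ g ^ n = -1)
    (hnc : ∀ q : ℕ, q.Prime → q ∣ n →
      ∃ h ∈ symplecticGroup (Fin 3) (ZMod 3), g ^ (n / q) * h ≠ h * g ^ (n / q)) :
    ∃ x : Cfsg.PSp 3 F, orderOf x = n := by
  let w : symplecticGroup (Fin 3) F := ⟨g.map f, SymplecticGroup.map_mem hg f⟩
  have hwpow : ∀ k : ℕ, ((w ^ k : symplecticGroup (Fin 3) F) :
      Matrix (Fin 3 ⊕ Fin 3) (Fin 3 ⊕ Fin 3) F) = (g ^ k).map f := by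
    intro k
    rw [SubmonoidClass.coe_pow]
    show (f.mapMatrix g) ^ k = f.mapMatrix (g ^ k)
    rw [map_pow]
  refine ⟨QuotientGroup.mk w, orderOf_eq_of_pow_and_pow_div_prime hn ?_ ?_⟩
  · rw [← QuotientGroup.mk_pow, QuotientGroup.eq_one_iff]
    rcases hpow with h | h
    · have h1 : w ^ n = 1 := Subtype.ext (by
        rw [hwpow, h]
        exact Matrix.map_one f f.map_zero f.map_one)
      rw [h1]
      exact one_mem _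
    · refine mem_center_of_neg_one _ ?_
      rw [hwpow, h]
      show f.mapMatrix (-1) = -1
      rw [map_neg, map_one]
  · intro q hq hqn hcon
    rw [← QuotientGroup.mk_pow, QuotientGroup.eq_one_iff, Subgroup.mem_center_iff] at hcon
    obtain ⟨h, hh, hne⟩ := hnc q hq hqn
    apply hne
    have h1 := hcon ⟨h.map f, SymplecticGroup.map_mem hh f⟩
    have h2 := congrArg (fun z : symplecticGroup (Fin 3) F =>
      (z : Matrix (Fin 3 ⊕ Fin 3) (Fin 3 ⊕ Fin 3) F)) h1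
    simp only [Submonoid.coe_mul, hwpow] at h2
    rw [← Matrix.map_mul, ← Matrix.map_mul] at h2
    exact (Matrix.map_injective f.injective h2).symm

theorem exists_hom {F : Type*} [Field F] [Fintype F] (hF : Fintype.card F = 3) :
    Nonempty (ZMod 3 →+* F) := by
  haveI : CharP F 3 := (CharP.charP_iff_prime_eq_zero Nat.prime_three).2 (by
    exact_mod_cast three_eq_zero hF)
  exact ⟨ZMod.castHom (dvd_refl 3) F⟩

theorem exists_orderOf_30 {F : Type*} [Field F] [Fintype F] (hF : Fintype.card F = 3) :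
    ∃ x : Cfsg.PSp 3 F, orderOf x = 30 := by
  obtain ⟨f⟩ := exists_hom hF
  refine exists_orderOf f Sp63W.g30 Sp63W.g30_mem 30 (by norm_num) (Or.inl Sp63W.g30_pow_eq) ?_
  intro q hq hqn
  have hq' : q = 2 ∨ q = 3 ∨ q = 5 := by
    have hle := Nat.le_of_dvd (by norm_num) hqn
    interval_cases q <;> revert hq hqn <;> decide
  rcases hq' with rfl | rfl | rfl
  · exact ⟨Sp63W.h0, Sp63W.h0_mem, Sp63W.g30_nc15⟩
  · exact ⟨Sp63W.h0, Sp63W.h0_mem, Sp63W.g30_nc10⟩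
  · exact ⟨Sp63W.h0, Sp63W.h0_mem, Sp63W.g30_nc6⟩

theorem exists_orderOf_14 {F : Type*} [Field F] [Fintype F] (hF : Fintype.card F = 3) :
    ∃ x : Cfsg.PSp 3 F, orderOf x = 14 := by
  obtain ⟨f⟩ := exists_hom hF
  refine exists_orderOf f Sp63W.g14 Sp63W.g14_mem 14 (by norm_num) (Or.inr Sp63W.g14_pow_eq) ?_
  intro q hq hqn
  have hq' : q = 2 ∨ q = 7 := by
    have hle := Nat.le_of_dvd (by norm_num) hqn
    interval_cases q <;> revert hq hqn <;> decide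
  rcases hq' with rfl | rfl
  · exact ⟨Sp63W.h0, Sp63W.h0_mem, Sp63W.g14_nc7⟩
  · exact ⟨Sp63W.h0, Sp63W.h0_mem, Sp63W.g14_nc2⟩

theorem exists_orderOf_13 {F : Type*} [Field F] [Fintype F] (hF : Fintype.card F = 3) :
    ∃ x : Cfsg.PSp 3 F, orderOf x = 13 := by
  obtain ⟨f⟩ := exists_hom hF
  refine exists_orderOf f Sp63W.g13 Sp63W.g13_mem 13 (by norm_num) (Or.inr Sp63W.g13_pow_eq) ?_
  intro q hq hqn
  have hq' : q = 13 := by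
    have hle := Nat.le_of_dvd (by norm_num) hqn
    interval_cases q <;> revert hq hqn <;> decide
  subst hq'
  refine ⟨Sp63W.h0, Sp63W.h0_mem, ?_⟩
  have h := Sp63W.g13_nc1
  simpa using h

end Cfsg.Agent.Lib.Helper61.Sp63
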