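import Mathlib
import Cfsg.Agent.Lib.Helper61.TitsG
import Cfsg.Agent.Lib.Helper61.T2Stmt

/-!
# S2197: the element data of the Tits group `K` (structure `T2Stmt.Dat`)

Explicit words in the generators of `K = ⟨tlU 0, tlU 1⟩`: `w` of order 6 normalising `⟨x⟩`
(`x = tlU 0` of order 13), `a ∈ C(w^2)`, `b ∈ C(w^3)` of order 3, the central involution `z` of the
point stabiliser `H1`, commuting `q, r` of order 5, `y` of order 3 normalising `⟨q, r⟩`,
`c ∈ C(y)` of order 3, and words expressing the generators in each generating set.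
-/

set_option autoImplicit false

namespace Cfsg.Agent.Lib.Helper61.T2Data

open Cfsg.Agent.Lib.Helper61.F2Fast Cfsg.Agent.Lib.Helper61.TitsData
open Cfsg.Agent.Lib.Helper61.TitsMain Cfsg.Agent.Lib.Helper61.TitsLvl
open Cfsg.Agent.Lib.Helper61.TitsRes Cfsg.Agent.Lib.Helper61.TitsId
open Cfsg.Agent.Lib.Helper61.TitsGrp Cfsg.Agent.Lib.Helper61.TitsSimp
open Cfsg.Agent.Lib.Helper61.TitsG
open Cfsg.Agent.Lib.Helper61.T2Stmt

/-! ### words -/

def Wx : List ℕ := [0]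
def Wxi : List ℕ := [2]
def Ww : List ℕ := [1, 2, 3, 2, 2, 2, 2, 3, 2, 2, 1, 0, 1, 0, 0, 3]
def Wwi : List ℕ := [1, 2, 2, 3, 2, 3, 0, 0, 1, 0, 0, 0, 0, 1, 0, 3]
def Wa : List ℕ := [0, 0, 0, 3, 3, 3, 0, 1, 0, 3, 3, 0, 0]
def Wai : List ℕ := [2, 2, 1, 1, 2, 3, 2, 1, 1, 1, 2, 2, 2]
def Wb : List ℕ := [3, 2, 2, 1, 0, 0, 0, 1, 0, 3, 3, 2, 2, 1, 0, 0, 0, 1, 0, 3]
def Wbi : List ℕ := [1, 2, 3, 2, 2, 2, 3, 0, 0, 1, 1, 2, 3, 2, 2, 2, 3, 0, 0, 1]
def Wq : List ℕ := [8]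
def Wqi : List ℕ := [10]
def Wr : List ℕ := [3, 0, 3, 3, 3, 3, 2, 1, 0, 0, 3, 0, 0]
def Wri : List ℕ := [2, 2, 1, 2, 2, 3, 0, 1, 1, 1, 1, 2, 1]
def Wy : List ℕ := [1, 2, 1, 0, 0, 1, 1, 1, 1, 1, 0, 0, 1, 2, 3, 0, 1, 0, 1]
def Wyi : List ℕ := [3, 2, 3, 2, 1, 0, 3, 2, 2, 3, 3, 3, 3, 3, 2, 2, 3, 0, 3]
def Wc : List ℕ := [3, 0, 0, 1, 1, 0, 1, 1, 0, 3, 3, 0, 1]
def Wci : List ℕ := [3, 2, 1, 1, 2, 3, 3, 2, 3, 3, 2, 2, 1]
def Wz : List ℕ := [7, 10, 10, 6, 5, 4]

/-- the table of the generators and their inverses -/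
def tbl (i : ℕ) : List ℕ := [Wx, Wxi, Ww, Wwi, Wa, Wai, Wb, Wbi, Wq, Wqi, Wr, Wri, Wy, Wyi, Wc, Wci].getD i []

def G1_z : List ℕ := [5, 0, 0, 0, 5, 0, 5, 1, 4, 1, 4, 3, 1, 1, 4]
def G2_z : List ℕ := [7, 3, 0, 0, 7, 3, 0, 6, 0, 6, 0, 6]
def G3_x : List ℕ := [3, 3, 3, 7, 5, 6, 2, 5, 6, 4, 7, 4, 3, 7, 4, 6]
def G3_z : List ℕ := [5, 2, 5, 7, 3, 5, 7, 3, 4, 7, 4, 7, 4, 7, 4, 2]
def G4_x : List ℕ := [9, 10, 14, 10, 15, 8, 15, 11, 15, 10]
def G4_z : List ℕ := [15, 11, 14, 9, 15, 10, 15, 9, 14, 11, 11]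

/-! ### elements of `K` given by words -/

/-- all letters of the word are letters of `K` -/
def okw (w : List ℕ) : Bool := w.all (fun l => decide (l < 11))

theorem okw_append (u v : List ℕ) : okw (u ++ v) = (okw u && okw v) := by
  unfold okw
  rw [List.all_append]

/-- the element of `K` given by a word (`1` if a letter is out of range) -/
noncomputable def kw (w : List ℕ) : ↥K :=
  if h : okw w = true then ⟨wp tlU w, wK h⟩ else 1

theorem kw_val {w : List ℕ} (h : okw w = true) : ((kw w : ↥K) : GLt) = wp tlU w := by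
  unfold kw
  rw [dif_pos h]

theorem kw_nil : kw [] = 1 := by
  apply Subtype.ext
  rw [kw_val rfl, wp_nil, Subgroup.coe_one]

theorem kw_mul {u v : List ℕ} (hu : okw u = true) (hv : okw v = true) :
    kw u * kw v = kw (u ++ v) := by
  apply Subtype.ext
  rw [Subgroup.coe_mul, kw_val hu, kw_val hv, kw_val (by rw [okw_append, hu, hv]; rfl), wp_append]

theorem kw_eq {u v : List ℕ} (h : (okw u && okw v && idchk u v) = true) : kw u = kw v := by
  rw [Bool.and_eq_true, Bool.and_eq_true] at h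
  apply Subtype.ext
  rw [kw_val h.1.1, kw_val h.1.2]
  exact idchk_sound h.2

theorem kw_ne {u v : List ℕ}
    (h : (okw u && okw v && !(Nat.beq (fmvW ttab u 1) (fmvW ttab v 1))) = true) : kw u ≠ kw v := by
  rw [Bool.and_eq_true, Bool.and_eq_true] at h
  obtain ⟨⟨hu, hv⟩, hne⟩ := h
  intro e
  have e' : wp tlU u = wp tlU v := by rw [← kw_val hu, ← kw_val hv, e]
  have h1 := tw_sound u 1 (by norm_num)
  rw [e', ← tw_sound v 1 (by norm_num)] at h1
  have h3 := vecOf_inj_lt (fmvW_lt _ _ _ (by norm_num)) (fmvW_lt _ _ _ (by norm_num)) h1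
  rw [h3, Nat.beq_refl] at hne
  exact Bool.noConfusion hne

/-- word power -/
def wpow (w : List ℕ) : ℕ → List ℕ
  | 0 => []
  | n + 1 => w ++ wpow w n

theorem okw_wpow {w : List ℕ} (h : okw w = true) (n : ℕ) : okw (wpow w n) = true := by
  induction n with
  | zero => rfl
  | succ n ih =>
    show okw (w ++ wpow w n) = true
    rw [okw_append, h, ih]
    rfl

theorem kw_pow {w : List ℕ} (h : okw w = true) (n : ℕ) : kw w ^ n = kw (wpow w n) := by
  induction n with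
  | zero =>
    rw [pow_zero]
    exact kw_nil.symm
  | succ n ih =>
    rw [pow_succ', ih, kw_mul h (okw_wpow h n)]
    rfl

theorem hx : okw Wx = true := by decide
theorem hw : okw Ww = true := by decide
theorem ha : okw Wa = true := by decide
theorem hb : okw Wb = true := by decide
theorem hq : okw Wq = true := by decide
theorem hr : okw Wr = true := by decide
theorem hy : okw Wy = true := by decide
theorem hc : okw Wc = true := by decide
theorem hz : okw Wz = true := by decide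

/-- a subgroup of `K` containing the two generators is everything -/
theorem top_of (H : Subgroup ↥K) (h0 : kw [0] ∈ H) (h1 : kw [1] ∈ H) : H = ⊤ := by
  have hle : K ≤ H.map K.subtype := by
    unfold K
    rw [Subgroup.closure_le]
    rintro g (rfl | rfl)
    · refine ⟨_, h0, ?_⟩
      rw [Subgroup.coe_subtype, kw_val (by decide), wp_cons, wp_nil, mul_one]
    · refine ⟨_, h1, ?_⟩
      rw [Subgroup.coe_subtype, kw_val (by decide), wp_cons, wp_nil, mul_one]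
  rw [eq_top_iff]
  intro k _
  obtain ⟨n, hn, e⟩ := hle k.2
  have : n = k := Subtype.ext e
  exact this ▸ hn

/-- products of table words -/
theorem mem_flat (H : Subgroup ↥K) (S idx : List ℕ)
    (hS : ∀ i ∈ S, okw (tbl i) = true ∧ kw (tbl i) ∈ H) (hidx : ∀ i ∈ idx, i ∈ S) :
    okw (idx.flatMap tbl) = true ∧ kw (idx.flatMap tbl) ∈ H := by
  induction idx with
  | nil =>
    refine ⟨rfl, ?_⟩
    rw [List.flatMap_nil, kw_nil]
    exact H.one_mem
  | cons i idx ih =>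
    have h1 := hS i (hidx i List.mem_cons_self)
    have h2 := ih (fun j hj => hidx j (List.mem_cons_of_mem _ hj))
    rw [List.flatMap_cons]
    refine ⟨by rw [okw_append, h1.1, h2.1]; rfl, ?_⟩
    rw [← kw_mul h1.1 h2.1]
    exact H.mul_mem h1.2 h2.2

/-- generation through a word for each of the two generators -/
theorem top_of_words (H : Subgroup ↥K) (S i0 i1 : List ℕ)
    (hS : ∀ i ∈ S, okw (tbl i) = true ∧ kw (tbl i) ∈ H)
    (h0 : ∀ i ∈ i0, i ∈ S) (h1 : ∀ i ∈ i1, i ∈ S)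
    (e0 : idchk [0] (i0.flatMap tbl) = true) (e1 : idchk [1] (i1.flatMap tbl) = true) :
    H = ⊤ := by
  obtain ⟨o0, m0⟩ := mem_flat H S i0 hS h0
  obtain ⟨o1, m1⟩ := mem_flat H S i1 hS h1
  have k0 : kw [0] = kw (i0.flatMap tbl) := kw_eq (by rw [o0, e0]; rfl)
  have k1 : kw [1] = kw (i1.flatMap tbl) := kw_eq (by rw [o1, e1]; rfl)
  have m0' : kw [0] ∈ H := by
    rw [k0]
    exact m0
  have m1' : kw [1] ∈ H := by
    rw [k1]
    exact m1
  exact top_of H m0' m1'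

/-- inverse words -/
theorem kw_inv {u v : List ℕ} (h : (okw (u ++ v) && okw [] && idchk (u ++ v) []) = true)
    (hu : okw u = true) (hv : okw v = true) : kw v = (kw u)⁻¹ := by
  apply eq_inv_of_mul_eq_one_right
  rw [kw_mul hu hv, kw_eq h, kw_nil]

theorem inv0 : kw (tbl 1) = (kw (tbl 0))⁻¹ := kw_inv (by decide +kernel) (by decide) (by decide)
theorem inv1 : kw (tbl 3) = (kw (tbl 2))⁻¹ := kw_inv (by decide +kernel) (by decide) (by decide)
theorem inv2 : kw (tbl 5) = (kw (tbl 4))⁻¹ := kw_inv (by decide +kernel) (by decide) (by decide)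
theorem inv3 : kw (tbl 7) = (kw (tbl 6))⁻¹ := kw_inv (by decide +kernel) (by decide) (by decide)
theorem inv4 : kw (tbl 9) = (kw (tbl 8))⁻¹ := kw_inv (by decide +kernel) (by decide) (by decide)
theorem inv5 : kw (tbl 11) = (kw (tbl 10))⁻¹ := kw_inv (by decide +kernel) (by decide) (by decide)
theorem inv6 : kw (tbl 13) = (kw (tbl 12))⁻¹ := kw_inv (by decide +kernel) (by decide) (by decide)
theorem inv7 : kw (tbl 15) = (kw (tbl 14))⁻¹ := kw_inv (by decide +kernel) (by decide) (by decide)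

/-- membership of a generator and its inverse -/
theorem pair_mem (H : Subgroup ↥K) (j : ℕ) (hinv : kw (tbl (2 * j + 1)) = (kw (tbl (2 * j)))⁻¹)
    (o1 : okw (tbl (2 * j)) = true) (o2 : okw (tbl (2 * j + 1)) = true)
    (hm : kw (tbl (2 * j)) ∈ H) :
    (okw (tbl (2 * j)) = true ∧ kw (tbl (2 * j)) ∈ H) ∧
      (okw (tbl (2 * j + 1)) = true ∧ kw (tbl (2 * j + 1)) ∈ H) :=
  ⟨⟨o1, hm⟩, o2, by rw [hinv]; exact H.inv_mem hm⟩

/-! ### generic group lemmas -/

theorem conj_pow_mem {G : Type*} [Group G] (x w : G) (h : w * x * w⁻¹ ∈ Subgroup.zpowers x)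
    (k : ℕ) : w ^ k * x * (w ^ k)⁻¹ ∈ Subgroup.zpowers x := by
  have key : ∀ y ∈ Subgroup.zpowers x, w * y * w⁻¹ ∈ Subgroup.zpowers x := by
    intro y hy
    obtain ⟨n, rfl⟩ := Subgroup.mem_zpowers_iff.mp hy
    rw [← conj_zpow]
    exact Subgroup.zpow_mem _ h n
  induction k with
  | zero =>
    rw [pow_zero, one_mul, inv_one, mul_one]
    exact Subgroup.mem_zpowers x
  | succ k ih =>
    have e : w ^ (k + 1) * x * (w ^ (k + 1))⁻¹ = w * (w ^ k * x * (w ^ k)⁻¹) * w⁻¹ := by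
      rw [pow_succ']
      group
    rw [e]
    exact key _ ih

theorem odd_of_pow3 {G : Type*} [Group G] (b : G) (h : b ^ 3 = 1) : Odd (orderOf b) := by
  have hd : orderOf b ∣ 3 := orderOf_dvd_of_pow_eq_one h
  rcases (Nat.dvd_prime (by norm_num : Nat.Prime 3)).mp hd with h | h
  · rw [h]; decide
  · rw [h]; decide

theorem inv_conj_of_cube {G : Type*} [Group G] (y q : G) (h : y * y * y = 1) :
    y⁻¹ * q * y = y * (y * q * y⁻¹) * y⁻¹ := by
  have h1 : y * y = y⁻¹ := (inv_eq_of_mul_eq_one_left h).symm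
  have h2 : y⁻¹ * y⁻¹ = y := by rw [← mul_inv_rev, h1, inv_inv]
  calc y⁻¹ * q * y = (y * y) * q * (y⁻¹ * y⁻¹) := by rw [h1, h2]
    _ = y * (y * q * y⁻¹) * y⁻¹ := by group

/-! ### the normaliser of `⟨x⟩` -/

theorem x13' : kw Wx ^ 13 = 1 := by
  rw [kw_pow hx, ← kw_nil]
  exact kw_eq (by decide +kernel)

theorem x_ne' : kw Wx ≠ 1 := by
  rw [← kw_nil]
  exact kw_ne (by decide +kernel)

theorem w_conj : kw Ww * kw Wx = kw Wx ^ 4 * kw Ww := by
  rw [kw_pow hx, kw_mul hw hx, kw_mul (okw_wpow hx 4) hw]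
  exact kw_eq (by decide +kernel)

theorem w6 : kw Ww ^ 6 = 1 := by
  rw [kw_pow hw, ← kw_nil]
  exact kw_eq (by decide +kernel)

theorem w_nc2 : kw Ww ^ 2 * kw Wx ≠ kw Wx * kw Ww ^ 2 := by
  rw [kw_pow hw, kw_mul (okw_wpow hw 2) hx, kw_mul hx (okw_wpow hw 2)]
  exact kw_ne (by decide +kernel)

theorem w_nc3 : kw Ww ^ 3 * kw Wx ≠ kw Wx * kw Ww ^ 3 := by
  rw [kw_pow hw, kw_mul (okw_wpow hw 3) hx, kw_mul hx (okw_wpow hw 3)]
  exact kw_ne (by decide +kernel)

theorem n13 : N13 (kw Wx) (kw Ww) := by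
  have hconj : kw Ww * kw Wx * (kw Ww)⁻¹ ∈ Subgroup.zpowers (kw Wx) := by
    rw [w_conj, mul_inv_cancel_right]
    exact Subgroup.pow_mem _ (Subgroup.mem_zpowers _) 4
  have e : (kw Ww)⁻¹ = kw Ww ^ 5 := by
    apply inv_eq_of_mul_eq_one_left
    rw [← pow_succ]
    exact w6
  refine ⟨?_, conj_pow_mem _ _ hconj, ?_, w6, w_nc2, w_nc3⟩
  · haveI : Fact (Nat.Prime 13) := ⟨by norm_num⟩
    exact orderOf_eq_prime x13' x_ne'
  · have h5 := conj_pow_mem _ _ hconj 5
    have e2 : (kw Ww ^ 5)⁻¹ = kw Ww := by rw [← e, inv_inv]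
    rw [e2] at h5
    rw [e]
    exact h5

theorem a_comm : kw Wa * kw Ww ^ 2 = kw Ww ^ 2 * kw Wa := by
  rw [kw_pow hw, kw_mul ha (okw_wpow hw 2), kw_mul (okw_wpow hw 2) ha]
  exact kw_eq (by decide +kernel)

theorem b_comm : kw Wb * kw Ww ^ 3 = kw Ww ^ 3 * kw Wb := by
  rw [kw_pow hw, kw_mul hb (okw_wpow hw 3), kw_mul (okw_wpow hw 3) hb]
  exact kw_eq (by decide +kernel)

theorem b3 : kw Wb ^ 3 = 1 := by
  rw [kw_pow hb, ← kw_nil]
  exact kw_eq (by decide +kernel)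

theorem g1_chk : idchk [0] ([0].flatMap tbl) = true := by decide +kernel
theorem g1z_chk : idchk [1] (G1_z.flatMap tbl) = true := by decide +kernel
theorem g2z_chk : idchk [1] (G2_z.flatMap tbl) = true := by decide +kernel
theorem g3x_chk : idchk [0] (G3_x.flatMap tbl) = true := by decide +kernel
theorem g3z_chk : idchk [1] (G3_z.flatMap tbl) = true := by decide +kernel
theorem g4x_chk : idchk [0] (G4_x.flatMap tbl) = true := by decide +kernel
theorem g4z_chk : idchk [1] (G4_z.flatMap tbl) = true := by decide +kernel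

theorem gen1 : Subgroup.closure (({kw Wx, kw Ww} : Set ↥K) ∪ {kw Wa, kw Ww}) = ⊤ := by
  set H := Subgroup.closure (({kw Wx, kw Ww} : Set ↥K) ∪ {kw Wa, kw Ww}) with hH
  have mx : kw Wx ∈ H := Subgroup.subset_closure (Or.inl (Or.inl rfl))
  have mw : kw Ww ∈ H := Subgroup.subset_closure (Or.inl (Or.inr rfl))
  have ma : kw Wa ∈ H := Subgroup.subset_closure (Or.inr (Or.inl rfl))
  have p0 := pair_mem H 0 inv0 (by decide) (by decide) mx
  have p1 := pair_mem H 1 inv1 (by decide) (by decide) mw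
  have p2 := pair_mem H 2 inv2 (by decide) (by decide) ma
  refine top_of_words H [0, 1, 2, 3, 4, 5] [0] G1_z ?_ (by decide) (by decide) g1_chk g1z_chk
  intro i hi
  simp only [List.mem_cons, List.mem_nil_iff, or_false] at hi
  rcases hi with rfl | rfl | rfl | rfl | rfl | rfl
  · exact p0.1
  · exact p0.2
  · exact p1.1
  · exact p1.2
  · exact p2.1
  · exact p2.2

theorem gen2 : Subgroup.closure (({kw Wx, kw Ww} : Set ↥K) ∪ {kw Wb}) = ⊤ := by
  set H := Subgroup.closure (({kw Wx, kw Ww} : Set ↥K) ∪ {kw Wb}) with hH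
  have mx : kw Wx ∈ H := Subgroup.subset_closure (Or.inl (Or.inl rfl))
  have mw : kw Ww ∈ H := Subgroup.subset_closure (Or.inl (Or.inr rfl))
  have mb : kw Wb ∈ H := Subgroup.subset_closure (Or.inr rfl)
  have p0 := pair_mem H 0 inv0 (by decide) (by decide) mx
  have p1 := pair_mem H 1 inv1 (by decide) (by decide) mw
  have p3 := pair_mem H 3 inv3 (by decide) (by decide) mb
  refine top_of_words H [0, 1, 2, 3, 6, 7] [0] G2_z ?_ (by decide) (by decide) g1_chk g2z_chk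
  intro i hi
  simp only [List.mem_cons, List.mem_nil_iff, or_false] at hi
  rcases hi with rfl | rfl | rfl | rfl | rfl | rfl
  · exact p0.1
  · exact p0.2
  · exact p1.1
  · exact p1.2
  · exact p3.1
  · exact p3.2

theorem gen3 : Subgroup.closure (({kw Wa, kw Ww} : Set ↥K) ∪ {kw Wb}) = ⊤ := by
  set H := Subgroup.closure (({kw Wa, kw Ww} : Set ↥K) ∪ {kw Wb}) with hH
  have ma : kw Wa ∈ H := Subgroup.subset_closure (Or.inl (Or.inl rfl))
  have mw : kw Ww ∈ H := Subgroup.subset_closure (Or.inl (Or.inr rfl))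
  have mb : kw Wb ∈ H := Subgroup.subset_closure (Or.inr rfl)
  have p1 := pair_mem H 1 inv1 (by decide) (by decide) mw
  have p2 := pair_mem H 2 inv2 (by decide) (by decide) ma
  have p3 := pair_mem H 3 inv3 (by decide) (by decide) mb
  refine top_of_words H [2, 3, 4, 5, 6, 7] G3_x G3_z ?_ (by decide) (by decide) g3x_chk g3z_chk
  intro i hi
  simp only [List.mem_cons, List.mem_nil_iff, or_false] at hi
  rcases hi with rfl | rfl | rfl | rfl | rfl | rfl
  · exact p1.1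
  · exact p1.2
  · exact p2.1
  · exact p2.2
  · exact p3.1
  · exact p3.2

theorem dat_n13 : ∃ x w : ↥K, N13 x w ∧ ∃ A B : Set ↥K, (∀ a ∈ A, a * w ^ 2 = w ^ 2 * a) ∧
    (∀ b ∈ B, b * w ^ 3 = w ^ 3 * b ∧ Odd (orderOf b)) ∧
    Subgroup.closure ({x, w} ∪ A) = ⊤ ∧ Subgroup.closure ({x, w} ∪ B) = ⊤ ∧
    Subgroup.closure (A ∪ B) = ⊤ := by
  refine ⟨kw Wx, kw Ww, n13, {kw Wa, kw Ww}, {kw Wb}, ?_, ?_, gen1, gen2, gen3⟩
  · rintro a (rfl | rfl)
    · exact a_comm
    · rw [← pow_succ, ← pow_succ']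
  · rintro b rfl
    exact ⟨b_comm, odd_of_pow3 _ b3⟩

/-! ### the maximal subgroup `H1` and its central involution -/

theorem stab_iff (g : ↥K) : g • vecOf b1c = vecOf b1c ↔ g ∈ H1.subgroupOf K := by
  obtain ⟨g, hg⟩ := g
  rw [Subgroup.mem_subgroupOf, smul_mk]
  exact ⟨fun h => stab0 g hg h, fun h => H1_fix g h⟩

theorem cardM : Nat.card ↥(H1.subgroupOf K) = 10240 := by
  rw [Nat.card_congr (Subgroup.subgroupOfEquivOfLe H1_le_K).toEquiv, card1]

theorem coatomM : IsCoatom (H1.subgroupOf K) := by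
  refine ⟨?_, ?_⟩
  · intro h
    have := cardM
    rw [h, Subgroup.card_top, cardK] at this
    norm_num at this
  · intro L hL
    set B : Set Vt := (fun l : ↥K => l • vecOf b1c) '' (L : Set ↥K) with hB
    have hω : vecOf b1c ∈ B := ⟨1, L.one_mem, one_smul _ _⟩
    have hsub : B ⊆ MulAction.orbit ↥K (vecOf b1c) := by
      rintro _ ⟨l, -, rfl⟩
      exact ⟨l, rfl⟩
    have key : ∀ g : ↥K, g • vecOf b1c ∈ B → g ∈ L := by
      rintro g ⟨l, hl, e⟩
      have e' : l • vecOf b1c = g • vecOf b1c := e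
      have h1 : (l⁻¹ * g) • vecOf b1c = vecOf b1c := by
        rw [mul_smul, ← e', inv_smul_smul]
      have hm : l⁻¹ * g ∈ L := hL.le ((stab_iff _).1 h1)
      have := L.mul_mem hl hm
      rwa [mul_inv_cancel_left] at this
    have hB0 : ∀ g : ↥K, g • vecOf b1c ∈ B → ∀ s ∈ B, g • s ∈ B := by
      rintro g hg _ ⟨l, hl, rfl⟩
      exact ⟨g * l, L.mul_mem (key g hg) hl, mul_smul _ _ _⟩
    rcases hprim B hω hsub hB0 with h | h
    · exfalso
      apply not_le_of_gt hL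
      intro l hl
      have h1 : l • vecOf b1c ∈ B := ⟨l, hl, rfl⟩
      rw [h] at h1
      exact (stab_iff l).1 h1
    · rw [eq_top_iff]
      intro k _
      apply key
      rw [h]
      exact ⟨k, rfl⟩

theorem z_mem : kw Wz ∈ H1.subgroupOf K := by
  rw [Subgroup.mem_subgroupOf, kw_val hz]
  refine wp_mem_of H1 (fun l => 4 ≤ l ∧ l < 11) ?_ Wz (by decide)
  rintro l ⟨h1, h2⟩
  by_cases h : l < 8
  · exact H1_mid l h1 h
  · exact H2_le_H1 (H2_low l (by omega) h2)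

theorem z_c4 : idchk (Wz ++ [4]) ([4] ++ Wz) = true := by decide +kernel
theorem z_c5 : idchk (Wz ++ [5]) ([5] ++ Wz) = true := by decide +kernel

theorem z_central : ∀ m ∈ H1.subgroupOf K, m * kw Wz = kw Wz * m := by
  intro m hm
  rw [Subgroup.mem_subgroupOf] at hm
  have hcen : H1 ≤ Subgroup.centralizer {wp tlU Wz} := by
    unfold H1
    rw [Subgroup.closure_le]
    rintro g (rfl | rfl)
    · rw [SetLike.mem_coe, Subgroup.mem_centralizer_iff]
      rintro h rfl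
      have := idchk_sound z_c4
      rwa [wp_append, wp_append, wp_cons, wp_nil, mul_one] at this
    · rw [SetLike.mem_coe, Subgroup.mem_centralizer_iff]
      rintro h rfl
      have := idchk_sound z_c5
      rwa [wp_append, wp_append, wp_cons, wp_nil, mul_one] at this
  apply Subtype.ext
  rw [Subgroup.coe_mul, Subgroup.coe_mul, kw_val hz]
  exact ((Subgroup.mem_centralizer_iff.1 (hcen hm)) _ rfl).symm

theorem z_ne : kw Wz ≠ 1 := by
  rw [← kw_nil]
  exact kw_ne (by decide +kernel)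

theorem z_sq : kw Wz * kw Wz = 1 := by
  rw [kw_mul hz hz, ← kw_nil]
  exact kw_eq (by decide +kernel)

theorem dat_m2 : ∃ M : Subgroup ↥K, IsCoatom M ∧ Nat.card M = 10240 ∧ ∃ z : ↥K, z ∈ M ∧
    (∀ m ∈ M, m * z = z * m) ∧ z ≠ 1 ∧ z * z = 1 :=
  ⟨H1.subgroupOf K, coatomM, cardM, kw Wz, z_mem, z_central, z_ne, z_sq⟩

/-! ### the Sylow 5-subgroup -/

theorem q5' : kw Wq ^ 5 = 1 := by
  rw [kw_pow hq, ← kw_nil]
  exact kw_eq (by decide +kernel)

theorem r5' : kw Wr ^ 5 = 1 := by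
  rw [kw_pow hr, ← kw_nil]
  exact kw_eq (by decide +kernel)

theorem qr_comm : kw Wq * kw Wr = kw Wr * kw Wq := by
  rw [kw_mul hq hr, kw_mul hr hq]
  exact kw_eq (by decide +kernel)

theorem q_ne : kw Wq ≠ 1 := by
  rw [← kw_nil]
  exact kw_ne (by decide +kernel)

theorem r_ne_pow : ∀ k : ℕ, k < 5 → kw Wr ≠ kw Wq ^ k := by
  intro k hk
  rw [kw_pow hq]
  interval_cases k
  · exact kw_ne (by decide +kernel)
  · exact kw_ne (by decide +kernel)
  · exact kw_ne (by decide +kernel)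
  · exact kw_ne (by decide +kernel)
  · exact kw_ne (by decide +kernel)

theorem q_y : kw Wq * kw Wy ≠ kw Wy * kw Wq := by
  rw [kw_mul hq hy, kw_mul hy hq]
  exact kw_ne (by decide +kernel)

theorem r_y : kw Wr * kw Wy ≠ kw Wy * kw Wr := by
  rw [kw_mul hr hy, kw_mul hy hr]
  exact kw_ne (by decide +kernel)

theorem qr_y : ∀ k : ℕ, 1 ≤ k → k < 5 →
    kw Wq * kw Wr ^ k * kw Wy ≠ kw Wy * (kw Wq * kw Wr ^ k) := by
  intro k h1 h5
  have o1 : okw (Wq ++ wpow Wr k) = true := by rw [okw_append, hq, okw_wpow hr k]; rfl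
  rw [kw_pow hr, kw_mul hq (okw_wpow hr k), kw_mul o1 hy, kw_mul hy o1]
  interval_cases k
  · exact kw_ne (by decide +kernel)
  · exact kw_ne (by decide +kernel)
  · exact kw_ne (by decide +kernel)
  · exact kw_ne (by decide +kernel)

theorem y_q : kw Wy * kw Wq * (kw Wy)⁻¹ = kw Wq * kw Wr := by
  have h : kw Wy * kw Wq = kw Wq * kw Wr * kw Wy := by
    have o1 : okw (Wq ++ Wr) = true := by decide
    rw [kw_mul hy hq, kw_mul hq hr, kw_mul o1 hy]
    exact kw_eq (by decide +kernel)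
  rw [h, mul_inv_cancel_right]

theorem y_r : kw Wy * kw Wr * (kw Wy)⁻¹ = kw Wq ^ 2 * kw Wr ^ 3 := by
  have h : kw Wy * kw Wr = kw Wq ^ 2 * kw Wr ^ 3 * kw Wy := by
    have o1 : okw (wpow Wq 2 ++ wpow Wr 3) = true := by decide
    rw [kw_pow hq, kw_pow hr, kw_mul hy hr, kw_mul (okw_wpow hq 2) (okw_wpow hr 3), kw_mul o1 hy]
    exact kw_eq (by decide +kernel)
  rw [h, mul_inv_cancel_right]

theorem y3 : kw Wy * kw Wy * kw Wy = 1 := by
  have o1 : okw (Wy ++ Wy) = true := by decide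
  rw [kw_mul hy hy, kw_mul o1 hy, ← kw_nil]
  exact kw_eq (by decide +kernel)

theorem c_y : kw Wc * kw Wy = kw Wy * kw Wc := by
  rw [kw_mul hc hy, kw_mul hy hc]
  exact kw_eq (by decide +kernel)

theorem c3 : kw Wc ^ 3 = 1 := by
  rw [kw_pow hc, ← kw_nil]
  exact kw_eq (by decide +kernel)

theorem y_norm : ∀ q ∈ Subgroup.closure ({kw Wq, kw Wr} : Set ↥K),
    kw Wy * q * (kw Wy)⁻¹ ∈ Subgroup.closure ({kw Wq, kw Wr} : Set ↥K) := by
  set Q := Subgroup.closure ({kw Wq, kw Wr} : Set ↥K) with hQ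
  have mq : kw Wq ∈ Q := Subgroup.subset_closure (Or.inl rfl)
  have mr : kw Wr ∈ Q := Subgroup.subset_closure (Or.inr rfl)
  intro q hq'
  refine Subgroup.closure_induction (p := fun q _ => kw Wy * q * (kw Wy)⁻¹ ∈ Q) ?_ ?_ ?_ ?_ hq'
  · rintro g (rfl | rfl)
    · rw [y_q]
      exact Q.mul_mem mq mr
    · rw [y_r]
      exact Q.mul_mem (Q.pow_mem mq 2) (Q.pow_mem mr 3)
  · rw [mul_one, mul_inv_cancel]
    exact Q.one_mem
  · intro p q _ _ hp hq
    have e : kw Wy * (p * q) * (kw Wy)⁻¹ = (kw Wy * p * (kw Wy)⁻¹) * (kw Wy * q * (kw Wy)⁻¹) := by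
      group
    rw [e]
    exact Q.mul_mem hp hq
  · intro p _ hp
    have e : kw Wy * p⁻¹ * (kw Wy)⁻¹ = (kw Wy * p * (kw Wy)⁻¹)⁻¹ := by group
    rw [e]
    exact Q.inv_mem hp

theorem y_norm' : ∀ q ∈ Subgroup.closure ({kw Wq, kw Wr} : Set ↥K),
    (kw Wy)⁻¹ * q * kw Wy ∈ Subgroup.closure ({kw Wq, kw Wr} : Set ↥K) := by
  intro q hq'
  have e := inv_conj_of_cube (kw Wy) q y3
  rw [e]
  exact y_norm _ (y_norm q hq')

theorem gen4 : Subgroup.closure
    (((Subgroup.closure ({kw Wq, kw Wr} : Set ↥K) : Subgroup ↥K) : Set ↥K) ∪ {kw Wy} ∪ {kw Wc}) =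
      ⊤ := by
  set H := Subgroup.closure
    (((Subgroup.closure ({kw Wq, kw Wr} : Set ↥K) : Subgroup ↥K) : Set ↥K) ∪ {kw Wy} ∪ {kw Wc})
    with hH
  have mq : kw Wq ∈ H :=
    Subgroup.subset_closure (Or.inl (Or.inl (Subgroup.subset_closure (Or.inl rfl))))
  have mr : kw Wr ∈ H :=
    Subgroup.subset_closure (Or.inl (Or.inl (Subgroup.subset_closure (Or.inr rfl))))
  have mc : kw Wc ∈ H := Subgroup.subset_closure (Or.inr rfl)
  have p4 := pair_mem H 4 inv4 (by decide) (by decide) mq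
  have p5 := pair_mem H 5 inv5 (by decide) (by decide) mr
  have p7 := pair_mem H 7 inv7 (by decide) (by decide) mc
  refine top_of_words H [8, 9, 10, 11, 14, 15] G4_x G4_z ?_ (by decide) (by decide) g4x_chk g4z_chk
  intro i hi
  simp only [List.mem_cons, List.mem_nil_iff, or_false] at hi
  rcases hi with rfl | rfl | rfl | rfl | rfl | rfl
  · exact p4.1
  · exact p4.2
  · exact p5.1
  · exact p5.2
  · exact p7.1
  · exact p7.2

theorem dat_q5 (card25 : Card25.{0}) (cq : CQ.{0}) :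
    ∃ Q : Subgroup ↥K, Nat.card Q = 25 ∧ ∃ y : ↥K, (∀ q ∈ Q, y * q * y⁻¹ ∈ Q) ∧
    (∀ q ∈ Q, y⁻¹ * q * y ∈ Q) ∧ (∀ q ∈ Q, q * y = y * q → q = 1) ∧
    ∃ C : Set ↥K, (∀ c ∈ C, c * y = y * c ∧ Odd (orderOf c)) ∧
      Subgroup.closure ((Q : Set ↥K) ∪ {y} ∪ C) = ⊤ := by
  obtain ⟨hcard, -⟩ := card25 ↥K (kw Wq) (kw Wr) q5' r5' qr_comm q_ne r_ne_pow
  refine ⟨Subgroup.closure {kw Wq, kw Wr}, hcard, kw Wy, y_norm, ?_,
    cq ↥K (kw Wq) (kw Wr) (kw Wy) q5' r5' qr_comm q_y r_y qr_y, {kw Wc}, ?_, gen4⟩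
  · exact y_norm'
  · rintro c rfl
    exact ⟨c_y, odd_of_pow3 _ c3⟩

/-- the element data of the Tits group `K` -/
theorem dat (card25 : Card25.{0}) (cq : CQ.{0}) : Dat ↥K :=
  ⟨cardK, dat_n13, dat_m2, dat_q5 card25 cq⟩

end Cfsg.Agent.Lib.Helper61.T2Data
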