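import Mathlib
import Cfsg.Agent.Lib.Helper61.T2Stmt

/-!
# S2197: transfer from a subgroup `K` with `commutator G = K` to the commutator subgroup
-/

set_option autoImplicit false

namespace Cfsg.Agent.Lib.Helper61.T2Fin

open Cfsg.Agent.Lib.Helper61.T2Stmt

universe v

/-- generic form of the final step: the group `↥K` satisfies `Dat`, and `commutator ↥G` is
`K` seen inside `G`. -/
theorem final_gen {Γ : Type} [Group Γ] (G K : Subgroup Γ) (hKG : K ≤ G)
    (hc : commutator ↥G = K.subgroupOf G) (hfin : Finite ↥K) (dat : Dat ↥K)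
    (arith : Arith) (tools : Tools.{0, v}) (small : Small.{0, v}) (cyc : Cyc.{0, v})
    (sylfix : SylFix.{0, v}) (jordan : Jordan.{0, v}) (n1625 : N1625.{0, v}) (p27 : P27.{0, v})
    (p65 : P65.{0, v}) (p26 : P26.{0, v}) (p40a : P40A.{0, v}) (p40b : P40B.{0, v})
    (p40c : P40C.{0, v}) (p40e : P40E.{0, v}) (transport : Transport.{0, v, 0})
    {Ω : Type v} [Fintype Ω] [MulAction ↥(commutator ↥G) Ω] [FaithfulSMul ↥(commutator ↥G) Ω]
    (hΩ : 3 ≤ Fintype.card Ω) :
    ¬ MulAction.IsMultiplyPretransitive ↥(commutator ↥G) Ω 2 := by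
  intro h2
  obtain ⟨e⟩ : Nonempty (↥K ≃* ↥(commutator ↥G)) :=
    ⟨((MulEquiv.subgroupCongr hc).trans (Subgroup.subgroupOfEquivOfLe hKG)).symm⟩
  obtain ⟨inst, hf, ht⟩ := transport (↥(commutator ↥G)) ↥K e Ω inferInstance h2
  exact @assembly arith tools small cyc sylfix jordan n1625 p27 p65 p26 p40a p40b p40c p40e
    ↥K _ hfin dat Ω _ inst hf hΩ ht

end Cfsg.Agent.Lib.Helper61.T2Fin
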