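import Mathlib
import Cfsg.Agent.Lib.Helper26.T64Stmt

/-!
# S3157 piece INV: two non-commuting involutions.
-/

set_option autoImplicit false

namespace Cfsg.Agent.Lib.Helper61.T64INV

open Cfsg.Agent.Lib.Helper26.T64Stmt

universe u

theorem main : Cfsg.Agent.Lib.Helper26.T64Stmt.INV.{u} := by
  intro T _ _ ρ x hρ hF hZ hSq hC hXZ hXN
  obtain ⟨z0, _, hz0, _, hz0ne, _, _, hfix⟩ := hXZ
  obtain ⟨c1, c2, hx1, hx2, hnc⟩ := hXN
  have hcomm : ∀ z ∈ Subgroup.center T, ∀ g : T, g * z = z * g :=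
    fun z hz g => Subgroup.mem_center_iff.mp hz g
  have hcomZ : ∀ s t : T, s * t * s⁻¹ * t⁻¹ ∈ Subgroup.center T := by
    intro s t
    have e : s * t * s⁻¹ * t⁻¹ = (s * t) * (s * t) * (t⁻¹ * (s * s)⁻¹ * t) * (t * t)⁻¹ := by
      group
    have h1 : t⁻¹ * (s * s)⁻¹ * t = (s * s)⁻¹ := by
      rw [hcomm _ (inv_mem (hSq s)) t⁻¹]; group
    rw [e, h1]
    exact mul_mem (mul_mem (hSq (s * t)) (inv_mem (hSq s))) (inv_mem (hSq t))
  have hsq2 : ∀ a b : T, (a * b) * (a * b) = (b * a * b⁻¹ * a⁻¹) * (a * a) * (b * b) := by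
    intro a b
    have e1 : (a * b) * (a * b) = a * (b * a * b⁻¹ * a⁻¹) * a * b * b := by group
    rw [e1, hcomm _ (hcomZ b a) a]
    simp only [mul_assoc]
  have hz0sq : z0 * z0 = 1 := hZ z0 hz0
  have hz0inv : z0⁻¹ = z0 := inv_eq_of_mul_eq_one_left hz0sq
  -- the commutator of `c1`, `c2` is `z0`
  have hK : c1 * c2 * c1⁻¹ * c2⁻¹ = z0 := by
    have hfixK : x (c1 * c2 * c1⁻¹ * c2⁻¹) = c1 * c2 * c1⁻¹ * c2⁻¹ := by
      simp [map_mul, map_inv, hx1, hx2]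
    rcases hfix _ (hcomZ c1 c2) hfixK with h | h
    · exfalso; apply hnc
      have e : c1 * c2 = (c1 * c2 * c1⁻¹ * c2⁻¹) * c2 * c1 := by group
      rw [e, h, one_mul]
    · exact h
  have hK21 : c2 * c1 * c2⁻¹ * c1⁻¹ = z0 := by
    have e : c2 * c1 * c2⁻¹ * c1⁻¹ = (c1 * c2 * c1⁻¹ * c2⁻¹)⁻¹ := by group
    rw [e, hK, hz0inv]
  have hs1 : c1 * c1 = 1 ∨ c1 * c1 = z0 :=
    hfix _ (hSq c1) (by simp [map_mul, hx1])
  have hs2 : c2 * c2 = 1 ∨ c2 * c2 = z0 :=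
    hfix _ (hSq c2) (by simp [map_mul, hx2])
  rcases hs1 with h1 | h1 <;> rcases hs2 with h2 | h2
  · exact ⟨c1, c2, h1, h2, hnc⟩
  · refine ⟨c1, c1 * c2, h1, ?_, ?_⟩
    · rw [hsq2, hK21, h1, h2, mul_one, hz0sq]
    · intro h
      apply hnc
      have h' : c1 * (c1 * c2) = c1 * (c2 * c1) := by rw [h]; simp only [mul_assoc]
      exact mul_left_cancel h'
  · refine ⟨c2, c1 * c2, h2, ?_, ?_⟩
    · rw [hsq2, hK21, h1, h2, mul_one, hz0sq]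
    · intro h
      apply hnc
      have h' : c2 * c1 * c2 = c1 * c2 * c2 := by rw [mul_assoc]; exact h
      exact (mul_right_cancel h').symm
  · -- both squares are `z0`
    have hρ3 : ∀ y : T, ρ (ρ (ρ y)) = y := by
      intro y
      have h3 : ρ ^ 3 = 1 := by rw [← hρ]; exact pow_orderOf_eq_one ρ
      have h4 := congrArg (fun f : MulAut T => f y) h3
      simpa [pow_succ, MulAut.mul_apply] using h4
    have huu : ρ c1 * ρ c1 = ρ z0 := by rw [← map_mul, h1]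
    have hvv : ρ (ρ c1) * ρ (ρ c1) = ρ (ρ z0) := by rw [← map_mul, ← map_mul, h1]
    have hcu : c2 * ρ c1 * c2⁻¹ * (ρ c1)⁻¹ = ρ (ρ z0) := by
      rw [hC c2 c1, hK21]
    have hcv : c2 * ρ (ρ c1) * c2⁻¹ * (ρ (ρ c1))⁻¹ = ρ z0 := by
      rw [hC c2 (ρ c1), hC c2 c1, hK21, hρ3]
    have hz1 : ρ z0 ∈ Subgroup.center T := by rw [← hcv]; exact hcomZ _ _
    have hz2 : ρ (ρ z0) ∈ Subgroup.center T := by rw [← hcu]; exact hcomZ _ _
    have hF0 := (hF z0).1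
    refine ⟨ρ c1 * c2, ρ (ρ c1) * c2, ?_, ?_, ?_⟩
    · rw [hsq2, hcu, huu, h2, hcomm z0 hz0, hcomm _ hz1 (ρ (ρ z0)), ← mul_assoc]
      exact hF0
    · rw [hsq2, hcv, hvv, h2, hcomm z0 hz0, ← mul_assoc]
      exact hF0
    · intro h
      have hcv' : c2 * ρ (ρ c1) = ρ z0 * (ρ (ρ c1) * c2) := by
        have e : c2 * ρ (ρ c1) =
            (c2 * ρ (ρ c1) * c2⁻¹ * (ρ (ρ c1))⁻¹) * (ρ (ρ c1) * c2) := by group
        rw [e, hcv]
      have hcu' : c2 * ρ c1 = ρ (ρ z0) * (ρ c1 * c2) := by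
        have e : c2 * ρ c1 = (c2 * ρ c1 * c2⁻¹ * (ρ c1)⁻¹) * (ρ c1 * c2) := by group
        rw [e, hcu]
      have huv : ρ c1 * ρ (ρ c1) = ρ (ρ c1) * ρ c1 := (hF (ρ c1)).2
      have e1 : ρ c1 * c2 * (ρ (ρ c1) * c2) = ρ z0 * (ρ c1 * ρ (ρ c1) * c2 * c2) := by
        calc ρ c1 * c2 * (ρ (ρ c1) * c2) = ρ c1 * (c2 * ρ (ρ c1)) * c2 := by
              simp only [mul_assoc]
          _ = ρ c1 * (ρ z0 * (ρ (ρ c1) * c2)) * c2 := by rw [hcv']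
          _ = (ρ c1 * ρ z0) * (ρ (ρ c1) * c2) * c2 := by simp only [mul_assoc]
          _ = (ρ z0 * ρ c1) * (ρ (ρ c1) * c2) * c2 := by rw [hcomm _ hz1 (ρ c1)]
          _ = ρ z0 * (ρ c1 * ρ (ρ c1) * c2 * c2) := by simp only [mul_assoc]
      have e2 : ρ (ρ c1) * c2 * (ρ c1 * c2) = ρ (ρ z0) * (ρ c1 * ρ (ρ c1) * c2 * c2) := by
        calc ρ (ρ c1) * c2 * (ρ c1 * c2) = ρ (ρ c1) * (c2 * ρ c1) * c2 := by
              simp only [mul_assoc]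
          _ = ρ (ρ c1) * (ρ (ρ z0) * (ρ c1 * c2)) * c2 := by rw [hcu']
          _ = (ρ (ρ c1) * ρ (ρ z0)) * (ρ c1 * c2) * c2 := by simp only [mul_assoc]
          _ = (ρ (ρ z0) * ρ (ρ c1)) * (ρ c1 * c2) * c2 := by rw [hcomm _ hz2 (ρ (ρ c1))]
          _ = ρ (ρ z0) * ((ρ (ρ c1) * ρ c1) * c2 * c2) := by simp only [mul_assoc]
          _ = ρ (ρ z0) * (ρ c1 * ρ (ρ c1) * c2 * c2) := by rw [← huv]
      rw [e1, e2] at h
      have h12 : ρ z0 = ρ (ρ z0) := mul_right_cancel h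
      have h01 : z0 = ρ z0 := ρ.injective h12
      apply hz0ne
      rw [← h12, ← h01, hz0sq] at hF0
      simpa using hF0

end Cfsg.Agent.Lib.Helper61.T64INV
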