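import Mathlib
import Cfsg.Agent.Lib.Helper61.TitsFin
import Cfsg.Agent.Lib.Helper61.TitsSylData
import Cfsg.Agent.Lib.Helper17.ChevU
import Cfsg.Agent.Lib.Helper17.SylowConj

set_option autoImplicit false

/-! A Sylow 2-subgroup `U = ⟨A, c, d⟩` of `²F₄(2)` (order `2^12`), and: every element of `U`
outside the Tits group has a non-trivial square. Hence every involution of `²F₄(2)` lies in the
Tits group. -/

namespace Cfsg.Agent.Lib.Helper61.TitsSyl

open Cfsg.Lie Cfsg.Agent.Lib.Helper61.F2Fast Cfsg.Agent.Lib.Helper61.TitsData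
open Cfsg.Agent.Lib.Helper61.TitsMain Cfsg.Agent.Lib.Helper61.TitsLvl
open Cfsg.Agent.Lib.Helper61.TitsRes Cfsg.Agent.Lib.Helper61.TitsId
open Cfsg.Agent.Lib.Helper61.TitsGrp Cfsg.Agent.Lib.Helper61.TitsSimp
open Cfsg.Agent.Lib.Helper61.TitsG Cfsg.Agent.Lib.Helper61.TitsSylData
open Cfsg.Agent.Lib.Helper17.Strict Cfsg.Agent.Lib.Helper17.ChevU

attribute [local instance] actGL

/-! ### generic lemmas -/

section generic

variable {Γ : Type} [Group Γ]

theorem mul_mem_iff_gen (G K : Subgroup Γ) (hidx : (K.subgroupOf G).index = 2) (a b : Γ)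
    (ha : a ∈ G) (hb : b ∈ G) : a * b ∈ K ↔ (a ∈ K ↔ b ∈ K) := by
  have h := Subgroup.mul_mem_iff_of_index_two hidx (a := (⟨a, ha⟩ : ↥G)) (b := ⟨b, hb⟩)
  rw [Subgroup.mem_subgroupOf, Subgroup.mem_subgroupOf, Subgroup.mem_subgroupOf,
    Subgroup.coe_mul] at h
  exact h

theorem index_of_card (G K : Subgroup Γ) [Finite ↥G] (hKG : K ≤ G)
    (hc : Nat.card ↥G = 2 * Nat.card ↥K) : (K.subgroupOf G).index = 2 := by
  have h1 := Subgroup.index_mul_card (K.subgroupOf G)
  have h2 : Nat.card ↥(K.subgroupOf G) = Nat.card ↥K :=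
    Nat.card_congr (Subgroup.subgroupOfEquivOfLe hKG).toEquiv
  rw [h2, hc] at h1
  have hpos : 0 < Nat.card ↥K := by
    rcases Nat.eq_zero_or_pos (Nat.card ↥K) with h | h
    · rw [h, mul_zero] at hc
      exact absurd hc Nat.card_pos.ne'
    · exact h
  exact Nat.eq_of_mul_eq_mul_right hpos h1

theorem card_of_index (G K : Subgroup Γ) (hKG : K ≤ G) (h : (K.subgroupOf G).index = 2) :
    Nat.card ↥G = 2 * Nat.card ↥K := by
  have h1 := Subgroup.index_mul_card (K.subgroupOf G)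
  have h2 : Nat.card ↥(K.subgroupOf G) = Nat.card ↥K :=
    Nat.card_congr (Subgroup.subgroupOfEquivOfLe hKG).toEquiv
  rw [h2, h] at h1
  exact h1.symm

/-- Sylow: if the elements of the `2`-subgroup `U` of full order outside `K` have non-trivial
squares, then every involution of `G` lies in `K` (of index two). -/
theorem invol_gen [Finite Γ] (G K U : Subgroup Γ) (hUG : U ≤ G)
    (hidx : (K.subgroupOf G).index = 2) (k : ℕ) (hU : Nat.card ↥U = 2 ^ k)
    (hG : ¬ 2 ^ (k + 1) ∣ Nat.card ↥G) (hodd : ∀ s ∈ U, s ∉ K → s * s ≠ 1)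
    (g : ↥G) (hg : orderOf g = 2) : (g : Γ) ∈ K := by
  haveI : Fact (Nat.Prime 2) := ⟨Nat.prime_two⟩
  have hcard : Nat.card ↥(U.subgroupOf G) = 2 ^ k := by
    rw [Nat.card_congr (Subgroup.subgroupOfEquivOfLe hUG).toEquiv, hU]
  have hfac : (Nat.card ↥G).factorization 2 = k := by
    have hpos : Nat.card ↥G ≠ 0 := Nat.card_pos.ne'
    have h1 : 2 ^ k ∣ Nat.card ↥G := hcard ▸ Subgroup.card_subgroup_dvd_card _
    have h2 := (Nat.prime_two.pow_dvd_iff_le_factorization hpos).1 h1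
    have h3 : ¬ (k + 1 ≤ (Nat.card ↥G).factorization 2) :=
      fun h => hG ((Nat.prime_two.pow_dvd_iff_le_factorization hpos).2 h)
    omega
  obtain ⟨P, hP⟩ : ∃ P : Sylow 2 ↥G, (P : Subgroup ↥G) = U.subgroupOf G :=
    ⟨Sylow.ofCard (U.subgroupOf G) (by rw [hcard, hfac]), Sylow.coe_ofCard _ _⟩
  have hH : IsPGroup 2 ↥(Subgroup.zpowers g) := by
    apply IsPGroup.of_card (n := 1)
    rw [Nat.card_zpowers, hg, pow_one]
  obtain ⟨n, -, hn⟩ := Cfsg.Agent.Lib.Helper17.SylowConj.exists_conj_le_of_le P ⊤ le_top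
    (Subgroup.zpowers g) hH le_top
  have hs := hn g (Subgroup.mem_zpowers g)
  rw [hP, Subgroup.mem_subgroupOf] at hs
  have hgg : g * g = 1 := by rw [← sq, ← hg, pow_orderOf_eq_one]
  have hsq : (n⁻¹ * g * n) * (n⁻¹ * g * n) = 1 := by
    have : (n⁻¹ * g * n) * (n⁻¹ * g * n) = n⁻¹ * (g * g) * n := by group
    rw [this, hgg]
    group
  have hK : ((n⁻¹ * g * n : ↥G) : Γ) ∈ K := by
    by_contra hcon
    have h3 := congrArg Subtype.val hsq
    rw [Subgroup.coe_mul, Subgroup.coe_one] at h3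
    exact hodd _ hs hcon h3
  haveI := Subgroup.normal_of_index_eq_two hidx
  have h1 : (n⁻¹ * g * n) ∈ K.subgroupOf G := Subgroup.mem_subgroupOf.2 hK
  have h2 := (inferInstance : (K.subgroupOf G).Normal).conj_mem _ h1 n
  have h4 : n * (n⁻¹ * g * n) * n⁻¹ = g := by group
  rw [h4] at h2
  exact Subgroup.mem_subgroupOf.1 h2

end generic

/-! ### the subgroups -/

/-- `⟨A, c⟩`, of order 2048. -/
def S0 : Subgroup GLt := Subgroup.closure {tlU 11, tlU 13}

/-- the third generator. -/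
noncomputable def dU : GLt := wp tlU dwt

/-- the Sylow 2-subgroup. -/
def U1 : Subgroup GLt := Subgroup.closure {tlU 11, tlU 13, dU}

theorem dU_mem_G : dU ∈ G := wp_mem tlU G _ (fun l _ => tlU_mem l)

theorem U1_le_G : U1 ≤ G := by
  unfold U1
  rw [Subgroup.closure_le]
  rintro g (rfl | rfl | rfl)
  · exact tlU_mem 11
  · exact tlU_mem 13
  · exact dU_mem_G

theorem S0_le_U1 : S0 ≤ U1 := by
  unfold S0 U1
  apply Subgroup.closure_mono
  intro g hg
  rcases hg with rfl | rfl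
  · exact Set.mem_insert _ _
  · exact Set.mem_insert_of_mem _ (Set.mem_insert _ _)

theorem dU_mem_U1 : dU ∈ U1 :=
  Subgroup.subset_closure (Set.mem_insert_of_mem _ (Set.mem_insert_of_mem _ rfl))

/-! ### unitriangularity -/

theorem st11 : ∀ p : Idx × Idx, lvl chevF4 p.1 < lvl chevF4 p.2 + 1 →
    (MatT (ttab 11) - 1) p.1 p.2 = 0 := by decide +kernel

theorem st13 : ∀ p : Idx × Idx, lvl chevF4 p.1 < lvl chevF4 p.2 + 1 →
    (MatT (ttab 13) - 1) p.1 p.2 = 0 := by decide +kernel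

theorem std : ∀ p : Idx × Idx, lvl chevF4 p.1 < lvl chevF4 p.2 + 1 →
    (MatT dTab - 1) p.1 p.2 = 0 := by decide +kernel

theorem dsound : Sound dTab dU :=
  sound_of_word ttab tlU tsound dTab dTab_ok dwt (wchk_spec dTab_chk)

theorem U1_le_uni : U1 ≤ uni chevF4 (ZMod 2) := by
  unfold U1
  rw [Subgroup.closure_le]
  rintro g (rfl | rfl | rfl)
  · refine mem_level.2 ?_
    rw [← (tsound 11).2]
    exact fun i j h => st11 (i, j) h
  · refine mem_level.2 ?_
    rw [← (tsound 13).2]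
    exact fun i j h => st13 (i, j) h
  · refine mem_level.2 ?_
    rw [← dsound.2]
    exact fun i j h => std (i, j) h

instance neIdx : Nonempty Idx := ⟨Sum.inl ⟨0, by decide⟩⟩

theorem pow64 (g : GLt) (hg : g ∈ U1) : g ^ 2 ^ 6 = 1 := by
  have h0 := sub_one_pow_eq_zero (U1_le_uni hg)
  have h49 : chevF4.nroots + 1 = 49 := by decide
  rw [h49] at h0
  apply Units.ext
  rw [Units.val_pow_eq_pow_val, Units.val_one]
  have h1 : ((g : Matrix Idx Idx (ZMod 2)) - 1) ^ 2 ^ 6 =
      (g : Matrix Idx Idx (ZMod 2)) ^ 2 ^ 6 - 1 ^ 2 ^ 6 :=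
    sub_pow_expChar_pow_of_commute 2 6 (Commute.one_right _)
  have h2 : ((g : Matrix Idx Idx (ZMod 2)) - 1) ^ 2 ^ 6 = 0 := by
    have : (2 : ℕ) ^ 6 = 49 + 15 := by norm_num
    rw [this, pow_add, h0, zero_mul]
  rw [h2, one_pow] at h1
  exact sub_eq_zero.1 h1.symm

instance fact2 : Fact (Nat.Prime 2) := ⟨Nat.prime_two⟩

theorem cardG : Nat.card ↥G = 35942400 := by
  rw [card_of_index G K K_le_G index_two, cardK]

theorem cardU1_pow : ∃ n, n ≤ 12 ∧ Nat.card ↥U1 = 2 ^ n := by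
  have hp : IsPGroup 2 ↥U1 := by
    intro g
    refine ⟨6, Subtype.ext ?_⟩
    rw [Subgroup.coe_pow, Subgroup.coe_one]
    exact pow64 g.1 g.2
  obtain ⟨n, hn⟩ := IsPGroup.iff_card.1 hp
  refine ⟨n, ?_, hn⟩
  by_contra hcon
  have h13 : 13 ≤ n := by omega
  have h1 : Nat.card ↥U1 ∣ Nat.card ↥G := Subgroup.card_dvd_of_le U1_le_G
  rw [hn, cardG] at h1
  have h2 : 2 ^ 13 ∣ 35942400 := (Nat.pow_dvd_pow 2 h13).trans h1
  norm_num at h2

/-! ### the regular orbit of `S0` -/

theorem lvS : LvlOK TS PS rtS 2048 11 16 v0c := lvlOK_of okS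

theorem s11 : tlU 11 ∈ S0 := Subgroup.subset_closure (Set.mem_insert _ _)

theorem s13 : tlU 13 ∈ S0 := Subgroup.subset_closure (Set.mem_insert_of_mem _ rfl)

theorem s15 : tlU 15 ∈ S0 := by
  rw [ci_eq]
  exact S0.inv_mem s13

theorem t14 : tlU 14 = tlU 13 * tlU 13 := by
  have := tl_eq2 TitsId.csq
  rw [wp_cons, wp_nil, mul_one] at this
  exact this.symm

theorem s14 : tlU 14 ∈ S0 := by
  rw [t14]
  exact S0.mul_mem s13 s13

theorem k11 : tlU 11 ∈ K := by
  rw [tl_eq mem0]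
  exact wK (by decide)

theorem k12 : tlU 12 ∈ K := by
  rw [tl_eq mem1]
  exact wK (by decide)

theorem c15_notin : tlU 15 ∉ K := by
  rw [ci_eq]
  exact fun h => c_notin (by simpa using K.inv_mem h)

theorem S0_le_G : S0 ≤ G := S0_le_U1.trans U1_le_G

theorem par_rule (a b : GLt) (ha : a ∈ G) (hb : b ∈ G) : a * b ∈ K ↔ (a ∈ K ↔ b ∈ K) :=
  mul_mem_iff_gen G K index_two a b ha hb

theorem beq_false_iff (a b : ℕ) : Nat.beq a b = false ↔ a ≠ b := by
  constructor
  · intro h e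
    rw [(beq_iff a b).2 e] at h
    exact Bool.noConfusion h
  · intro h
    cases hb : Nat.beq a b
    · rfl
    · exact absurd ((beq_iff a b).1 hb) h

theorem qb_lt (j : ℕ) : qb j < 2 := by
  have : qb j ≤ 1 := Nat.and_le_right
  omega

theorem okQ_rt : qb rtS = 0 := by
  have h := (allB_iff _ _).1 okQ_all rtS lvS.rt_lt
  unfold okQ at h
  rw [Nat.beq_refl] at h
  exact (beq_iff _ _).1 h

theorem okQ_node (j : ℕ) (hj : j < 2048) (hne : j ≠ rtS) :
    qb j = Nat.xor (qb (pr PS j)) (lpar (gi PS j)) ∧ gi PS j ≠ 12 := by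
  have h := (allB_iff _ _).1 okQ_all j hj
  unfold okQ at h
  rw [(beq_false_iff _ _).2 hne] at h
  simp only [cond_false, Bool.and_eq_true, Bool.not_eq_true'] at h
  exact ⟨(beq_iff _ _).1 h.1, (beq_false_iff _ _).1 h.2⟩

theorem US_aux : ∀ d j, j < 2048 → dp PS j = d →
    U PS j ∈ S0 ∧ (U PS j ∈ K ↔ qb j = 0) := by
  intro d
  induction d with
  | zero =>
    intro j hj hd
    by_cases hne : j = rtS
    · subst hne
      rw [lvS.U_rt]
      exact ⟨S0.one_mem, ⟨fun _ => okQ_rt, fun _ => K.one_mem⟩⟩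
    · obtain ⟨_, h2, _⟩ := lvS.node j hj hne
      omega
  | succ d ih =>
    intro j hj hd
    have hne : j ≠ rtS := by
      rintro rfl
      rw [lvS.rt_dp] at hd
      omega
    obtain ⟨h1, h2, h3, h4, _⟩ := lvS.node j hj hne
    obtain ⟨i1, i2⟩ := ih (pr PS j) h1 (by omega)
    obtain ⟨q1, q2⟩ := okQ_node j hj hne
    have hq := qb_lt (pr PS j)
    rw [lvS.U_step j hj hne, q1]
    have hG : U PS (pr PS j) ∈ G := S0_le_G i1
    have hcases : gi PS j = 11 ∨ gi PS j = 13 ∨ gi PS j = 14 ∨ gi PS j = 15 := by omega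
    rcases hcases with e | e | e | e
    · rw [e]
      refine ⟨S0.mul_mem s11 i1, ?_⟩
      rw [K.mul_mem_cancel_left k11, i2]
      have : lpar 11 = 0 := rfl
      rw [this]
      constructor
      · intro h; rw [h]; rfl
      · intro h
        rcases Nat.lt_succ_iff_lt_or_eq.mp hq with h' | h'
        · omega
        · rw [h'] at h; exact absurd h (by decide)
    · rw [e]
      refine ⟨S0.mul_mem s13 i1, ?_⟩
      rw [par_rule _ _ (tlU_mem 13) hG, i2]
      have : lpar 13 = 1 := rfl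
      rw [this]
      constructor
      · intro h
        have h0 : qb (pr PS j) ≠ 0 := fun h0 => c_notin (h.2 h0)
        have h1 : qb (pr PS j) = 1 := by omega
        rw [h1]; rfl
      · intro h
        constructor
        · intro hc; exact absurd hc c_notin
        · intro h0; rw [h0] at h; exact absurd h (by decide)
    · rw [e]
      refine ⟨S0.mul_mem s14 i1, ?_⟩
      rw [K.mul_mem_cancel_left k14, i2]
      have : lpar 14 = 0 := rfl
      rw [this]
      constructor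
      · intro h; rw [h]; rfl
      · intro h
        rcases Nat.lt_succ_iff_lt_or_eq.mp hq with h' | h'
        · omega
        · rw [h'] at h; exact absurd h (by decide)
    · rw [e]
      refine ⟨S0.mul_mem s15 i1, ?_⟩
      rw [par_rule _ _ (tlU_mem 15) hG, i2]
      have : lpar 15 = 1 := rfl
      rw [this]
      constructor
      · intro h
        have h0 : qb (pr PS j) ≠ 0 := fun h0 => c15_notin (h.2 h0)
        have h1 : qb (pr PS j) = 1 := by omega
        rw [h1]; rfl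
      · intro h
        constructor
        · intro hc; exact absurd hc c15_notin
        · intro h0; rw [h0] at h; exact absurd h (by decide)

theorem US_mem (j : ℕ) (hj : j < 2048) : U PS j ∈ S0 := (US_aux _ j hj rfl).1

theorem US_par (j : ℕ) (hj : j < 2048) : U PS j ∈ K ↔ qb j = 0 := (US_aux _ j hj rfl).2

/-- the representatives as a map into `S0`. -/
noncomputable def repS (j : Fin 2048) : ↥S0 := ⟨U PS j.val, US_mem j.val j.isLt⟩

theorem repS_inj : Function.Injective repS := by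
  intro i j e
  have e1 : U PS i.val = U PS j.val := congrArg Subtype.val e
  exact Fin.ext (lvS.U_inj i.val i.isLt j.val j.isLt (by rw [e1]))

theorem cardS0_ge : 2048 ≤ Nat.card ↥S0 := by
  have := Nat.card_le_card_of_injective repS repS_inj
  rwa [Nat.card_fin] at this

/-! ### `d` is not in `S0` -/

theorem om_all : ∀ l : List ℕ, omOK l = true → ∀ a ∈ l,
    fmv (ttab 11) a ∈ omL ∧ fmv (ttab 13) a ∈ omL ∧ a < 2 ^ 52 := by
  intro l
  induction l with
  | nil => intro _ a ha; simp at ha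
  | cons b l ih =>
    intro h a ha
    have h' : ((memL (fmv (ttab 11) b) omL && (memL (fmv (ttab 13) b) omL &&
        Nat.blt b 4503599627370496)) && omOK l) = true := h
    rw [Bool.and_eq_true, Bool.and_eq_true, Bool.and_eq_true, memL_iff, memL_iff, blt_iff] at h'
    rcases List.mem_cons.1 ha with rfl | ha'
    · exact ⟨h'.1.1, h'.1.2.1, by have := h'.1.2.2; norm_num; exact this⟩
    · exact ih h'.2 a ha'

theorem orbS0 : ∀ s ∈ S0, ∃ ω ∈ omL, s • vecOf w0c = vecOf ω := by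
  have key : ∀ s ∈ Subgroup.closure ({tlU 11, tlU 13} : Set GLt),
      ∃ ω ∈ omL, s • vecOf w0c = vecOf ω := by
    intro s hs
    rw [← Subgroup.mem_toSubmonoid, Subgroup.closure_toSubmonoid_of_finite] at hs
    induction hs using Submonoid.closure_induction_left with
    | one => exact ⟨w0c, (memL_iff _ _).1 om_w0, one_smul _ _⟩
    | mul_left g hg y _ ih =>
      obtain ⟨ω, hω, e⟩ := ih
      obtain ⟨c1, c2, c3⟩ := om_all omL om_ok ω hω
      rcases hg with rfl | rfl
      · exact ⟨_, c1, by rw [mul_smul, e, smul_code 11 ω c3]⟩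
      · exact ⟨_, c2, by rw [mul_smul, e, smul_code 13 ω c3]⟩
  exact key

theorem d_notin : dU ∉ S0 := by
  intro h
  obtain ⟨ω, hω, e⟩ := orbS0 dU h
  obtain ⟨_, _, c3⟩ := om_all omL om_ok ω hω
  have e1 : dU • vecOf w0c = vecOf (fmvW ttab dwt w0c) := (tw_sound dwt w0c w0_lt).symm
  rw [e1] at e
  have e2 := vecOf_inj_lt (fmvW_lt _ _ _ w0_lt) c3 e
  have h3 := om_d
  rw [e2, (memL_iff _ _).2 hω] at h3
  exact Bool.noConfusion h3

/-! ### the orders -/

theorem cards : Nat.card ↥U1 = 4096 ∧ Nat.card ↥S0 = 2048 := by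
  obtain ⟨n, hn12, hn⟩ := cardU1_pow
  have hdvd : Nat.card ↥S0 ∣ Nat.card ↥U1 := Subgroup.card_dvd_of_le S0_le_U1
  have hne : Nat.card ↥S0 ≠ Nat.card ↥U1 := by
    intro e
    have : S0 = U1 := Subgroup.eq_of_le_of_card_ge S0_le_U1 (le_of_eq e.symm)
    exact d_notin (this ▸ dU_mem_U1)
  have hge := cardS0_ge
  obtain ⟨m, hm⟩ := hdvd
  have hpos : 0 < Nat.card ↥U1 := Nat.card_pos
  have hm2 : 2 ≤ m := by
    rcases Nat.lt_or_ge m 2 with h | h
    · interval_cases m
      · rw [hm, mul_zero] at hpos; omega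
      · rw [mul_one] at hm; exact absurd hm.symm hne
    · exact h
  have hle : Nat.card ↥U1 ≤ 4096 := by
    rw [hn]
    calc 2 ^ n ≤ 2 ^ 12 := Nat.pow_le_pow_right (by norm_num) hn12
      _ = 4096 := by norm_num
  have h2 : 2 * Nat.card ↥S0 ≤ Nat.card ↥S0 * m := by
    rw [mul_comm]; exact Nat.mul_le_mul_left _ hm2
  constructor <;> omega

theorem cardU1 : Nat.card ↥U1 = 2 ^ 12 := by
  rw [cards.1]
  norm_num

theorem S0_surj (s : GLt) (hs : s ∈ S0) : ∃ j < 2048, s = U PS j := by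
  have hb : Function.Bijective repS :=
    repS_inj.bijective_of_nat_card_le (by rw [Nat.card_fin, cards.2])
  obtain ⟨j, hj⟩ := hb.2 ⟨s, hs⟩
  exact ⟨j.val, j.isLt, (congrArg Subtype.val hj).symm⟩

theorem coset (s : GLt) (hs : s ∈ U1) (hns : s ∉ S0) : s * dU⁻¹ ∈ S0 := by
  have hidx : (S0.subgroupOf U1).index = 2 :=
    index_of_card U1 S0 S0_le_U1 (by rw [cards.1, cards.2])
  rw [mul_mem_iff_gen U1 S0 hidx s dU⁻¹ hs (U1.inv_mem dU_mem_U1)]
  constructor
  · intro h; exact absurd h hns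
  · intro h; exact absurd (by simpa using S0.inv_mem h) d_notin

theorem dU_notin_K : dU ∉ K := by
  intro h
  have h' : wp tlU [12, 11, 13, 11, 12] ∈ K := h
  rw [wp_cons, wp_cons, wp_cons, K.mul_mem_cancel_left k12, K.mul_mem_cancel_left k11] at h'
  have h2 : wp tlU [11, 12] ∈ K := by
    rw [wp_cons, wp_cons, wp_nil, mul_one]
    exact K.mul_mem k11 k12
  exact c_notin ((K.mul_mem_cancel_right h2).1 h')

/-! ### the scan -/

theorem U_smul (j : ℕ) (c : ℕ) (hc : c < 2 ^ 52) :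
    U PS j • vecOf c = vecOf (fmvW ttab (uw PS (dp PS j) j) c) :=
  (tw_sound _ c hc).symm

theorem d_smul (c : ℕ) (hc : c < 2 ^ 52) : dU • vecOf c = vecOf (fmvW ttab dwt c) :=
  (tw_sound dwt c hc).symm

/-- the elements of the Sylow subgroup outside the Tits group are not involutions. -/
theorem hodd : ∀ s ∈ U1, s ∉ K → s * s ≠ 1 := by
  intro s hs hsK hss
  by_cases hS : s ∈ S0
  · obtain ⟨j, hj, rfl⟩ := S0_surj s hS
    have hq : qb j = 1 := by
      have h0 : qb j ≠ 0 := fun h0 => hsK ((US_par j hj).2 h0)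
      have := qb_lt j
      omega
    have hsc := scan_all j hj
    unfold scan at hsc
    rw [(beq_iff _ _).2 hq] at hsc
    simp only [cond_true, Bool.not_eq_true'] at hsc
    have e1 : (U PS j * U PS j) • vecOf v0c = vecOf v0c := by rw [hss, one_smul]
    rw [mul_smul, ← lvS.U_pt j hj, U_smul j _ (lk_lt _ _)] at e1
    have e2 := vecOf_inj_lt (fmvW_lt _ _ _ (lk_lt _ _)) v0_lt e1
    rw [e2, Nat.beq_refl] at hsc
    exact Bool.noConfusion hsc
  · have h0 := coset s hs hS
    obtain ⟨j, hj, e⟩ := S0_surj _ h0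
    have es : s = U PS j * dU := by rw [← e, inv_mul_cancel_right]
    have hjK : U PS j ∈ K := by
      by_contra hcon
      apply hsK
      rw [es, par_rule _ _ (S0_le_G (US_mem j hj)) dU_mem_G]
      exact ⟨fun h => absurd h hcon, fun h => absurd h dU_notin_K⟩
    have hq : qb j = 0 := (US_par j hj).1 hjK
    have hsc := scan_all j hj
    unfold scan at hsc
    have hb : Nat.beq (qb j) 1 = false := by rw [hq]; rfl
    rw [hb] at hsc
    simp only [cond_false, Bool.not_eq_true'] at hsc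
    have e1 : (s * s) • vecOf v0c = vecOf v0c := by rw [hss, one_smul]
    rw [es, mul_smul, mul_smul, mul_smul, d_smul _ v0_lt, U_smul j _ (fmvW_lt _ _ _ v0_lt),
      d_smul _ (fmvW_lt _ _ _ (fmvW_lt _ _ _ v0_lt)),
      U_smul j _ (fmvW_lt _ _ _ (fmvW_lt _ _ _ (fmvW_lt _ _ _ v0_lt)))] at e1
    have e2 := vecOf_inj_lt (fmvW_lt _ _ _ (fmvW_lt _ _ _ (fmvW_lt _ _ _ (fmvW_lt _ _ _ v0_lt))))
      v0_lt e1
    rw [e2, Nat.beq_refl] at hsc
    exact Bool.noConfusion hsc

theorem not_dvd_G : ¬ 2 ^ (12 + 1) ∣ Nat.card ↥G := by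
  rw [cardG]
  norm_num

end Cfsg.Agent.Lib.Helper61.TitsSyl
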