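import Mathlib
import Cfsg.Prelude.Def_Classical
import Cfsg.Agent.Lib.Helper61.F16
import Cfsg.Agent.Lib.Helper61.SU34

set_option autoImplicit false

/-!
# A module for `SU(3,4)` over `𝔽₅` on which elements of order 13 have no fixed points

Functions on the isotropic vectors of the Hermitian space `𝔽₁₆³` which are constant on points and
sum to zero on every hyperbolic line form a module; modulo constants (realised as difference
functions on pairs) elements of order 13 act without non-zero fixed points.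
-/

namespace Cfsg.Agent.Lib.Helper61.U34Mod

open Matrix
open Cfsg.Agent.Lib.Helper61.F16

/-- Vectors of the model space. -/
abbrev Vec : Type := Fin 3 → GF16

/-- The Hermitian form, computed with the table of fourth powers. -/
def hf (u w : Vec) : GF16 :=
  u 0 * GF16.frob (w 0) + u 1 * GF16.frob (w 1) + u 2 * GF16.frob (w 2)

theorem hf_eq (u w : Vec) : Cfsg.hermForm 3 GF16 4 u w = hf u w := by
  unfold Cfsg.hermForm hf
  rw [Fin.sum_univ_three, GF16.frob_eq, GF16.frob_eq, GF16.frob_eq]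

theorem frob_mul (x y : GF16) : GF16.frob (x * y) = GF16.frob x * GF16.frob y := by
  rw [GF16.frob_eq, GF16.frob_eq, GF16.frob_eq, mul_pow]

theorem frob_frob : ∀ x : GF16, GF16.frob (GF16.frob x) = x := by decide

theorem frob_zero : GF16.frob 0 = 0 := by decide

theorem frob_ne_zero : ∀ x : GF16, x ≠ 0 → GF16.frob x ≠ 0 := by decide

/-- Non-zero isotropic vectors. -/
def Iso (v : Vec) : Prop := v ≠ 0 ∧ hf v v = 0

instance : DecidablePred Iso := fun v => inferInstanceAs (Decidable (v ≠ 0 ∧ hf v v = 0))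

/-- A primitive cube root of unity. -/
def om : GF16 := e 6

/-- The other primitive cube root of unity. -/
def om2 : GF16 := e 7

/-- The sum of a function over the five isotropic points of the line through `u` and `w`. -/
def bsum (f : Vec → ZMod 5) (u w : Vec) : ZMod 5 :=
  f u + f w + f (w + GF16.frob (hf u w) • u) + f (w + (om * GF16.frob (hf u w)) • u)
    + f (w + (om2 * GF16.frob (hf u w)) • u)

/-- Functions constant on points with zero sum on every hyperbolic line. -/
def W : AddSubgroup (Vec → ZMod 5) where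
  carrier := {f | (∀ (c : GF16) (v : Vec), c ≠ 0 → f (c • v) = f v) ∧
      ∀ u w : Vec, Iso u → Iso w → hf u w ≠ 0 → bsum f u w = 0}
  add_mem' := by
    rintro f g ⟨hf1, hf2⟩ ⟨hg1, hg2⟩
    refine ⟨fun c v hc => ?_, fun u w hu hw huw => ?_⟩
    · simp only [Pi.add_apply, hf1 c v hc, hg1 c v hc]
    · have h1 := hf2 u w hu hw huw
      have h2 := hg2 u w hu hw huw
      unfold bsum at *
      simp only [Pi.add_apply]
      linear_combination h1 + h2
  zero_mem' := by
    refine ⟨fun c v hc => rfl, fun u w hu hw huw => ?_⟩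
    unfold bsum
    simp
  neg_mem' := by
    rintro f ⟨hf1, hf2⟩
    refine ⟨fun c v hc => ?_, fun u w hu hw huw => ?_⟩
    · simp only [Pi.neg_apply, hf1 c v hc]
    · have h1 := hf2 u w hu hw huw
      unfold bsum at *
      simp only [Pi.neg_apply]
      linear_combination -h1

theorem mem_W (f : Vec → ZMod 5) : f ∈ W ↔ (∀ (c : GF16) (v : Vec), c ≠ 0 → f (c • v) = f v) ∧
      ∀ u w : Vec, Iso u → Iso w → hf u w ≠ 0 → bsum f u w = 0 := Iff.rfl

/-- The difference function of `f` on pairs of isotropic vectors. -/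
def del (f : Vec → ZMod 5) : Vec → Vec → ZMod 5 :=
  fun x y => if Iso x ∧ Iso y then f x - f y else 0

/-- `del` as an additive map. -/
def delHom : (Vec → ZMod 5) →+ (Vec → Vec → ZMod 5) where
  toFun := del
  map_zero' := by
    funext x y
    simp [del]
  map_add' f g := by
    funext x y
    simp only [del, Pi.add_apply]
    split_ifs
    · ring
    · simp

/-- The module: difference functions of elements of `W`. -/
def V : AddSubgroup (Vec → Vec → ZMod 5) := W.map delHom

/-- The acting group. -/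
abbrev G : Type := ↥(Cfsg.SU 3 GF16 4)

/-- The matrix of a group element. -/
def mat (g : G) : Matrix (Fin 3) (Fin 3) GF16 :=
  ((g : Matrix.SpecialLinearGroup (Fin 3) GF16) : Matrix (Fin 3) (Fin 3) GF16)

theorem mat_one : mat 1 = 1 := rfl

theorem mat_mul (g h : G) : mat (g * h) = mat g * mat h := rfl

theorem mat_inv_mul (g : G) : mat g⁻¹ * mat g = 1 := by
  rw [← mat_mul, inv_mul_cancel, mat_one]

theorem mat_mul_inv (g : G) : mat g * mat g⁻¹ = 1 := by
  rw [← mat_mul, mul_inv_cancel, mat_one]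

theorem hf_mat (g : G) (u w : Vec) : hf (mat g *ᵥ u) (mat g *ᵥ w) = hf u w := by
  rw [← hf_eq, ← hf_eq]
  exact g.2 u w

theorem mat_mulVec_eq_zero (g : G) (v : Vec) : mat g *ᵥ v = 0 ↔ v = 0 := by
  constructor
  · intro h
    have h1 : mat g⁻¹ *ᵥ (mat g *ᵥ v) = v := by
      rw [Matrix.mulVec_mulVec, mat_inv_mul, Matrix.one_mulVec]
    rw [← h1, h, Matrix.mulVec_zero]
  · intro h
    rw [h, Matrix.mulVec_zero]

theorem iso_mat (g : G) (v : Vec) : Iso (mat g *ᵥ v) ↔ Iso v := by
  unfold Iso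
  rw [hf_mat, Ne, mat_mulVec_eq_zero]

/-- Translation of a function by a group element. -/
def tr (g : G) (f : Vec → ZMod 5) : Vec → ZMod 5 := fun v => f (mat g⁻¹ *ᵥ v)

theorem bsum_tr (g : G) (f : Vec → ZMod 5) (u w : Vec) :
    bsum (tr g f) u w = bsum f (mat g⁻¹ *ᵥ u) (mat g⁻¹ *ᵥ w) := by
  unfold bsum tr
  simp only [Matrix.mulVec_add, Matrix.mulVec_smul, hf_mat]

theorem tr_mem (g : G) {f : Vec → ZMod 5} (h : f ∈ W) : tr g f ∈ W := by
  obtain ⟨h1, h2⟩ := h
  refine ⟨fun c v hc => ?_, fun u w hu hw huw => ?_⟩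
  · show f (mat g⁻¹ *ᵥ (c • v)) = f (mat g⁻¹ *ᵥ v)
    rw [Matrix.mulVec_smul]
    exact h1 c _ hc
  · rw [bsum_tr]
    exact h2 _ _ ((iso_mat _ _).2 hu) ((iso_mat _ _).2 hw) (by rw [hf_mat]; exact huw)

/-- Translation of a function on pairs by a group element. -/
def actFn (g : G) (Φ : Vec → Vec → ZMod 5) : Vec → Vec → ZMod 5 :=
  fun x y => Φ (mat g⁻¹ *ᵥ x) (mat g⁻¹ *ᵥ y)

theorem actFn_del (g : G) (f : Vec → ZMod 5) : actFn g (del f) = del (tr g f) := by
  funext x y
  unfold actFn del tr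
  simp only [iso_mat]

theorem actFn_mem (g : G) {Φ : Vec → Vec → ZMod 5} (h : Φ ∈ V) : actFn g Φ ∈ V := by
  obtain ⟨f, hf, rfl⟩ := h
  exact ⟨tr g f, tr_mem g hf, (actFn_del g f).symm⟩

instance : DistribMulAction G V where
  smul g Φ := ⟨actFn g Φ.1, actFn_mem g Φ.2⟩
  one_smul Φ := by
    apply Subtype.ext
    funext x y
    show Φ.1 (mat 1⁻¹ *ᵥ x) (mat 1⁻¹ *ᵥ y) = Φ.1 x y
    rw [inv_one, mat_one, Matrix.one_mulVec, Matrix.one_mulVec]
  mul_smul g h Φ := by
    apply Subtype.ext
    funext x y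
    show Φ.1 (mat (g * h)⁻¹ *ᵥ x) (mat (g * h)⁻¹ *ᵥ y)
      = Φ.1 (mat h⁻¹ *ᵥ (mat g⁻¹ *ᵥ x)) (mat h⁻¹ *ᵥ (mat g⁻¹ *ᵥ y))
    rw [_root_.mul_inv_rev, mat_mul, Matrix.mulVec_mulVec, Matrix.mulVec_mulVec]
  smul_zero g := by
    apply Subtype.ext
    funext x y
    rfl
  smul_add g Φ Ψ := by
    apply Subtype.ext
    funext x y
    rfl

theorem smul_apply (g : G) (Φ : V) (x y : Vec) :
    (g • Φ).1 x y = Φ.1 (mat g⁻¹ *ᵥ x) (mat g⁻¹ *ᵥ y) := rfl

end Cfsg.Agent.Lib.Helper61.U34Mod
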